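import Cfsg.Statements.S0723
import Mathlib
import Cfsg.Agent.H3.Scott
import Cfsg.Agent.H3.CharSimple
import Cfsg.Agent.H3.NormalMT
import Cfsg.Agent.S0722

set_option autoImplicit false
open Cfsg

namespace Cfsg.Agent.S0723


/-- The core of the O'Nan–Scott Theorem. Let `H` be a primitive permutation group on a finite set whose unique minimal normal subgroup `N` is non-abelian, and `K` a point stabiliser. Then there are a non-abelian simple group `T` and an isomorphism `N ≃* T^m` (`m ≥ 1`) under which `K ⊓ N` becomes either a product `∏ K_i` of proper subgroups `K_i < T`, or the set of functions constant on each block of a partition of the index set into blocks of one common size `k ≥ 2`. -/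
theorem result {α : Type*} [Finite α] (H : Subgroup (Equiv.Perm α)) [MulAction.IsPreprimitive H α] (N : Subgroup H) [N.Normal] (hN : N ≠ ⊥) (hmin : ∀ M : Subgroup H, M.Normal → M ≤ N → M = ⊥ ∨ M = N) (huniq : ∀ L : Subgroup H, L.Normal → L ≠ ⊥ → (∀ M : Subgroup H, M.Normal → M ≤ L → M = ⊥ ∨ M = L) → L = N) (hnab : ¬ IsMulCommutative N) (a : α) : ∃ (T : Type) (_ : Group T) (m : ℕ) (e : N ≃* (Fin m → T)), IsSimpleGroup T ∧ ¬ IsMulCommutative T ∧ 0 < m ∧ ((∃ K : Fin m → Subgroup T, (∀ i, K i ≠ ⊤) ∧ ∀ n : N, (n : H) ∈ MulAction.stabilizer H a ↔ ∀ i, e n i ∈ K i) ∨ (∃ (k : ℕ) (c : Fin m → Fin m), 2 ≤ k ∧ (∀ j : Fin m, Nat.card {i : Fin m // c i = j} = k ∨ Nat.card {i : Fin m // c i = j} = 0) ∧ ∀ n : N, (n : H) ∈ MulAction.stabilizer H a ↔ ∀ i j : Fin m, c i = c j → e n i = e n j)) := by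
  classical
  have : Nontrivial N := (Subgroup.nontrivial_iff_ne_bot N).mpr hN
  obtain ⟨T, _, _, m, hm, ⟨e⟩⟩ := H3.CharSimple.exists_power
    (H3.CharSimple.charSimple_of_minimal_normal N hmin)
  have hT : ¬ IsMulCommutative T := fun h => hnab ⟨⟨fun x y => e.injective (by
    rw [map_mul, map_mul]; funext i; exact h.is_comm.comm _ _)⟩⟩
  have htr : MulAction.IsPretransitive N α := H3.NormalMT.isPretransitive_of_normal N hN
  set K := MulAction.stabilizer H a with hK
  let A : Set ((Fin m → T) ≃* (Fin m → T)) :=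
    {φ | ∃ k ∈ K, φ = e.symm.trans ((MulAut.conjNormal k : MulAut N).trans e)}
  let D : Subgroup (Fin m → T) := (K.subgroupOf N).map e.toMonoidHom
  have hD : ∀ n : N, e n ∈ D ↔ (n : H) ∈ K := fun n =>
    Subgroup.mem_map_iff_mem (f := e.toMonoidHom) e.injective
  let lift : Subgroup (Fin m → T) → Subgroup H := fun X => (X.comap e.toMonoidHom).map N.subtype
  have hlift : ∀ X (n : N), (n : H) ∈ lift X ↔ e n ∈ X := fun X n =>
    Subgroup.mem_map_iff_mem (f := N.subtype) N.subtype_injective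
  have hle : ∀ X, lift X ≤ N := fun X => Subgroup.map_subtype_le _
  have hliftinj : ∀ X Y, lift X = lift Y → X = Y := fun X Y h => Subgroup.ext fun x => by
    rw [← e.apply_symm_apply x, ← hlift, ← hlift, h]
  have hltop : lift ⊤ = N := le_antisymm (hle _) fun x hx => (hlift ⊤ ⟨x, hx⟩).mpr trivial
  have hlbot : lift ⊥ = ⊥ := by
    rw [eq_bot_iff]
    intro x hx
    have := (hlift ⊥ ⟨x, hle _ hx⟩).mp hx
    rw [Subgroup.mem_bot, map_eq_one_iff _ e.injective] at this
    exact congrArg Subtype.val this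
  have hlD : lift D = K ⊓ N := Subgroup.ext fun x =>
    ⟨fun hx => ⟨(hD ⟨x, hle _ hx⟩).mp ((hlift D ⟨x, hle _ hx⟩).mp hx), hle _ hx⟩,
      fun hx => (hlift D ⟨x, hx.2⟩).mpr ((hD ⟨x, hx.2⟩).mpr hx.1)⟩
  have hconj : ∀ X : Subgroup (Fin m → T), (∀ φ ∈ A, ∀ x ∈ X, φ x ∈ X) →
      ∀ k ∈ K, ∀ x ∈ lift X, k * x * k⁻¹ ∈ lift X := by
    intro X hX k hk x hx
    have := hX _ ⟨k, hk, rfl⟩ _ ((hlift X ⟨x, hle _ hx⟩).mp hx)
    simp only [MulEquiv.trans_apply, MulEquiv.symm_apply_apply] at this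
    exact (hlift X _).mpr this
  rcases H3.Scott.analysis hT A (by
      rintro _ ⟨k, hk, rfl⟩
      refine ⟨k⁻¹, K.inv_mem hk, ?_⟩
      rw [map_inv]; rfl) D (by
      intro h
      obtain ⟨n, hn⟩ := exists_ne (1 : N)
      refine hn (Subtype.ext (Subtype.ext (Equiv.ext fun x => ?_)))
      obtain ⟨g, rfl⟩ := MulAction.exists_smul_eq N a x
      have h1 : ((g⁻¹ * n * g : N) : H) ∈ K := (hD _).mp (by rw [h]; trivial)
      have h2 : (g⁻¹ * n * g) • a = a := h1
      rw [mul_smul, mul_smul, inv_smul_eq_iff] at h2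
      exact h2) (by
      rintro _ ⟨k, hk, rfl⟩ x hx
      rw [← e.apply_symm_apply x, hD] at hx
      simp only [MulEquiv.trans_apply]
      rw [hD]
      exact K.mul_mem (K.mul_mem hk hx) (K.inv_mem hk)) (by
      intro X hDX hX
      rcases S0722.result H N hN hmin a (lift X) (hle X) (by
        rw [← hK, ← hlD]; exact Subgroup.map_mono (Subgroup.comap_mono hDX)) (fun k hk => by
          rw [Subgroup.mem_normalizer_iff]
          intro x
          refine ⟨hconj X hX k hk x, fun h => ?_⟩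
          have := hconj X hX k⁻¹ (K.inv_mem hk) _ h
          simpa [mul_assoc] using this) with h | h
      · exact Or.inl (hliftinj _ _ (by rw [h, hlD]))
      · exact Or.inr (hliftinj _ _ (by rw [h, hltop]))) (by
      intro X hXn hX
      rcases hmin (lift X) ⟨fun x hx g => by
        obtain ⟨n, hn⟩ := MulAction.exists_smul_eq N a (g • a)
        have hk : (n : H)⁻¹ * g ∈ K := by
          change ((n : H)⁻¹ * g) • a = a
          rw [mul_smul, inv_smul_eq_iff]
          exact hn.symm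
        have h1 := hconj X hX _ hk x hx
        have h2 := hXn.conj_mem _ ((hlift X ⟨_, hle _ h1⟩).mp h1) (e n)
        rw [← map_inv, ← map_mul, ← map_mul, ← hlift] at h2
        simpa [mul_assoc] using h2⟩ (hle X) with h | h
      · exact Or.inl (hliftinj _ _ (by rw [h, hlbot]))
      · exact Or.inr (hliftinj _ _ (by rw [h, hltop]))) with ⟨L, h1, h2⟩ | ⟨k, c, θ, h1, h2, h3⟩
  · exact ⟨T, inferInstance, m, e, inferInstance, hT, hm, Or.inl ⟨L, h1, fun n => by
      rw [← hD, h2]⟩⟩
  · exact ⟨T, inferInstance, m, e.trans (MulEquiv.piCongrRight θ), inferInstance, hT, hm,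
      Or.inr ⟨k, c, h1, h2, fun n => by rw [← hD, h3]; rfl⟩⟩

end Cfsg.Agent.S0723
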