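import Cfsg.Statements.S5712
import Cfsg.Agent.H7.Ev5

set_option autoImplicit false
open Cfsg

namespace Cfsg.Agent.S5712

/-- Let F be a finite field of characteristic two, n ≥ 2, V = F^{2n} with the non-degenerate alternating form f(u, v) = Σ (u_i v_{n+i} + u_{n+i} v_i), and G the group of invertible matrices preserving f. Let a ≠ 0 be a vector, H its stabilizer in G, and X a subgroup of O₂(H) of order |F|^{2n−2} no element of which is a transvection (no element g has g − 1 of rank one). If L is a subgroup of G containing X that acts irreducibly on V (no proper non-zero L-invariant subspace), then L = G, or, for some quadratic form Q on V whose polar form is f, L is the isometry group of Q or its subgroup of the isometries g for which g − 1 has even rank, or |F| = 2, n = 2 and L is isomorphic to the alternating group of degree 6 or to the symmetric group of degree 5. -/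
theorem result {F : Type*} [Field F] [Fintype F] [CharP F 2] {n : ℕ} (hn : 2 ≤ n) (a : (Fin n ⊕ Fin n → F)) (ha : a ≠ 0)
    (X : Subgroup (GL (Fin n ⊕ Fin n) F)) (hXG : X ≤ Cfsg.preserving (Units.coeHom (Matrix (Fin n ⊕ Fin n) (Fin n ⊕ Fin n) F)) (fun u v : (Fin n ⊕ Fin n → F) => ∑ i : Fin n, (u (Sum.inl i) * v (Sum.inr i) + u (Sum.inr i) * v (Sum.inl i))))
    (hXO : ∀ H : Subgroup (GL (Fin n ⊕ Fin n) F),
      (∀ g : GL (Fin n ⊕ Fin n) F, g ∈ H ↔ (g ∈ Cfsg.preserving (Units.coeHom (Matrix (Fin n ⊕ Fin n) (Fin n ⊕ Fin n) F)) (fun u v : (Fin n ⊕ Fin n → F) => ∑ i : Fin n, (u (Sum.inl i) * v (Sum.inr i) + u (Sum.inr i) * v (Sum.inl i))) ∧ Matrix.mulVec (g : Matrix (Fin n ⊕ Fin n) (Fin n ⊕ Fin n) F) a = a)) →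
      X ≤ (Cfsg.pCore 2 ↥H).map H.subtype)
    (hcard : Nat.card ↥X = Fintype.card F ^ (2 * n - 2))
    (hntv : ∀ x ∈ X, ((x : Matrix (Fin n ⊕ Fin n) (Fin n ⊕ Fin n) F) - 1).rank ≠ 1)
    (L : Subgroup (GL (Fin n ⊕ Fin n) F)) (hXL : X ≤ L) (hLG : L ≤ Cfsg.preserving (Units.coeHom (Matrix (Fin n ⊕ Fin n) (Fin n ⊕ Fin n) F)) (fun u v : (Fin n ⊕ Fin n → F) => ∑ i : Fin n, (u (Sum.inl i) * v (Sum.inr i) + u (Sum.inr i) * v (Sum.inl i))))
    (hirr : ∀ W : Submodule F (Fin n ⊕ Fin n → F), (∀ g ∈ L, ∀ w ∈ W, Matrix.mulVec (g : Matrix (Fin n ⊕ Fin n) (Fin n ⊕ Fin n) F) w ∈ W) → W = ⊥ ∨ W = ⊤) :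
    L = Cfsg.preserving (Units.coeHom (Matrix (Fin n ⊕ Fin n) (Fin n ⊕ Fin n) F)) (fun u v : (Fin n ⊕ Fin n → F) => ∑ i : Fin n, (u (Sum.inl i) * v (Sum.inr i) + u (Sum.inr i) * v (Sum.inl i))) ∨
    (∃ Q : QuadraticForm F (Fin n ⊕ Fin n → F), (∀ u v, QuadraticMap.polar ⇑Q u v = (fun u v : (Fin n ⊕ Fin n → F) => ∑ i : Fin n, (u (Sum.inl i) * v (Sum.inr i) + u (Sum.inr i) * v (Sum.inl i))) u v) ∧
      (L = Cfsg.isometryGroup F ⇑Q ∨
        ∀ g : GL (Fin n ⊕ Fin n) F, g ∈ L ↔ (g ∈ Cfsg.isometryGroup F ⇑Q ∧ Even ((g : Matrix (Fin n ⊕ Fin n) (Fin n ⊕ Fin n) F) - 1).rank))) ∨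
    (Fintype.card F = 2 ∧ n = 2 ∧ (Nonempty (↥L ≃* ↥(alternatingGroup (Fin 6))) ∨ Nonempty (↥L ≃* Equiv.Perm (Fin 5)))) := by
  have hf : (fun u v : (Fin n ⊕ Fin n → F) => ∑ i : Fin n, (u (Sum.inl i) * v (Sum.inr i) +
      u (Sum.inr i) * v (Sum.inl i))) = (H7.spS n F).B := by
    funext u v
    rw [Form.sympPQ_B, Form.sympForm_eq]
    exact Finset.sum_congr rfl fun i _ => by grind
  rw [hf] at hXG hXO hLG ⊢
  have h2 : ∀ w : Fin n ⊕ Fin n → F, w + w = 0 := fun w => funext fun i => CharTwo.add_self_eq_zero _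
  have hG : ∀ g : GL (Fin n ⊕ Fin n) F, g ∈ Cfsg.preserving (Units.coeHom _) (H7.spS n F).B ↔
      Form.glEquiv g ∈ (H7.spS n F).isom := fun g => Form.mem_spGL_iff n g
  have hrk : ∀ g : GL (Fin n ⊕ Fin n) F, (g.val - 1).rank = Module.finrank F (LinearMap.range
      ((Form.glEquiv g : (Fin n ⊕ Fin n → F) →ₗ[F] (Fin n ⊕ Fin n → F)) - 1)) := fun g => by
    rw [Matrix.rank, Form.glEquiv_coe, ← Matrix.toLin'_apply', map_sub, Matrix.toLin'_one]; rfl
  have hm : ∀ (K : Subgroup (GL (Fin n ⊕ Fin n) F)) g,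
      Form.glEquiv g ∈ K.map Form.glEquiv.toMonoidHom ↔ g ∈ K := fun K g =>
    Subgroup.mem_map_iff_mem Form.glEquiv.injective
  have hS := H7.spS_nondeg (F := F) n
  have hcov : H7.Ev.Cov (H7.spS n F) (L.map Form.glEquiv.toMonoidHom) a := by
    refine H7.Ev.cov_of hS ha (Subgroup.map_mono hXL) ?_ ?_ ?_
    · let H := Cfsg.preserving (Units.coeHom (Matrix (Fin n ⊕ Fin n) (Fin n ⊕ Fin n) F)) (H7.spS n F).B ⊓
        (MulAction.stabilizer _ a).comap Form.glEquiv.toMonoidHom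
      let K : Subgroup H :=
        { carrier := {h | ∀ w, (H7.spS n F).B w a = 0 → Form.glEquiv h.1 w + w ∈ F ∙ a}
          one_mem' := fun w _ => by simp [h2]
          mul_mem' := fun {g h} hg hh w hw => by
            obtain ⟨t, ht⟩ := Submodule.mem_span_singleton.1 (hh w hw)
            have h1 : Form.glEquiv g.1 a = a := g.2.2
            have h3 : Form.glEquiv h.1 w = w + t • a := by
              rw [ht, add_comm, add_assoc, h2, add_zero]
            rw [Subgroup.coe_mul, map_mul, LinearEquiv.mul_apply, h3, map_add, map_smul, h1, add_right_comm]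
            exact add_mem (hg w hw) (Submodule.smul_mem _ _ (Submodule.mem_span_singleton_self a))
          inv_mem' := fun {g} hg w hw => by
            have h1 : Form.glEquiv g.1 a = a := g.2.2
            have := hg ((Form.glEquiv g.1).symm w) (by
              rw [← Form.PQ.B_isom ((hG _).1 g.2.1), h1]; simpa using hw)
            rw [LinearEquiv.apply_symm_apply, add_comm] at this
            rwa [Subgroup.coe_inv, map_inv] }
      have hK : Cfsg.pCore 2 H ≤ K := sSup_le fun N hN g hg w hw =>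
        H7.Ev.core_triv hS (fun x => ∃ g ∈ N, Form.glEquiv g.1 = x) (by
          rintro _ ⟨g, hg, rfl⟩
          obtain ⟨k, hk⟩ := hN.2 ⟨g, hg⟩
          exact ⟨(hG _).1 g.2.1, g.2.2, k, by
            rw [← map_pow, ← Subgroup.coe_pow, show g ^ 2 ^ k = 1 from congrArg Subtype.val hk]; simp⟩) (by
          rintro _ ⟨g, hg, rfl⟩ w hw
          let t : H := ⟨Form.glEquiv.symm (H7.tv (H7.spS n F) w 1), (hG _).2 (by simpa using H7.tv_mem w 1),
            show Form.glEquiv (Form.glEquiv.symm _) a = a by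
              rw [MulEquiv.apply_symm_apply]; simp [-Form.sympPQ_B, H7.Ev.sw' hw]⟩
          exact ⟨g * (t * g⁻¹ * t⁻¹), mul_mem hg (hN.1.conj_mem _ (inv_mem hg) t), by
            simp [t, mul_assoc]⟩) ⟨g, hg, rfl⟩ hw
      rintro _ ⟨g, hg, rfl⟩
      obtain ⟨h, hh, rfl⟩ := hXO H (fun g => Iff.rfl) hg
      exact ⟨(hG _).1 h.2.1, h.2.2, hK hh⟩
    · rw [Subgroup.card_map_of_injective Form.glEquiv.injective, hcard, H7.finrank_spS,
        Nat.card_eq_fintype_card]
    · rintro _ ⟨g, hg, rfl⟩; exact hrk g ▸ hntv g hg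
  have hM : L.map Form.glEquiv.toMonoidHom ≤ (H7.spS n F).isom := by
    rintro _ ⟨g, hg, rfl⟩; exact (hG g).1 (hLG hg)
  rcases H7.Ev.main hS hM (fun W hW => hirr W fun g hg => hW _ ((hm L g).2 hg))
    (by rw [H7.finrank_spS]; omega) hcov with h | ⟨Q, h1, h2⟩ | ⟨h1, h2, h3⟩
  · exact .inl (Subgroup.ext fun g => by rw [hG, ← h, hm])
  · have hQ : ∀ g : GL (Fin n ⊕ Fin n) F, g ∈ Cfsg.isometryGroup F Q ↔ ∀ x, Q (Form.glEquiv g x) = Q x :=
      fun g => ⟨fun h x => h x x, fun h x _ => h x⟩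
    exact .inr (.inl ⟨Q, h1, h2.imp (fun h => Subgroup.ext fun g => by rw [hQ, ← h, hm])
      fun h g => by rw [hQ, hrk, ← h, hm]⟩)
  · have e := (L.equivMapOfInjective _ Form.glEquiv.injective : L ≃* L.map Form.glEquiv.toMonoidHom)
    rw [H7.finrank_spS] at h2
    exact .inr (.inr ⟨by rw [← h1, Nat.card_eq_fintype_card], by omega,
      h3.imp (·.map e.trans) (·.map e.trans)⟩)

end Cfsg.Agent.S5712
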