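import Cfsg.Statements.S5713
import Cfsg.Agent.H3.MinDeg

set_option autoImplicit false
open Cfsg

namespace Cfsg.Agent.S5713

open Cfsg.Agent.H3.MinDeg MulAction


/-- A classification-free minimal-degree bound. Let G be a finite group acting faithfully and primitively on a finite set Ω with n elements, and suppose that the image of G in the symmetric group on Ω does not contain the alternating group on Ω. Then every non-identity element of G moves at least (√n − 1)/2 points of Ω, that is, it fixes at most n − (√n − 1)/2 points. -/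
theorem result {G Ω : Type*} [Group G] [Finite G] [MulAction G Ω] [FaithfulSMul G Ω] [Fintype Ω] [DecidableEq Ω]
    (hprim : MulAction.IsPreprimitive G Ω)
    (hA : ¬ alternatingGroup Ω ≤ (MulAction.toPermHom G Ω).range)
    (g : G) (hg : g ≠ 1) :
    (Real.sqrt (Fintype.card Ω) - 1) / 2 ≤ (Fintype.card Ω : ℝ) - Nat.card (MulAction.fixedBy Ω g) := by
  classical
  set s := (MulAction.toPermHom G Ω g).support with hs
  have hcard : Nat.card (MulAction.fixedBy Ω g) + s.card = Fintype.card Ω := by
    rw [← Finset.card_compl_add_card s, Nat.card_eq_fintype_card, Fintype.card_subtype]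
    congr 2
    ext x
    simp [hs]
  have hg1 : MulAction.toPermHom G Ω g ≠ 1 := fun e => hg (MulAction.toPerm_injective (β := Ω) (by
    rw [← MulAction.toPermHom_apply, e, ← MulAction.toPermHom_apply, map_one]))
  have key : Fintype.card Ω ≤ (2 * s.card + 1) ^ 2 := by
    obtain ⟨x, hx⟩ : s.Nonempty := by
      rw [Finset.nonempty_iff_ne_empty, Ne, hs, Equiv.Perm.support_eq_empty_iff]; exact hg1
    have hx' : x ≠ g • x := fun e => (Equiv.Perm.mem_support.mp hx) e.symm
    rcases babai hprim hx' with h | h
    · by_contra hc
      push Not at hc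
      obtain ⟨c, hc1, hc2⟩ := threeCycle_of_small (MulAction.toPermHom G Ω).range
        (fun a u v hu hv => by
          obtain ⟨k, k1, k2⟩ := h a u v hu hv
          exact ⟨_, ⟨k, rfl⟩, k1, k2⟩) ⟨g, rfl⟩ hg1 (by
            rw [← hs]
            have h1 : (s.card - 1) ^ 2 ≤ s.card ^ 2 := Nat.pow_le_pow_left (Nat.sub_le _ _) 2
            have h2 : s.card ^ 2 + 1 ≤ (2 * s.card + 1) ^ 2 := by nlinarith
            omega)
      refine hA (Equiv.Perm.alternatingGroup_le_of_isPreprimitive_of_isThreeCycle_mem ?_ hc2 hc1)
      let f : Ω →ₑ[(MulAction.toPermHom G Ω).rangeRestrict] Ω :=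
        { toFun := id, map_smul' := fun _ _ => rfl }
      exact IsPreprimitive.of_surjective (f := f) Function.surjective_id
    · refine h.trans (Nat.pow_le_pow_left (Nat.succ_le_succ (Nat.mul_le_mul_left _
        (Finset.card_le_card fun z hz => ?_))) 2)
      rw [mem_D] at hz
      rw [hs, Equiv.Perm.mem_support]
      exact fun e => hz ⟨g, e, rfl⟩
  have h1 : Real.sqrt (Fintype.card Ω) ≤ 2 * s.card + 1 := by
    rw [Real.sqrt_le_left (by positivity)]
    exact_mod_cast key
  have h2 : (Nat.card (MulAction.fixedBy Ω g) : ℝ) + s.card = Fintype.card Ω := by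
    exact_mod_cast hcard
  linarith

end Cfsg.Agent.S5713
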