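import Cfsg.Statements.S5722
import Cfsg.Agent.H5.CLen2

set_option autoImplicit false
open Cfsg

namespace Cfsg.Agent.S5722

open Cfsg.Agent.H5.CLen MulAction in

/-- If a finite group G acts faithfully on a finite set with n points and r orbits, then the composition length of G is at most 4(n − r)/3. Here the composition length is expressed through chains: the conclusion bounds the length l of every chain of subgroups 1 = H₀ < H₁ < ⋯ < H_l = G in which each term is normal in the next (the longest such chains are exactly the composition series). -/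
theorem result {G Ω : Type*} [Group G] [Finite G] [MulAction G Ω] [FaithfulSMul G Ω] [Fintype Ω]
    (l : ℕ) (H : Fin (l + 1) → Subgroup G) (h0 : H 0 = ⊥) (hl : H (Fin.last l) = ⊤)
    (hchain : ∀ i : Fin l, H i.castSucc < H i.succ ∧ ((H i.castSucc).subgroupOf (H i.succ)).Normal) :
    3 * l ≤ 4 * (Fintype.card Ω - Nat.card (Quotient (MulAction.orbitRel G Ω))) := by
  have h1 : ∀ i : Fin (l + 1), Ch (H i) i := fun i => by
    induction i using Fin.induction with
    | zero => rw [h0]; exact Ch.bot
    | succ i ih =>
      exact ih.step (hchain i).1 fun b hb a ha =>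
        (hchain i).2.conj_mem ⟨a, (hchain i).1.le ha⟩ ha ⟨b, hb⟩
  have h2 := (h1 (Fin.last l)).le_cl
  have h3 := (bd Ω).act' (G := G) (Set.range (Quotient.out (s := orbitRel G Ω))) (by
    rintro g _ ⟨x, rfl⟩ ⟨y, h⟩
    rw [← h, ← Quotient.out_eq y, h, Quotient.sound (s := orbitRel G Ω) (mem_orbit _ g),
      Quotient.out_eq])
  rw [Set.ncard_range_of_injective Quotient.out_injective, Nat.card_eq_fintype_card (α := Ω)] at h3
  rw [hl, Fin.val_last] at h2
  omega

end Cfsg.Agent.S5722
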