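import Cfsg.Statements.S5729
import Cfsg.Agent.H1.Derange

set_option autoImplicit false
open Cfsg

namespace Cfsg.Agent.S5729

open MulAction Finset Cfsg.Agent.H1.Derange


/-- Let a finite group G act faithfully and transitively on a set with n ≥ 3 points. Then either G is a Frobenius permutation group (Frobenius as a permutation group: transitive, some non-identity element fixes a point, and no non-identity element fixes two points) of order n(n − 1) and exactly |G|/n of its elements are derangements (fix no point), or the number of derangements is greater than |G|/n. -/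
theorem result {G Ω : Type*} [Group G] [Finite G] [MulAction G Ω] [FaithfulSMul G Ω] [Fintype Ω] (htr : MulAction.IsPretransitive G Ω) (hn : 3 ≤ Fintype.card Ω) :
    ((MulAction.IsPretransitive G Ω ∧ (∃ g : G, g ≠ 1 ∧ ∃ ω : Ω, g • ω = ω) ∧ ∀ g : G, g ≠ 1 → Nat.card (MulAction.fixedBy Ω g) ≤ 1) ∧ Nat.card G = Fintype.card Ω * (Fintype.card Ω - 1) ∧ Fintype.card Ω * Nat.card {g : G // ∀ ω : Ω, g • ω ≠ ω} = Nat.card G) ∨
    Nat.card G < Fintype.card Ω * Nat.card {g : G // ∀ ω : Ω, g • ω ≠ ω} := by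
  classical
  have := Fintype.ofFinite G
  have hnt : Nontrivial Ω := Fintype.one_lt_card_iff_nontrivial.1 (by omega)
  rw [or_iff_not_imp_right, ← Nat.card_eq_fintype_card] at *
  intro hle
  push Not at hle
  have h1 := cameron_cohen (G := G) (Ω := Ω)
  have h2 := two_le_rank (G := G) (Ω := Ω)
  have hnn : ∀ g ∈ univ.filter (fun g : G => Nat.card (fixedBy Ω g) ≠ 0),
      0 ≤ ((Nat.card (fixedBy Ω g) : ℤ) - 1) * (Nat.card Ω - Nat.card (fixedBy Ω g)) := by
    intro g hg
    have h3 := (mem_filter.1 hg).2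
    have h4 := card_fixedBy_le (Ω := Ω) g
    apply mul_nonneg <;> omega
  have h3 := sum_nonneg hnn
  have hG : (0 : ℤ) < Nat.card G := by exact_mod_cast Nat.card_pos
  have hle' : (Nat.card Ω : ℤ) * Nat.card {g : G // ∀ ω : Ω, g • ω ≠ ω} ≤ Nat.card G := by
    exact_mod_cast hle
  have h2' : (2 : ℤ) ≤ Nat.card (orbitRel.Quotient G (Ω × Ω)) := by exact_mod_cast h2
  have h4 : ∑ g : G with Nat.card (fixedBy Ω g) ≠ 0,
      ((Nat.card (fixedBy Ω g) : ℤ) - 1) * (Nat.card Ω - Nat.card (fixedBy Ω g)) = 0 := by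
    nlinarith
  have h5 : (Nat.card Ω : ℤ) * Nat.card {g : G // ∀ ω : Ω, g • ω ≠ ω} = Nat.card G := by
    nlinarith
  have h5' : Nat.card Ω * Nat.card {g : G // ∀ ω : Ω, g • ω ≠ ω} = Nat.card G := by
    exact_mod_cast h5
  rw [sum_eq_zero_iff_of_nonneg hnn] at h4
  have h6 : ∀ g : G, g ≠ 1 → Nat.card (fixedBy Ω g) ≤ 1 := by
    intro g hg
    by_cases h0 : Nat.card (fixedBy Ω g) = 0
    · omega
    have h7 := h4 g (mem_filter.2 ⟨mem_univ g, h0⟩)
    have h8 := card_fixedBy_lt (Ω := Ω) hg
    rcases mul_eq_zero.1 h7 with h | h <;> omega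
  have h7 : Nat.card {g : G // ∀ ω : Ω, g • ω ≠ ω} + 1 = Nat.card Ω := by
    have h8 := sum_fix (G := G) (Ω := Ω)
    have h9 : ∑ g : G, (Nat.card (fixedBy Ω g) + if Nat.card (fixedBy Ω g) = 0 then 1 else 0) =
        ∑ g : G, (1 + if g = 1 then Nat.card Ω - 1 else 0) := by
      refine sum_congr rfl fun g _ => ?_
      by_cases hg : g = 1
      · subst hg
        rw [card_fixedBy_one, if_neg (by omega), if_pos rfl]; omega
      · have := h6 g hg
        rw [if_neg hg]
        split_ifs <;> omega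
    rw [sum_add_distrib, sum_add_distrib, h8, sum_boole, ← card_derangements] at h9
    rw [sum_ite_eq', if_pos (mem_univ _), sum_const, card_univ, ← Nat.card_eq_fintype_card,
      smul_eq_mul, mul_one, Nat.cast_id] at h9
    omega
  have h8 : Nat.card G = Nat.card Ω * (Nat.card Ω - 1) := by
    rw [← h5', ← h7]; simp
  refine ⟨⟨htr, ?_, h6⟩, h8, h5'⟩
  by_contra hc
  push Not at hc
  obtain ⟨a⟩ : Nonempty Ω := inferInstance
  have h9 : stabilizer G a = ⊥ := by
    rw [eq_bot_iff]
    intro g hg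
    by_contra h
    exact hc g h a hg
  have h10 := index_stabilizer_of_transitive G a
  rw [h9, Subgroup.index_bot, h8] at h10
  have : Nat.card Ω - 1 = 1 := Nat.eq_of_mul_eq_mul_left (by omega) (h10.trans (mul_one _).symm)
  omega

end Cfsg.Agent.S5729
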