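import Cfsg.Statements.S5730
import Cfsg.Agent.H1.Der4
import Cfsg.Agent.S5729

set_option autoImplicit false
open Cfsg

namespace Cfsg.Agent.S5730

open MulAction Finset Cfsg.Agent.H1.Der2 Cfsg.Agent.H1.Derange Cfsg.Agent.H1.Der3
open Cfsg.Agent.H1.Der4 Cfsg.Agent.H1.PrimeDeg
open scoped Classical

theorem key {G Ω : Type*} [Group G] [MulAction G Ω] [Fintype G] [Fintype Ω] [FaithfulSMul G Ω]
    (h2 : TwoT G Ω) (hn : 7 ≤ Fintype.card Ω) {a b : Ω} (hab : a ≠ b)
    (hh : 2 ≤ Nat.card (st G a b)) :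
    (2 * Nat.card (st G a b) : ℚ) ≤ ∑ g with g ∈ st G a b, (Fintype.card Ω : ℚ) / #(fx Ω g) := by
  have hh' : (2 : ℚ) ≤ Nat.card (st G a b) := by exact_mod_cast hh
  have hφ : 2 ≤ #(line G a b) := by
    rw [← card_pair hab]
    exact card_le_card (insert_subset (left_mem_line _ _) (singleton_subset_iff.2 (right_mem_line _ _)))
  have hb : ∀ g : G, g ≠ 1 → #(fx Ω g) * (#(line G a b) - 1) + 1 ≤ Fintype.card Ω := by
    intro g hg
    obtain ⟨p, hp⟩ := exists_move (Ω := Ω) hg
    exact fix_bound h2 hab hp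
  by_cases h4 : 4 ≤ #(line G a b)
  · refine direct hab hh fun g _ hg => ?_
    have h1 : #(fx Ω g) * 3 ≤ #(fx Ω g) * (#(line G a b) - 1) := Nat.mul_le_mul_left _ (by omega)
    have h3 : #(fx Ω g) * 3 ≤ Fintype.card Ω := by have := hb g hg; omega
    have h5 : (#(fx Ω g) * 3 : ℚ) ≤ Fintype.card Ω := by exact_mod_cast h3
    have h6 : (0 : ℚ) ≤ #(fx Ω g) := by positivity
    nlinarith
  let Z : Finset Ω := {z | 3 ≤ Nat.card (orbit (st G a b) z)}
  have hZ : ∀ z, z ∈ Z ↔ 3 ≤ Nat.card (orbit (st G a b) z) := fun z => by simp [Z]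
  have h6 := six_orbits (G := st G a b) (line G a b) Z
    (fun z hz => mem_line.2 fun g hg => hz ⟨g, hg⟩) (fun z hz => (hZ z).1 hz)
  rcases Z.eq_empty_or_nonempty with h0 | h0
  · have hs := small_of h2 hab (fun z hz => by
      have := (hZ z).2 hz
      rw [h0] at this
      simp at this)
    have h7 : Nat.card (st G a b) = 2 := le_antisymm (hs.card_le h2 hab) hh
    have h8 : Fintype.card Ω ≠ 7 := fun h => not_seven h2 hab h h7
    apply jensen hab hh
    rw [h7]
    have : 3 * Nat.card (orbitRel.Quotient (st G a b) Ω) ≤ Fintype.card Ω * 2 := by omega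
    have h9 : (3 * Nat.card (orbitRel.Quotient (st G a b) Ω) : ℚ) ≤ Fintype.card Ω * 2 := by
      exact_mod_cast this
    push_cast
    linarith
  have h7 := four_le h2 (by omega) Z hZ h0
  by_cases h3 : #(line G a b) = 3
  · by_cases h8 : Fintype.card Ω + 1 ≤ 2 * Nat.card (st G a b)
    · refine direct hab hh fun g _ hg => ?_
      have h1 := hb g hg
      rw [h3] at h1
      have h5 : (#(fx Ω g) * 2 + 1 : ℚ) ≤ Fintype.card Ω := by exact_mod_cast h1
      have h9 : (Fintype.card Ω + 1 : ℚ) ≤ 2 * Nat.card (st G a b) := by exact_mod_cast h8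
      nlinarith
    · apply jensen hab hh
      have h1 : 2 * Nat.card (orbitRel.Quotient (st G a b) Ω) ≤ Fintype.card Ω + 1 := by omega
      have h5 : (2 * Nat.card (orbitRel.Quotient (st G a b) Ω) : ℚ) ≤ Fintype.card Ω + 1 := by
        exact_mod_cast h1
      have h9 : (2 * Nat.card (st G a b) : ℚ) ≤ Fintype.card Ω + 1 := by
        exact_mod_cast (not_le.1 h8).le
      nlinarith
  · apply jensen hab hh
    have h1 : 2 * Nat.card (orbitRel.Quotient (st G a b) Ω) ≤ Fintype.card Ω := by omega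
    have h5 : (2 * Nat.card (orbitRel.Quotient (st G a b) Ω) : ℚ) ≤ Fintype.card Ω := by
      exact_mod_cast h1
    have h9 : (0 : ℚ) ≤ Nat.card (orbitRel.Quotient (st G a b) Ω) := by positivity
    nlinarith


/-- Let a finite group G act faithfully and transitively on a set with n ≥ 7 points. Then either G is a Frobenius permutation group (Frobenius as a permutation group: transitive, some non-identity element fixes a point, and no non-identity element fixes two points) of order n(n − 1)/a with a ∈ {1, 2}, in which case exactly a|G|/n of its elements are derangements, or the number of derangements is at least 2|G|/n. (Equality does occur: PSL₃(2) acting on the 7 points of the Fano plane has exactly 2|G|/7 derangements.) -/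
theorem result {G Ω : Type*} [Group G] [Finite G] [MulAction G Ω] [FaithfulSMul G Ω] [Fintype Ω] (htr : MulAction.IsPretransitive G Ω) (hn : 7 ≤ Fintype.card Ω) :
    (∃ a : ℕ, (a = 1 ∨ a = 2) ∧ (MulAction.IsPretransitive G Ω ∧ (∃ g : G, g ≠ 1 ∧ ∃ ω : Ω, g • ω = ω) ∧ ∀ g : G, g ≠ 1 → Nat.card (MulAction.fixedBy Ω g) ≤ 1) ∧ a * Nat.card G = Fintype.card Ω * (Fintype.card Ω - 1) ∧ Fintype.card Ω * Nat.card {g : G // ∀ ω : Ω, g • ω ≠ ω} = a * Nat.card G) ∨
    2 * Nat.card G ≤ Fintype.card Ω * Nat.card {g : G // ∀ ω : Ω, g • ω ≠ ω} := by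
  classical
  have := Fintype.ofFinite G
  have hnt : Nontrivial Ω := Fintype.one_lt_card_iff_nontrivial.1 (by omega)
  have h1 := cameron_cohen (G := G) (Ω := Ω)
  have h3 := two_le_rank (G := G) (Ω := Ω)
  rw [Nat.card_eq_fintype_card (α := Ω)] at h1
  rcases h3.eq_or_lt with h3 | h3
  swap
  · right
    have hnn : 0 ≤ ∑ g : G with Nat.card (fixedBy Ω g) ≠ 0,
        ((Nat.card (fixedBy Ω g) : ℤ) - 1) * (Fintype.card Ω - Nat.card (fixedBy Ω g)) := by
      refine sum_nonneg fun g hg => ?_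
      have h3 := (mem_filter.1 hg).2
      have h4 := card_fixedBy_le (Ω := Ω) g
      rw [Nat.card_eq_fintype_card (α := Ω)] at h4
      apply mul_nonneg <;> omega
    have h4 : (3 : ℤ) ≤ Nat.card (orbitRel.Quotient G (Ω × Ω)) := by exact_mod_cast h3
    have h5 : (0 : ℤ) ≤ Nat.card G := by positivity
    zify
    nlinarith
  obtain ⟨a, b, hab⟩ := exists_pair_ne Ω
  have h2 : TwoT G Ω := by
    intro x y x' y' h h'
    obtain ⟨q, -, hq⟩ := (Nat.card_eq_two_iff' (Quotient.mk'' (a, a))).1 h3.symm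
    have key : ∀ x y : Ω, x ≠ y → (Quotient.mk'' (x, y) : orbitRel.Quotient G (Ω × Ω)) = q := by
      intro x y hxy
      apply hq
      intro h
      obtain ⟨g, hg⟩ := orbitRel_apply.1 (Quotient.exact' h)
      exact hxy ((congrArg Prod.fst hg).symm.trans (congrArg Prod.snd hg))
    obtain ⟨g, hg⟩ := orbitRel_apply.1 (Quotient.exact' ((key x' y' h').trans (key x y h).symm))
    exact ⟨g, congrArg Prod.fst hg, congrArg Prod.snd hg⟩
  have h4 := double_count h2 hab (fun g => (Fintype.card Ω : ℚ) / #(fx Ω g) - 1)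
    (fun g h => by rw [card_fx_conj])
  have h5 : ((∑ g : G with Nat.card (fixedBy Ω g) ≠ 0,
        ((Nat.card (fixedBy Ω g) : ℤ) - 1) * (Fintype.card Ω - Nat.card (fixedBy Ω g)) : ℤ) : ℚ) =
      ∑ g : G, ((Fintype.card Ω : ℚ) / #(fx Ω g) - 1) * (#(fx Ω g) * (#(fx Ω g) - 1)) := by
    rw [sum_filter]
    push_cast
    refine sum_congr rfl fun g _ => ?_
    rw [card_fx]
    split_ifs with h
    · have : (#(fx Ω g) : ℚ) ≠ 0 := by exact_mod_cast h
      field_simp
    · rw [not_not.1 h]; simp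
  have h6 := congrArg (Int.cast : ℤ → ℚ) h1
  rw [Int.cast_add, h5, h4, ← h3, sum_sub_distrib, sum_const, ← card_st_eq] at h6
  push_cast at h6
  have hG := card_group h2 hab
  have hG' : (Nat.card G : ℚ) = Fintype.card Ω * (Fintype.card Ω - 1) * Nat.card (st G a b) := by
    rw [hG]; push_cast [Nat.cast_sub (show 1 ≤ Fintype.card Ω by omega)]; ring
  by_cases hh : 2 ≤ Nat.card (st G a b)
  · right
    have h7 := key h2 hn hab hh
    have h8 : (7 : ℚ) ≤ Fintype.card Ω := by exact_mod_cast hn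
    have h9 : (0 : ℚ) ≤ Fintype.card Ω * (Fintype.card Ω - 1) := by nlinarith
    have h10 := mul_le_mul_of_nonneg_left h7 h9
    qify
    rw [nsmul_eq_mul] at h6
    linarith
  · left
    have h7 : Nat.card (st G a b) = 1 := by have := Nat.card_pos (α := st G a b); omega
    have h8 : univ.filter (· ∈ st G a b) = {1} := by
      ext g
      simp [Subgroup.card_eq_one.1 h7]
    have h9 : (Fintype.card Ω : ℚ) ≠ 0 := by exact_mod_cast (show Fintype.card Ω ≠ 0 by omega)
    rw [h8, sum_singleton, fx_one, div_self h9, h7] at h6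
    have h10 : Fintype.card Ω * Nat.card {g : G // ∀ ω : Ω, g • ω ≠ ω} = Nat.card G := by
      qify
      rw [h6]; norm_num
    rcases Cfsg.Agent.S5729.result htr (by omega : 3 ≤ Fintype.card Ω) with h | h
    · exact ⟨1, Or.inl rfl, h.1, by rw [one_mul]; exact h.2.1, by rw [one_mul]; exact h.2.2⟩
    · omega

end Cfsg.Agent.S5730
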