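import Cfsg.Statements.S5731
import Cfsg.Agent.H6.DRz
import Cfsg.Agent.H2.DRb
import Cfsg.Agent.H6.DRa
import Cfsg.Agent.H6.DRb
import Cfsg.Agent.H1.DR3c
import Cfsg.Agent.H4.DRm
import Cfsg.Agent.H4.DRm1
import Cfsg.Agent.H5.DRm
import Cfsg.Agent.H7.DRj
import Cfsg.Agent.H8.DRp
import Cfsg.Agent.H9.DRk
import Cfsg.Agent.Dg.PS
import Cfsg.Agent.H8.DRn

set_option autoImplicit false
open Cfsg

namespace Cfsg.Agent.S5731

/-- There is a bound N such that for every finite group G acting faithfully and transitively on a set with n ≥ N points, either G is primitive and a Frobenius permutation group (Frobenius as a permutation group: transitive, some non-identity element fixes a point, and no non-identity element fixes two points), or the proportion of derangements in G is at least (√n + 1)/(2n). -/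
theorem result : ∃ N : ℕ, ∀ (G Ω : Type*) [Group G] [Finite G] [MulAction G Ω] [FaithfulSMul G Ω] [Fintype Ω],
      MulAction.IsPretransitive G Ω → N ≤ Fintype.card Ω →
      (MulAction.IsPreprimitive G Ω ∧ (MulAction.IsPretransitive G Ω ∧ (∃ g : G, g ≠ 1 ∧ ∃ ω : Ω, g • ω = ω) ∧ ∀ g : G, g ≠ 1 → Nat.card (MulAction.fixedBy Ω g) ≤ 1)) ∨
      (Real.sqrt (Fintype.card Ω) + 1) / (2 * Fintype.card Ω) * (Nat.card G : ℝ) ≤ Nat.card {g : G // ∀ ω : Ω, g • ω ≠ ω} := by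
  exact Cfsg.Agent.H6.DR.main Cfsg.Agent.H2.DRb.pb Cfsg.Agent.H2.DRb.pa (Cfsg.Agent.H6.DR.p1 Cfsg.Agent.H2.DRb.pa)
    (Cfsg.Agent.H6.DR.p2 Cfsg.Agent.H2.DRb.pb) (Cfsg.Agent.H1.DR3.p3 Cfsg.Agent.H2.DRb.pb)
    (Cfsg.Agent.H4.DRm.pm Cfsg.Agent.H4.DRm1.pm1 (Cfsg.Agent.H5.DR.pm2 Cfsg.Agent.H2.DRb.pb))
    (Cfsg.Agent.H7.DRj.pj Cfsg.Agent.H2.DRb.pb
      (Cfsg.Agent.H4.DRm.pm Cfsg.Agent.H4.DRm1.pm1 (Cfsg.Agent.H5.DR.pm2 Cfsg.Agent.H2.DRb.pb)))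
    Cfsg.Agent.H8.DR.pp (Cfsg.Agent.H9.DRk.pk Cfsg.Agent.H2.DRb.pb) Cfsg.Agent.Dg.ps Cfsg.Agent.H8.DRn.pn

end Cfsg.Agent.S5731
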