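import Cfsg.Statements.S5732
import Cfsg.Agent.H9.DG4
import Cfsg.Agent.H1.DG5b
import Cfsg.Agent.H2.DGo

set_option autoImplicit false
open Cfsg

namespace Cfsg.Agent.S5732

/-- There is a bound N such that for every finite group G acting faithfully and transitively on a set with n ≥ N points, either G is primitive and a Frobenius permutation group (Frobenius as a permutation group: transitive, some non-identity element fixes a point, and no non-identity element fixes two points), or the subgroup generated by the derangements of G has index at most √n − 1 in G. -/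
theorem result : ∃ N : ℕ, ∀ (G Ω : Type*) [Group G] [Finite G] [MulAction G Ω] [FaithfulSMul G Ω] [Fintype Ω],
      MulAction.IsPretransitive G Ω → N ≤ Fintype.card Ω →
      (MulAction.IsPreprimitive G Ω ∧ (MulAction.IsPretransitive G Ω ∧ (∃ g : G, g ≠ 1 ∧ ∃ ω : Ω, g • ω = ω) ∧ ∀ g : G, g ≠ 1 → Nat.card (MulAction.fixedBy Ω g) ≤ 1)) ∨
      ((Subgroup.closure {g : G | ∀ ω : Ω, g • ω ≠ ω}).index : ℝ) ≤ Real.sqrt (Fintype.card Ω) - 1 := by
  exact H9.DG.main H4.DG.p0 H4.DG.pb H2.DGo.pn (H9.DG.pp H1.DG5.p5)

end Cfsg.Agent.S5732
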