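import Cfsg.Statements.S5736
import Cfsg.Agent.H4.BinPSL

set_option autoImplicit false
open Cfsg

namespace Cfsg.Agent.S5736

/-- Let F be a finite field with q ≥ 4 elements, q ≠ 5, let G = PSL₂(F) and let H be a proper subgroup of G. Then the action of G on the cosets of H is binary if and only if H is trivial, or q is a power of 2 and H is a Sylow 2-subgroup, or q = 2^a with a odd and H has order 3. Here an action is binary (relational complexity 2) when, for every n ≥ 2 and all n-tuples I, J of points, if for every pair of positions some group element carries the corresponding pair of entries of I to those of J, then a single group element carries I to J. -/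
theorem result {F : Type*} [Field F] [Fintype F] (h4 : 4 ≤ Fintype.card F) (h5 : Fintype.card F ≠ 5)
    (H : Subgroup (Matrix.ProjectiveSpecialLinearGroup (Fin 2) F)) (hH : H ≠ ⊤) :
    (∀ (n : ℕ) (I J : Fin n → Matrix.ProjectiveSpecialLinearGroup (Fin 2) F ⧸ H), 2 ≤ n →
        (∀ i j : Fin n, i ≠ j → ∃ g : Matrix.ProjectiveSpecialLinearGroup (Fin 2) F, g • I i = J i ∧ g • I j = J j) → ∃ g : Matrix.ProjectiveSpecialLinearGroup (Fin 2) F, ∀ i, g • I i = J i) ↔
      (H = ⊥ ∨ ((∃ a : ℕ, Fintype.card F = 2 ^ a) ∧ ∃ P : Sylow 2 (Matrix.ProjectiveSpecialLinearGroup (Fin 2) F), H = P) ∨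
        ((∃ a : ℕ, Odd a ∧ Fintype.card F = 2 ^ a) ∧ Nat.card H = 3)) := by
  open Cfsg.Agent.H4 Cfsg.Agent.H4.Mob Cfsg.Agent.H4.MobCard Cfsg.Agent.H4.Bar Cfsg.Agent.H4.Pair Cfsg.Agent.H4.Dick Cfsg.Agent.H4.Quat Cfsg.Agent.H4.Subf Cfsg.Agent.H4.Max Cfsg.Agent.H4.Bin Cfsg.Agent.H4.BinPSL in
  have hi := Matrix.ProjectiveSpecialLinearGroup.toPGL_injective (n := Fin 2) (R := F)
  have : Fact (Nat.Prime 2) := ⟨Nat.prime_two⟩
  rw [← Nat.card_eq_fintype_card] at *
  have hc := Subgroup.card_map_of_injective (K := H) hi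
  have hL : ¬ LS F ≤ H.map Matrix.ProjectiveSpecialLinearGroup.toPGL := fun e =>
    hH (eq_top_iff.2 fun y _ => (Subgroup.mem_map_iff_mem hi).1 (e ⟨y, rfl⟩))
  have hch : (2 : F) = 0 → ∃ a, Nat.card F = 2 ^ a := fun h2 => by
    have : CharP F 2 := (CharP.charP_iff_prime_eq_zero Nat.prime_two).2 (by exact_mod_cast h2)
    obtain ⟨n, -, hn⟩ := FiniteField.card F 2
    exact ⟨n, by rwa [Nat.card_eq_fintype_card]⟩
  have hch' : ∀ a, Nat.card F = 2 ^ a → (2 : F) = 0 := fun a ha => by
    by_contra h2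
    have := odd_of_two_ne h2
    rw [ha, Nat.odd_pow_iff (by rintro rfl; omega)] at this
    exact absurd this (by decide)
  have hfac : ∀ a, Nat.card F = 2 ^ a → (Nat.card (PS F)).factorization 2 = a := fun a ha => by
    have he := even_of_two (hch' a ha)
    have h1 : Nat.card (PS F) = 2 ^ a * ((Nat.card F + 1) * (Nat.card F - 1)) := by
      rw [Nat.card_congr (psEquiv F).toEquiv, LS_eq_top F he, Subgroup.card_top, card_PG, ← ha]; ring
    rw [h1, Nat.factorization_mul (by positivity) (Nat.mul_ne_zero (by omega) (by omega)),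
      Finsupp.add_apply, Nat.factorization_eq_zero_of_not_dvd (n := _ * _), Nat.prime_two.factorization_pow]
    · simp
    · rw [Nat.prime_two.dvd_mul, Nat.even_iff] at *
      omega
  refine (binG_iff hi H).trans ⟨fun hb => ?_, ?_⟩
  · by_cases h1 : H = ⊥
    · exact Or.inl h1
    right
    rcases Nat.even_or_odd (Nat.card H) with he | ho
    · by_cases h2 : (2 : F) = 0
      · obtain ⟨a, ha⟩ := hch h2
        have h3 := even_case h2 hL (hc ▸ he) hb
        exact Or.inl ⟨⟨a, ha⟩, Sylow.ofCard H (by rw [hfac a ha, ← hc, h3, ha]), rfl⟩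
      · have := Nat.odd_iff.1 (odd_of_two_ne h2)
        exact absurd hb (odd_even_case h2 (by omega) (Subgroup.map_le_range _ _) hL (hc ▸ he))
    · obtain ⟨h2, h3, h6⟩ := odd_case (Subgroup.map_le_range _ _)
        (by rwa [Ne, Subgroup.map_eq_bot_iff_of_injective _ hi]) (hc ▸ ho) hb
      obtain ⟨a, ha⟩ := hch h2
      refine Or.inr ⟨⟨a, ?_, ha⟩, hc ▸ h3⟩
      rcases Nat.even_or_odd' a with ⟨b, rfl | rfl⟩
      · have : 2 ^ (2 * b) % 3 = 1 := by rw [pow_mul, Nat.pow_mod]; simp
        omega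
      · exact odd_two_mul_add_one b
  · rintro (rfl | ⟨⟨a, ha⟩, P, rfl⟩ | ⟨⟨a, ⟨b, rfl⟩, ha⟩, h3⟩)
    · refine (binG_iff hi _).1 (binary_of_triple' fun x y g k hg _ _ _ => ?_)
      rw [Subgroup.mem_bot.1 hg]; exact Subgroup.one_mem _
    · exact bin_of_sylow (hch' a ha) (by rw [hc, P.card_eq_multiplicity, hfac a ha, ha])
    · refine bin_of_three (hch' _ ha) (hc.trans h3) ?_
      have : 2 ^ (2 * b + 1) % 3 = 2 := by rw [pow_succ, pow_mul, Nat.mul_mod, Nat.pow_mod]; simp
      rw [← ha] at this; generalize Nat.card F = q at this; omega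

end Cfsg.Agent.S5736
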