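import Cfsg.Statements.S5737
import Cfsg.Agent.H4.Sz2
import Cfsg.Agent.H4.BinPSL

set_option autoImplicit false
open Cfsg

namespace Cfsg.Agent.S5737

/-- Let G = Sz(q) be a Suzuki group, q = 2^(2a+1) with a ≥ 1 (realised inside Sp₄ over the field with q elements), and let H be a proper subgroup of G. Then the action of G on the cosets of H is binary if and only if H is trivial or H is the centre of a Sylow 2-subgroup of G. Here an action is binary (relational complexity 2) when, for every n ≥ 2 and all n-tuples I, J of points, if for every pair of positions some group element carries the corresponding pair of entries of I to those of J, then a single group element carries I to J. -/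
theorem result {F : Type*} [Field F] [Fintype F] (a : ℕ) (ha : 1 ≤ a) (hF : Fintype.card F = 2 ^ (2 * a + 1))
    (H : Subgroup (Cfsg.Lie.Sz F (2 ^ (a + 1)))) (hH : H ≠ ⊤) :
    (∀ (n : ℕ) (I J : Fin n → (Cfsg.Lie.Sz F (2 ^ (a + 1))) ⧸ H), 2 ≤ n →
        (∀ i j : Fin n, i ≠ j → ∃ g : (Cfsg.Lie.Sz F (2 ^ (a + 1))), g • I i = J i ∧ g • I j = J j) → ∃ g : (Cfsg.Lie.Sz F (2 ^ (a + 1))), ∀ i, g • I i = J i) ↔
      (H = ⊥ ∨ ∃ P : Sylow 2 (Cfsg.Lie.Sz F (2 ^ (a + 1))), H = (Subgroup.center (P : Subgroup (Cfsg.Lie.Sz F (2 ^ (a + 1))))).map (P : Subgroup (Cfsg.Lie.Sz F (2 ^ (a + 1)))).subtype) := by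
  open Cfsg.Agent.H4 Cfsg.Agent.H4.Pair Cfsg.Agent.H4.Bin Cfsg.Agent.H4.Sz Cfsg.Agent.H6.Suzuki in
  have : CharP F 2 := charP_of_card hF
  have hθ := tits_sq hF
  have h2 : 2 < Nat.card F := by
    rw [Nat.card_eq_fintype_card, hF]
    calc 2 = 2 ^ 1 := rfl
      _ < _ := Nat.pow_lt_pow_right (by omega) (by omega)
  revert H
  rw [Sz_eq (iterateFrobenius F 2 (a + 1)) _ (iterateFrobenius_def _ _)]
  intro H hH
  refine ⟨fun hb => ?_, ?_⟩
  · rcases Nat.even_or_odd (Nat.card H) with he | ho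
    · obtain ⟨s, hs, s1, s2⟩ := BinPSL.exists_invol_of_even he
      obtain ⟨k, rfl⟩ := even_case hθ h2 hH hs s1 s2 hb
      obtain ⟨P, hP⟩ := exists_sylow hθ
      refine Or.inr ⟨k • P, ?_⟩
      rw [← center_U hθ h2, ← hP, ← center_cj]
      rfl
    · exact Or.inl (odd_case hθ h2 ho hb)
  · rintro (rfl | ⟨P, rfl⟩)
    · refine binary_of_triple' fun x y g k hg _ _ _ => ?_
      rw [Subgroup.mem_bot.1 hg]; exact Subgroup.one_mem _
    · obtain ⟨k, e⟩ := sylow_eq hθ P
      rw [e, center_cj, center_U hθ h2]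
      exact binary_cj (bin_Z hθ) k

end Cfsg.Agent.S5737
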