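import Cfsg.Statements.S5735
import Cfsg.Agent.H1.Bi4
import Cfsg.Agent.H2.BU3
import Cfsg.Agent.S5736
import Cfsg.Agent.S5737

set_option autoImplicit false
open Cfsg

namespace Cfsg.Agent.S5735

theorem mem_Z {G : Type*} [Group G] {P : Subgroup G} {x : G} :
    x ∈ (Subgroup.center P).map P.subtype ↔ x ∈ P ∧ ∀ y ∈ P, y * x = x * y :=
  ⟨by rintro ⟨x, hx, rfl⟩; exact ⟨x.2, fun y hy => congrArg Subtype.val (Subgroup.mem_center_iff.1 hx ⟨y, hy⟩)⟩,
    fun h => ⟨⟨x, h.1⟩, Subgroup.mem_center_iff.2 fun y => Subtype.ext (h.2 y y.2), rfl⟩⟩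

theorem tr0 {G G' : Type*} [Group G] [Finite G] [Group G'] (e : G ≃* G') {H : Subgroup G} {H' : Subgroup G'}
    (h : ∀ x, e x ∈ H' ↔ x ∈ H) : ((∃ P : Sylow 2 G, H = P) → ∃ P : Sylow 2 G', H' = P) ∧
    ((∃ P : Sylow 2 G, H = (Subgroup.center (P : Subgroup G)).map (P : Subgroup G).subtype) →
      ∃ P : Sylow 2 G', H' = (Subgroup.center (P : Subgroup G')).map (P : Subgroup G').subtype) := by
  have k : ∀ (P : Sylow 2 G) x, e x ∈ (P.mapSurjective (f := e.toMonoidHom) e.surjective : Subgroup G') ↔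
      x ∈ (P : Subgroup G) := fun P x => Subgroup.mem_map_iff_mem (f := e.toMonoidHom) e.injective
  constructor <;> rintro ⟨P, rfl⟩ <;> refine ⟨P.mapSurjective (f := e.toMonoidHom) e.surjective, Subgroup.ext fun x => ?_⟩ <;>
    obtain ⟨x, rfl⟩ := e.surjective x
  · rw [h, k]
  · simp only [h, mem_Z, k, e.surjective.forall, ← map_mul, e.injective.eq_iff]

theorem tr {G G' : Type*} [Group G] [Finite G] [Group G'] (e : G ≃* G') (H : Subgroup G) (hH : H ≠ ⊤)
    (he : Even (Nat.card H)) : ∃ H' : Subgroup G', H' ≠ ⊤ ∧ Even (Nat.card H') ∧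
    (H4.Bin.Binary G (G ⧸ H) ↔ H4.Bin.Binary G' (G' ⧸ H')) ∧ ((∃ P : Sylow 2 G, H = P) ↔ ∃ P : Sylow 2 G', H' = P) ∧
    ((∃ P : Sylow 2 G, H = (Subgroup.center (P : Subgroup G)).map (P : Subgroup G).subtype) ↔
      ∃ P : Sylow 2 G', H' = (Subgroup.center (P : Subgroup G')).map (P : Subgroup G').subtype) := by
  have : Finite G' := Finite.of_equiv G e
  have h : ∀ x, e x ∈ H.map e.toMonoidHom ↔ x ∈ H := fun x => Subgroup.mem_map_iff_mem (f := e.toMonoidHom) e.injective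
  have h' : ∀ x, e.symm x ∈ H ↔ x ∈ H.map e.toMonoidHom := fun x => by rw [← h, e.apply_symm_apply]
  exact ⟨_, fun e' => hH (eq_top_iff.2 fun x _ => (h x).1 (e'.ge trivial)),
    by rwa [Subgroup.card_map_of_injective e.injective], ⟨H4.Bin.binary_congr e h, H4.Bin.binary_congr e.symm h'⟩,
    ⟨(tr0 e h).1, (tr0 e.symm h').1⟩, (tr0 e h).2, (tr0 e.symm h').2⟩

/-- Let G be a finite simple group with exactly one conjugacy class of involutions, and let H be a proper subgroup of even order. Then the action of G on the cosets of H is binary if and only if one of the following holds: G ≅ SL₂(2^a) with a ≥ 2 and H is a Sylow 2-subgroup; G is a Suzuki group Sz(2^(2a+1)) with a ≥ 1 and H is the centre of a Sylow 2-subgroup; G ≅ PSU₃(2^a) with a ≥ 2 and H is the centre of a Sylow 2-subgroup. Here an action is binary (relational complexity 2) when, for every n ≥ 2 and all n-tuples I, J of points, if for every pair of positions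 some group element carries the corresponding pair of entries of I to those of J, then a single group element carries I to J. -/
theorem result {G : Type*} [Group G] [Finite G] [IsSimpleGroup G] (hinv : ∃ s : G, orderOf s = 2)
    (hone : ∀ s t : G, orderOf s = 2 → orderOf t = 2 → IsConj s t)
    (H : Subgroup G) (hH : H ≠ ⊤) (heven : Even (Nat.card H)) :
    (∀ (n : ℕ) (I J : Fin n → G ⧸ H), 2 ≤ n →
        (∀ i j : Fin n, i ≠ j → ∃ g : G, g • I i = J i ∧ g • I j = J j) → ∃ g : G, ∀ i, g • I i = J i) ↔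
      (((∃ (F : Type) (_ : Field F) (_ : Fintype F) (a : ℕ), 2 ≤ a ∧ Fintype.card F = 2 ^ a ∧ Nonempty (G ≃* Matrix.SpecialLinearGroup (Fin 2) F)) ∧
          ∃ P : Sylow 2 G, H = P) ∨
        (Cfsg.Lie.IsoSuzuki G ∧ ∃ P : Sylow 2 G, H = (Subgroup.center (P : Subgroup G)).map (P : Subgroup G).subtype) ∨
        ((∃ (F : Type) (_ : Field F) (_ : Fintype F) (a : ℕ), 2 ≤ a ∧ Fintype.card F = (2 ^ a) ^ 2 ∧ Nonempty (G ≃* Cfsg.PSU 3 F (2 ^ a))) ∧
          ∃ P : Sylow 2 G, H = (Subgroup.center (P : Subgroup G)).map (P : Subgroup G).subtype)) := by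
  have hc : ∀ s t : G, s ≠ 1 → s * s = 1 → t ≠ 1 → t * t = 1 → ∃ k, k * s * k⁻¹ = t := fun s t s1 s2 t1 t2 =>
    isConj_iff.1 (hone s t (Bd.Inv.orderOf ⟨s1, s2⟩) (Bd.Inv.orderOf ⟨t1, t2⟩))
  have nb : ∀ {G' : Type} [Group G'] {H' : Subgroup G'}, Even (Nat.card H') → H' ≠ ⊥ := by
    rintro G' _ _ h rfl
    simp at h
  have c1 : ∀ (F : Type) [Field F] [Fintype F] (a : ℕ), 2 ≤ a → Fintype.card F = 2 ^ a →
      (G ≃* Matrix.ProjectiveSpecialLinearGroup (Fin 2) F) → (H4.Bin.Binary G (G ⧸ H) ↔ ∃ P : Sylow 2 G, H = P) :=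
    fun F _ _ a ha hF e => by
      obtain ⟨H', h1, h2, h3, h4, -⟩ := tr e H hH heven
      rw [h3, h4]
      refine (S5736.result (hF ▸ Nat.pow_le_pow_right (n := 2) (by norm_num) ha) (fun e => ?_) H' h1).trans
        ⟨?_, fun h => .inr (.inl ⟨⟨a, hF⟩, h⟩)⟩
      · exact absurd (e ▸ hF ▸ dvd_pow_self 2 (by omega) : 2 ∣ 5) (by norm_num)
      · rintro (h | h | h)
        · exact absurd h (nb h2)
        · exact h.2
        · rw [h.2] at h2; exact absurd h2 (by decide)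
  have c2 : Cfsg.Lie.IsoSuzuki G → (H4.Bin.Binary G (G ⧸ H) ↔
      ∃ P : Sylow 2 G, H = (Subgroup.center (P : Subgroup G)).map (P : Subgroup G).subtype) := by
    rintro ⟨F, _, _, a, ha, hF, ⟨e⟩⟩
    obtain ⟨H', h1, h2, h3, -, h4⟩ := tr e H hH heven
    rw [h3, h4]
    exact (S5737.result a ha hF H' h1).trans ⟨fun h => h.resolve_left (nb h2), .inr⟩
  have c3 : ∀ (F : Type) [Field F] [Fintype F] (a : ℕ), 2 ≤ a → Fintype.card F = (2 ^ a) ^ 2 →
      (G ≃* Cfsg.PSU 3 F (2 ^ a)) → (H4.Bin.Binary G (G ⧸ H) ↔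
      ∃ P : Sylow 2 G, H = (Subgroup.center (P : Subgroup G)).map (P : Subgroup G).subtype) := fun F _ _ a ha hF e => by
    obtain ⟨H', h1, h2, h3, -, h4⟩ := tr e H hH heven
    rw [h3, h4]
    have := e.symm.isSimpleGroup
    refine H2.BU.u3 ha hF (fun s t s1 s2 t1 t2 => ?_) H' h1 h2
    obtain ⟨s, rfl⟩ := e.surjective s
    obtain ⟨t, rfl⟩ := e.surjective t
    obtain ⟨k, rfl⟩ := hc s t (by simpa using s1) (e.injective (by simpa using s2)) (by simpa using t1)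
      (e.injective (by simpa using t2))
    exact ⟨e k, by simp⟩
  refine ⟨fun hb => ?_, ?_⟩
  · rcases H1.Bi.classify hc hH heven hb with ⟨F, _, _, a, ha, hF, ⟨e⟩⟩ | h | ⟨F, _, _, a, ha, hF, ⟨e⟩⟩
    · have := H6.Suzuki.charP_of_card hF
      obtain ⟨i⟩ := H3.Rk.slA (F := F)
      exact .inl ⟨⟨F, _, _, a, ha, hF, ⟨e.trans i.symm⟩⟩, (c1 F a ha hF e).1 hb⟩
    · exact .inr (.inl ⟨h, (c2 h).1 hb⟩)
    · exact .inr (.inr ⟨⟨F, _, _, a, ha, hF, ⟨e⟩⟩, (c3 F a ha hF e).1 hb⟩)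
  · rintro (⟨⟨F, _, _, a, ha, hF, ⟨e⟩⟩, h⟩ | ⟨h', h⟩ | ⟨⟨F, _, _, a, ha, hF, ⟨e⟩⟩, h⟩)
    · have := H6.Suzuki.charP_of_card hF
      obtain ⟨i⟩ := H3.Rk.slA (F := F)
      exact (c1 F a ha hF (e.trans i)).2 h
    · exact (c2 h').2 h
    · exact (c3 F a ha hF e).2 h

end Cfsg.Agent.S5735
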