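import Cfsg.Statements.S5739
import Cfsg.Agent.H2.Singer

set_option autoImplicit false
open Cfsg

namespace Cfsg.Agent.S5739

/-- Let F ⊆ K be finite fields with |F| = q and [K : F] = n ≥ 2, and let M ≤ GL_F(K) be the Singer group of multiplications by non-zero elements of K. If g ∈ GL_F(K) does not normalise M, then the order of M ∩ gMg⁻¹ divides q^r − 1 for some proper divisor r of n. In particular, when n is prime, that order divides q − 1. -/
theorem result {F K : Type*} [Field F] [Fintype F] [Field K] [Fintype K] [Algebra F K] (n : ℕ) (hn : 2 ≤ n) (hdim : Module.finrank F K = n)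
    (g : (Module.End F K)ˣ) (hg : ((Units.map ((Algebra.lmul F K : K →ₐ[F] Module.End F K) : K →* Module.End F K)).range).map (MulAut.conj g).toMonoidHom ≠ (Units.map ((Algebra.lmul F K : K →ₐ[F] Module.End F K) : K →* Module.End F K)).range) :
    ∃ r : ℕ, 1 ≤ r ∧ r ∣ n ∧ r < n ∧ Nat.card ↥(((Units.map ((Algebra.lmul F K : K →ₐ[F] Module.End F K) : K →* Module.End F K)).range).map (MulAut.conj g).toMonoidHom ⊓ (Units.map ((Algebra.lmul F K : K →ₐ[F] Module.End F K) : K →* Module.End F K)).range) ∣ Fintype.card F ^ r - 1 := by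
  classical
  open Cfsg.Agent.H2.Singer in
  let E0 : Subalgebra F K :=
    { carrier := {k | ∃ l : K, ∀ x, (g : Module.End F K) (l * x) = k * (g : Module.End F K) x}
      mul_mem' := by
        rintro a b ⟨l, hl⟩ ⟨m, hm⟩
        exact ⟨l * m, fun x => by rw [mul_assoc, hl, hm, mul_assoc]⟩
      add_mem' := by
        rintro a b ⟨l, hl⟩ ⟨m, hm⟩
        exact ⟨l + m, fun x => by rw [add_mul, map_add, hl, hm, add_mul]⟩
      algebraMap_mem' := fun c => ⟨algebraMap F K c, fun x => by
        rw [← Algebra.smul_def, ← Algebra.smul_def, map_smul]⟩ }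
  let E : IntermediateField F K := E0.toIntermediateField (by
    rintro a ⟨l, hl⟩
    by_cases ha : a = 0
    · rw [ha, inv_zero]; exact E0.zero_mem
    have hl0 : l ≠ 0 := by
      rintro rfl
      have := hl (((g⁻¹ : (Module.End F K)ˣ) : Module.End F K) 1)
      rw [zero_mul, map_zero, apply_inv_apply, mul_one] at this
      exact ha this.symm
    refine ⟨l⁻¹, fun x => ?_⟩
    have := hl (l⁻¹ * x)
    rw [← mul_assoc, mul_inv_cancel₀ hl0, one_mul] at this
    rw [this, ← mul_assoc, inv_mul_cancel₀ ha, one_mul])
  have hmem : ∀ k : Kˣ, singerHom F K k ∈ ((singerHom F K).range).map (MulAut.conj g).toMonoidHom ↔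
      (k : K) ∈ E := by
    intro k
    constructor
    · rintro ⟨_, ⟨l, rfl⟩, hl⟩
      refine ⟨l, fun x => ?_⟩
      have := congrArg (fun h : (Module.End F K)ˣ => (h : Module.End F K) ((g : Module.End F K) x)) hl
      simp only [MulEquiv.toMonoidHom_eq_coe, MonoidHom.coe_coe, MulAut.conj_apply, Units.val_mul,
        Module.End.mul_apply, inv_apply_apply, singerHom_apply] at this
      exact this
    · rintro ⟨l, hl⟩
      refine ⟨g⁻¹ * singerHom F K k * g, (mem_singer_iff _).mpr ⟨l, fun x => ?_⟩, by
        simp [mul_assoc]⟩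
      rw [Units.val_mul, Units.val_mul, Module.End.mul_apply, Module.End.mul_apply, singerHom_apply,
        ← hl, inv_apply_apply]
  have htower := Module.finrank_mul_finrank F E K
  have hpos : 0 < Module.finrank F E := Module.finrank_pos
  have hdvd : Module.finrank F E ∣ n := ⟨_, by rw [← hdim, htower]⟩
  refine ⟨Module.finrank F E, hpos, hdvd, ?_, ?_⟩
  · rcases (Nat.le_of_dvd (by omega) hdvd).lt_or_eq with h | h
    · exact h
    exfalso
    apply hg
    have hE : E = ⊤ := by
      apply IntermediateField.eq_of_le_of_finrank_eq le_top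
      rw [h, IntermediateField.finrank_top', hdim]
    symm
    have : Finite (Module.End F K) := DFunLike.finite _
    apply Subgroup.eq_of_le_of_card_ge
    · rintro _ ⟨k, rfl⟩
      rw [hmem, hE]; trivial
    · rw [Subgroup.card_map_of_injective (MulAut.conj g).injective]
  · have hc : Nat.card E = Fintype.card F ^ Module.finrank F E := by
      rw [Module.natCard_eq_pow_finrank (K := F), Nat.card_eq_fintype_card]
    rw [← hc, ← Nat.card_units]
    apply Dvd.intro 1
    rw [mul_one]
    symm
    let f : Eˣ → ↥(((singerHom F K).range).map (MulAut.conj g).toMonoidHom ⊓ (singerHom F K).range) :=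
      fun e => ⟨singerHom F K (Units.map (E.val : E →* K) e), (hmem _).mpr (e : E).2, ⟨_, rfl⟩⟩
    apply Nat.card_eq_of_bijective f
    constructor
    · intro a b hab
      have := singerHom_injective (congrArg Subtype.val hab)
      exact Units.ext (Subtype.ext (congrArg Units.val this))
    · rintro ⟨_, h1, ⟨k, rfl⟩⟩
      replace h1 := (hmem k).mp h1
      refine ⟨Units.mk0 ⟨k, h1⟩ (fun h => k.ne_zero (congrArg Subtype.val h)), ?_⟩
      apply Subtype.ext
      change singerHom F K _ = singerHom F K k
      congr 1
      exact Units.ext rfl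

end Cfsg.Agent.S5739
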