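import Cfsg.Statements.S5746
import Cfsg.Agent.H7.J2e

set_option autoImplicit false
open Cfsg

namespace Cfsg.Agent.S5746

/-- The Chevalley group G₂(4) (over the field with 4 elements) has a maximal subgroup H isomorphic to the Hall–Janko group J₂ such that for every x outside H the intersection H ∩ xHx⁻¹ is a maximal subgroup of H; that is, the action of G₂(4) on the cosets of H is extremely primitive. -/
theorem result {F : Type*} [Field F] [Fintype F] (hF : Fintype.card F = 4) :
    ∃ H : Subgroup (Cfsg.Lie.chevG2.group F), IsCoatom H ∧ Cfsg.Spor.IsoJ2 H ∧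
      ∀ x : Cfsg.Lie.chevG2.group F, x ∉ H → IsCoatom ((H ⊓ H.map (MulAut.conj x).toMonoidHom).subgroupOf H) := by
  have : CharP F 2 := charP_of_card_eq_prime_pow (p := 2) (f := 2) hF
  classical
  obtain ⟨ω, h0, h1⟩ : ∃ ω : F, ω ≠ 0 ∧ ω ≠ 1 := by
    by_contra! h
    have := Finset.card_le_card (show Finset.univ ⊆ ({0, 1} : Finset F) from fun x _ => by
      by_cases hx : x = 0 <;> simp [hx, h x])
    have := this.trans Finset.card_le_two
    simp [hF] at this
  have h3 : ∀ c : F, c ^ 4 = c := fun c => hF ▸ FiniteField.pow_card c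
  have hω : ω * ω = ω + 1 := by have := h3 ω; grind
  obtain ⟨e⟩ := H7.J2.G_iso hω fun t => by have := h3 t; grind
  obtain ⟨H, h4, ⟨e'⟩, h5⟩ := H7.Cert.transfer e (H7.J2.H_cov hω) fun x => H7.J2.ext_prim hω
  exact ⟨H, h4, ⟨e'.trans (H7.J2.H_iso hω).some⟩, h5⟩

end Cfsg.Agent.S5746
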