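import Cfsg.Statements.S5747


set_option autoImplicit false
open Cfsg

namespace Cfsg.Agent.S5747

section aux
variable {G Ω : Type*} [Group G] [MulAction G Ω]

/-- irredundant sequences relative to the already fixed points `A` -/
def Pre (G : Type*) [Group G] [MulAction G Ω] : List Ω → List Ω → Prop
  | _, [] => True
  | A, x :: l => (∃ g : G, (∀ y ∈ A, g • y = y) ∧ g • x ≠ x) ∧ Pre G (A ++ [x]) l

/-- bases -/
def Base (G : Type*) [Group G] [MulAction G Ω] (l : List Ω) : Prop :=
  ∀ g : G, (∀ y ∈ l, g • y = y) → g = 1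

theorem pre_append (A l₁ l₂ : List Ω) :
    Pre G A (l₁ ++ l₂) ↔ Pre G A l₁ ∧ Pre G (A ++ l₁) l₂ := by
  induction l₁ generalizing A with
  | nil => simp [Pre]
  | cons x l ih => simp [Pre, ih, and_assoc]

theorem pre_ofFn (A : List Ω) {t : ℕ} (f : Fin t → Ω) :
    Pre G A (List.ofFn f) ↔
      ∀ i : Fin t, ∃ g : G, (∀ y ∈ A, g • y = y) ∧ (∀ j : Fin t, j < i → g • f j = f j) ∧
        g • f i ≠ f i := by
  induction t generalizing A with
  | zero => simp [Pre]
  | succ t ih =>
    rw [List.ofFn_succ, Pre, ih, Fin.forall_fin_succ]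
    refine and_congr (by simp) (forall_congr' fun i => exists_congr fun g => ?_)
    rw [Fin.forall_fin_succ]
    simp only [List.mem_append, List.mem_singleton, Fin.succ_pos, forall_const,
      Fin.succ_lt_succ_iff, or_imp, forall_and, forall_eq, and_assoc]

theorem irr_ofFn {t : ℕ} (f : Fin t → Ω) :
    ((∀ g : G, (∀ i : Fin t, g • f i = f i) → g = 1) ∧ ∀ i : Fin t, ∃ g : G,
      (∀ j : Fin t, j < i → g • f j = f j) ∧ g • f i ≠ f i) ↔
    Base G (List.ofFn f) ∧ Pre G [] (List.ofFn f) := by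
  rw [pre_ofFn]
  simp [Base, List.forall_mem_ofFn_iff]

theorem exists_sublist (A l : List Ω) (h : Base G (A ++ l)) :
    ∃ l', l'.Sublist l ∧ Base G (A ++ l') ∧ Pre G A l' := by
  induction l generalizing A with
  | nil => exact ⟨[], List.Sublist.refl _, h, trivial⟩
  | cons x l ih =>
    by_cases hx : ∃ g : G, (∀ y ∈ A, g • y = y) ∧ g • x ≠ x
    · obtain ⟨l', h1, h2, h3⟩ := ih (A ++ [x]) (by simpa using h)
      exact ⟨x :: l', h1.cons_cons x, by simpa using h2, hx, h3⟩
    · push Not at hx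
      obtain ⟨l', h1, h2, h3⟩ := ih A (fun g hg => h g (fun y hy => by
        simp only [List.mem_append, List.mem_cons] at hy hg
        rcases hy with hy | rfl | hy
        · exact hg y (Or.inl hy)
        · exact hx g (fun y hy => hg y (Or.inl hy))
        · exact hg y (Or.inr hy)))
      exact ⟨l', h1.cons x, h2, h3⟩

theorem pre_not_mem (A l : List Ω) (h : Pre G A l) : l.Nodup ∧ ∀ x ∈ l, x ∉ A := by
  induction l generalizing A with
  | nil => simp
  | cons x l ih =>
    obtain ⟨⟨g, hg, hx⟩, h2⟩ := h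
    obtain ⟨h3, h4⟩ := ih _ h2
    refine ⟨List.nodup_cons.mpr ⟨fun hl => h4 x hl (by simp), h3⟩, ?_⟩
    intro y hy hA
    rcases List.mem_cons.mp hy with rfl | hy
    · exact hx (hg _ hA)
    · exact h4 y hy (by simp [hA])

theorem length_eq
    (P : ∀ l l' : List Ω, l.Perm l' → Base G l → Pre G [] l → Pre G [] l')
    (B₂ : List Ω) (hB₂ : Base G B₂) (hP₂ : Pre G [] B₂) (n : ℕ) :
    ∀ B₁ : List Ω, Base G B₁ → Pre G [] B₁ → {x | x ∈ B₁ ∧ x ∉ B₂}.ncard = n →
      B₁.length = B₂.length := by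
  classical
  induction n using Nat.strong_induction_on with
  | _ n ih =>
  intro B₁ hB₁ hP₁ hn
  have hfin : ∀ B : List Ω, {x | x ∈ B ∧ x ∉ B₂}.Finite := fun B =>
    (List.finite_toSet B).subset (fun x hx => hx.1)
  by_cases hsub : ∀ x ∈ B₁, x ∈ B₂
  · have hsp : B₁.Subperm B₂ := (pre_not_mem _ _ hP₁).1.subperm hsub
    obtain ⟨l, hl⟩ : ∃ l, B₂.Perm (B₁ ++ l) := by
      exact ⟨B₂.diff B₁, (List.subperm_append_diff_self_of_count_le
        (List.subperm_ext_iff.mp hsp)).symm⟩
    have := (pre_append _ _ _).mp (P _ _ hl hB₂ hP₂)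
    cases l with
    | nil => simpa using hl.length_eq.symm
    | cons y l =>
      obtain ⟨⟨g, hg, hy⟩, -⟩ := this.2
      rw [hB₁ g (by simpa using hg), one_smul] at hy
      exact absurd rfl hy
  push Not at hsub
  obtain ⟨x, hx1, hx2⟩ := hsub
  set A := B₁.erase x with hA
  have hperm : B₁.Perm (A ++ [x]) := (List.perm_cons_erase hx1).trans (List.perm_append_singleton _ _).symm
  have hBA : Base G (A ++ [x]) := fun g hg => hB₁ g (fun y hy => hg y (hperm.subset hy))
  obtain ⟨hPA, ⟨g, hg, hgx⟩, -⟩ := (pre_append _ _ _).mp (P _ _ hperm hB₁ hP₁)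
  rw [List.nil_append] at hg
  have hg1 : g ≠ 1 := fun e => hgx (by rw [e, one_smul])
  obtain ⟨y, hy, hgy⟩ : ∃ y ∈ B₂, g • y ≠ y := by
    by_contra h
    push Not at h
    exact hg1 (hB₂ g h)
  have hPy : Pre G [] (A ++ [y]) := (pre_append _ _ _).mpr ⟨hPA, ⟨g, by simpa using hg, hgy⟩, trivial⟩
  have hBy : Base G (A ++ [y]) := by
    intro k hk
    by_contra hk1
    have hkx : k • x ≠ x := fun e => hk1 (hBA k (fun z hz => by
      rcases List.mem_append.mp hz with hz | hz
      · exact hk z (by simp [hz])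
      · rw [List.mem_singleton.mp hz]; exact e))
    have h1 : Pre G [] ((A ++ [y]) ++ [x]) :=
      (pre_append _ _ _).mpr ⟨hPy, ⟨k, by simpa using hk, hkx⟩, trivial⟩
    have h2 := P _ ((A ++ [x]) ++ [y]) (by
      rw [List.append_assoc, List.append_assoc]
      exact List.Perm.append_left _ (List.Perm.swap _ _ _))
      (fun g hg => hBA g (fun z hz => hg z (by
        simp only [List.mem_append, List.mem_singleton] at hz ⊢; tauto))) h1
    obtain ⟨-, ⟨g', hg', hgy'⟩, -⟩ := (pre_append _ _ _).mp h2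
    rw [hBA g' (by simpa using hg'), one_smul] at hgy'
    exact hgy' rfl
  have hlen : (A ++ [y]).length = B₁.length := by
    rw [hperm.length_eq]; simp
  rw [← hlen]
  refine ih _ ?_ _ hBy hPy rfl
  rw [← hn]
  refine Set.ncard_lt_ncard ⟨?_, ?_⟩ (hfin _)
  · rintro z ⟨hz1, hz2⟩
    rcases List.mem_append.mp hz1 with hz | hz
    · exact ⟨List.mem_of_mem_erase hz, hz2⟩
    · rw [List.mem_singleton.mp hz] at hz2; exact absurd hy hz2
  · intro h
    have := (h ⟨hx1, hx2⟩).1
    rcases List.mem_append.mp this with hz | hz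
    · exact hgx (hg x hz)
    · rw [List.mem_singleton.mp hz] at hx2; exact hx2 hy

end aux


/-- Let a finite group G act on a finite set Ω. An irredundant base is a sequence of points ω₁, …, ω_t whose pointwise stabiliser is trivial and in which each ω_i is moved by some element fixing ω₁, …, ω_{i−1}. Then all irredundant bases have the same length if and only if every reordering of an irredundant base is again an irredundant base. -/
theorem result {G Ω : Type*} [Group G] [Finite G] [MulAction G Ω] [Fintype Ω] :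
    (∀ (t t' : ℕ) (f : Fin t → Ω) (f' : Fin t' → Ω), ((∀ g : G, (∀ i : Fin t, g • f i = f i) → g = 1) ∧ ∀ i : Fin t, ∃ g : G, (∀ j : Fin t, j < i → g • f j = f j) ∧ g • f i ≠ f i) → ((∀ g : G, (∀ i : Fin t', g • f' i = f' i) → g = 1) ∧ ∀ i : Fin t', ∃ g : G, (∀ j : Fin t', j < i → g • f' j = f' j) ∧ g • f' i ≠ f' i) → t = t') ↔
    (∀ (t : ℕ) (f : Fin t → Ω) (σ : Equiv.Perm (Fin t)), ((∀ g : G, (∀ i : Fin t, g • f i = f i) → g = 1) ∧ ∀ i : Fin t, ∃ g : G, (∀ j : Fin t, j < i → g • f j = f j) ∧ g • f i ≠ f i) → ((∀ g : G, (∀ i : Fin t, g • (f ∘ σ) i = (f ∘ σ) i) → g = 1) ∧ ∀ i : Fin t, ∃ g : G, (∀ j : Fin t, j < i → g • (f ∘ σ) j = (f ∘ σ) j) ∧ g • (f ∘ σ) i ≠ (f ∘ σ) i)) := by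
  constructor
  · intro h t f σ hf
    have hb : Base G (List.ofFn (f ∘ σ)) := by
      intro g hg
      refine hf.1 g (fun i => ?_)
      rw [List.forall_mem_ofFn_iff] at hg
      simpa using hg (σ.symm i)
    obtain ⟨l, h1, h2, h3⟩ := exists_sublist [] (List.ofFn (f ∘ σ)) hb
    have h4 : t = l.length := h t l.length f l.get hf ((irr_ofFn l.get).mpr (by
      rw [List.ofFn_get]; exact ⟨h2, h3⟩))
    have h5 : l = List.ofFn (f ∘ σ) := h1.eq_of_length (by rw [List.length_ofFn, h4])
    exact (irr_ofFn _).mpr (h5 ▸ ⟨h2, h3⟩)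
  · intro h t t' f f' hf hf'
    have P : ∀ l l' : List Ω, l.Perm l' → Base G l → Pre G [] l → Pre G [] l' := by
      intro l l' hp hb hl
      have hn := (pre_not_mem _ _ hl).1
      have hn' := hp.nodup_iff.mp hn
      have hlen := hp.length_eq
      let f₁ : Fin l.length → Ω := l.get
      let f₂ : Fin l.length → Ω := fun i => l'.get (Fin.cast hlen i)
      have h1 : Function.Injective f₁ := List.nodup_iff_injective_get.mp hn
      have h2 : Function.Injective f₂ :=
        (List.nodup_iff_injective_get.mp hn').comp (Fin.cast_injective _)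
      have h3 : ∀ i, ∃ j, f₁ j = f₂ i := fun i =>
        List.get_of_mem (hp.symm.subset (List.get_mem _ _))
      choose s hs using h3
      have hsi : Function.Injective s := fun i j e => h2 (by rw [← hs, ← hs, e])
      let σ : Equiv.Perm (Fin l.length) := Equiv.ofBijective s (Finite.injective_iff_bijective.mp hsi)
      have h4 := (irr_ofFn _).mp (h _ f₁ σ ((irr_ofFn _).mpr (by
        rw [List.ofFn_get]; exact ⟨hb, hl⟩)))
      have h5 : List.ofFn (f₁ ∘ σ) = l' := by
        have : f₁ ∘ σ = f₂ := funext hs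
        rw [this]
        apply List.ext_get (by simp [hlen])
        intro i h1 h2
        simp [f₂]
      rw [h5] at h4
      exact h4.2
    obtain ⟨h1, h2⟩ := (irr_ofFn f).mp hf
    obtain ⟨h3, h4⟩ := (irr_ofFn f').mp hf'
    simpa using length_eq P _ h3 h4 _ _ h1 h2 rfl

end Cfsg.Agent.S5747
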