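import Cfsg.Statements.S5748
import Cfsg.Agent.H4.CA3

set_option autoImplicit false
open Cfsg

namespace Cfsg.Agent.S5748

/-- A finite non-abelian simple group in which commuting is a transitive relation on the non-identity elements (equivalently, every non-identity element has abelian centraliser) is isomorphic to PSL₂ over a field with 2^f elements for some f ≥ 2; conversely these groups have that property. -/
theorem result {G : Type*} [Group G] [Finite G] [IsSimpleGroup G] (hG : ¬ IsMulCommutative G) :
    (∀ a b c : G, a ≠ 1 → b ≠ 1 → c ≠ 1 → Commute a b → Commute b c → Commute a c) ↔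
    ∃ (F : Type) (_ : Field F) (_ : Fintype F) (f : ℕ), 2 ≤ f ∧ Fintype.card F = 2 ^ f ∧ Nonempty (G ≃* Matrix.ProjectiveSpecialLinearGroup (Fin 2) F) := by
  open Cfsg.Agent.H4 Cfsg.Agent.H4.CAG Cfsg.Agent.H5.Zas1 in
  refine ⟨fun h => ?_, ?_⟩
  · have hC : ∀ y : G, y ≠ 1 → CA (Subgroup.centralizer {y}) := fun y y1 x hx x1 => by
      ext z
      rw [mem_cent, mem_cent]
      by_cases z1 : z = 1
      · simp [z1]
      exact ⟨fun e => h z x y z1 x1 y1 e (mem_cent.1 hx),
        fun e => h z y x z1 y1 x1 e (mem_cent.1 hx).symm⟩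
    rcases Nat.even_or_odd (Nat.card G) with he | ho
    · obtain ⟨t, -, t1, t2⟩ := H5.Odd.exists_involution_of_even (X := (⊤ : Subgroup G)) (by rwa [Subgroup.card_top])
      exact even_case hG (hC t t1) (mem_cent.2 rfl) t1 t2
    · have := Fintype.ofFinite G
      exact (odd_case hG ho hC).elim
  · rintro ⟨F, _, _, f, hf, hF, ⟨e⟩⟩ a b c - hb - h1 h2
    have : CharP F 2 := charP_of_card_eq_prime_pow hF
    have hi := (Matrix.ProjectiveSpecialLinearGroup.toPGL_injective (n := Fin 2) (R := F)).comp e.injective
    let φ : G →* Mob.PG F := Matrix.ProjectiveSpecialLinearGroup.toPGL.comp e.toMonoidHom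
    refine hi (show φ (a * c) = φ (c * a) from ?_)
    rw [map_mul, map_mul]
    exact pg_ct (b := φ b) CharTwo.two_eq_zero (fun e => hb (hi (e.trans φ.map_one.symm)))
      (h1.map φ).eq (h2.map φ).eq.symm

end Cfsg.Agent.S5748
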