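import Cfsg.Statements.S5752
import Cfsg.Agent.H3.TW2

set_option autoImplicit false
open Cfsg

namespace Cfsg.Agent.S5752

open Cfsg.Agent.H3.TW Cfsg.Agent.H5.Core

theorem core_le {G : Type*} [Group G] (M Y : Subgroup G) :
    (Y.subgroupOf M).normalCore.map M.subtype ≤ Y := by
  rintro _ ⟨x, hx, rfl⟩
  exact (Y.subgroupOf M).normalCore_le hx

theorem le_core {G : Type*} [Group G] {M Y X : Subgroup G} (h1 : X ≤ M) (h2 : X ≤ Y) (h3 : Nm M X) :
    X ≤ (Y.subgroupOf M).normalCore.map M.subtype := by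
  intro x hx
  exact ⟨⟨x, h1 hx⟩, fun b => h2 (h3 b b.2 x hx), rfl⟩

theorem mem_of_coatom {G : Type*} [Group G] [Finite G] {M : Subgroup G} (hmax : IsCoatom M)
    (hcore : M.normalCore = ⊥) :
    ∀ X ≤ M, X ≠ ⊥ → Nm M X → ∀ g, (∀ x ∈ X, g * x * g⁻¹ ∈ X) → g ∈ M := by
  intro X hX hne hn g hg
  have h1 : g ∈ Subgroup.normalizer (X : Set G) := Subgroup.mem_normalizer_fintype hg
  rcases hn.le_normalizer.eq_or_lt with e | e
  · rwa [e]
  · exfalso
    have h2 : X.Normal := Subgroup.normalizer_eq_top_iff.mp (hmax.2 _ e)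
    exact hne (le_bot_iff.mp (hcore ▸ (Subgroup.normal_le_normalCore).mpr hX))

theorem Op_map_le {G : Type*} [Group G] [Finite G] (p : ℕ) (f : G ≃* G) (M : Subgroup G) :
    (Op p M).map f.toMonoidHom ≤ Op p (M.map f.toMonoidHom) := by
  have h1 := (SN.of_nm (Op_le p M) (nm_Op p M)).map f.toMonoidHom
  have h2 : IsPi {p} ((Op p M).map f.toMonoidHom) := (isPi_map_subtype.mpr isPi_Opi).map _
  have h3 := subnormal_le_Opi h1.isSubnormal (h2.subgroupOf _)
  intro k hk
  exact ⟨⟨k, h1.le hk⟩, h3 hk, rfl⟩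

theorem card_Op_le {G : Type*} [Group G] [Finite G] (p : ℕ) (f : G ≃* G) (M : Subgroup G) :
    Nat.card (Op p M) ≤ Nat.card (Op p (M.map f.toMonoidHom)) := by
  rw [← Subgroup.card_map_of_injective (K := Op p M) (f := f.toMonoidHom) f.injective]
  exact Subgroup.card_le_of_le (Op_map_le p f M)


/-- A form of the Thompson–Wielandt Theorem on primitive permutation groups. Let G be a finite group and M₁, M₂ two distinct conjugate maximal subgroups of G with trivial core in G; define two descending sequences of subgroups by A₀ = M₁, B₀ = M₂ and, for every i, A_{i+1} = the core in M₁ of A_i ∩ B_i and B_{i+1} = the core in M₂ of A_i ∩ B_i (the core in M of a subgroup Y ≤ M is the largest normal subgroup of M contained in Y). If A₂ and B₂ are both non-trivial, then for some prime p the subgroup generated by A₂ and B₂ is a p-group, and for each j the generalized Fitting subgroups of M_j and of its first core (A₁, resp. B₁) are their largest normal p-subgroups.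 -/
theorem result {G : Type*} [Group G] [Finite G] (M₁ M₂ : Subgroup G) (hmax : IsCoatom M₁) (g : G)
    (hconj : M₂ = M₁.map (MulAut.conj g).toMonoidHom) (hne : M₁ ≠ M₂) (hcore : M₁.normalCore = ⊥)
    (A B : ℕ → Subgroup G) (hA0 : A 0 = M₁) (hB0 : B 0 = M₂)
    (hA : ∀ i, A (i + 1) = ((A i ⊓ B i).subgroupOf M₁).normalCore.map M₁.subtype)
    (hB : ∀ i, B (i + 1) = ((A i ⊓ B i).subgroupOf M₂).normalCore.map M₂.subtype) (hA2 : A 2 ≠ ⊥) (hB2 : B 2 ≠ ⊥) :
    ∃ p : ℕ, p.Prime ∧ IsPGroup p ↥(A 2 ⊔ B 2) ∧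
      Cfsg.generalizedFittingSubgroup ↥M₁ = Cfsg.pCore p ↥M₁ ∧ Cfsg.generalizedFittingSubgroup ↥(A 1) = Cfsg.pCore p ↥(A 1) ∧
      Cfsg.generalizedFittingSubgroup ↥M₂ = Cfsg.pCore p ↥M₂ ∧ Cfsg.generalizedFittingSubgroup ↥(B 1) = Cfsg.pCore p ↥(B 1) := by
  have hback : M₁ = M₂.map (MulAut.conj g).symm.toMonoidHom := by
    rw [hconj, Subgroup.map_map]
    ext x
    simp
  have hmax2 : IsCoatom M₂ := by
    rw [hconj]
    exact ((MulAut.conj g).mapSubgroup.isCoatom_iff M₁).mpr hmax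
  have hcore2 : M₂.normalCore = ⊥ := by
    rw [eq_bot_iff, ← hcore]
    intro x hx b
    have := hx (g * b)
    rw [hconj] at this
    obtain ⟨y, hy, e⟩ := this
    have e' : b * x * b⁻¹ = y := by
      have e2 : g * y * g⁻¹ = g * b * x * (g * b)⁻¹ := e
      calc b * x * b⁻¹ = g⁻¹ * (g * b * x * (g * b)⁻¹) * g := by group
        _ = y := by rw [← e2]; group
    rw [e']; exact hy
  have a1 := hA 0
  have b1 := hB 0
  have a2 := hA 1
  have b2 := hB 1
  rw [hA0, hB0] at a1 b1
  simp only [zero_add, one_add_one_eq_two] at a1 b1 a2 b2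
  have hP : Pair M₁ M₂ (A 1) (B 1) (A 2) (B 2) :=
    { n1 := mem_of_coatom hmax hcore
      n2 := mem_of_coatom hmax2 hcore2
      ne := hne
      card := fun p => le_antisymm (hconj ▸ card_Op_le p _ M₁) (by
        have := card_Op_le p (MulAut.conj g).symm M₂
        rwa [← hback] at this)
      a1 := a1 ▸ (core_le M₁ _).trans inf_le_left
      a1' := a1 ▸ (core_le M₁ _).trans inf_le_right
      a1n := a1 ▸ nm_map_of_normal inferInstance
      a1m := fun X h1 h2 h3 => a1 ▸ le_core h1 (le_inf h1 h2) h3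
      b1 := b1 ▸ (core_le M₂ _).trans inf_le_right
      b1' := b1 ▸ (core_le M₂ _).trans inf_le_left
      b1n := b1 ▸ nm_map_of_normal inferInstance
      b1m := fun X h1 h2 h3 => b1 ▸ le_core h1 (le_inf h2 h1) h3
      a2 := a2 ▸ (core_le M₁ _).trans inf_le_left
      a2' := a2 ▸ (core_le M₁ _).trans inf_le_right
      a2n := a2 ▸ nm_map_of_normal inferInstance
      a2ne := hA2
      b2 := b2 ▸ (core_le M₂ _).trans inf_le_right
      b2' := b2 ▸ (core_le M₂ _).trans inf_le_left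
      b2n := b2 ▸ nm_map_of_normal inferInstance
      b2ne := hB2 }
  obtain ⟨p, hp, h1, h2, h3, h4, h5⟩ := hP.main
  have := Fact.mk hp
  refine ⟨p, hp, ?_, gfit_eq (SN.refl _) (fun q a b => (h3 q a b).1) h4,
    gfit_eq (SN.of_nm hP.a1 hP.a1n) (fun q a b => (h3 q a b).1) h4,
    gfit_eq (SN.refl _) (fun q a b => (h3 q a b).2) h5,
    gfit_eq (SN.of_nm hP.b1 hP.b1n) (fun q a b => (h3 q a b).2) h5⟩
  exact h1.to_sup_of_normal_right' h2 (hP.b2n.mono (hP.a2.trans hP.a1')).le_normalizer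

end Cfsg.Agent.S5752
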