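import Cfsg.Statements.S5753
import Cfsg.Agent.H2.Bin6

set_option autoImplicit false
open Cfsg

namespace Cfsg.Agent.S5753

theorem exists_coords (A : Type*) [AddCommGroup A] [Finite A] [Nontrivial A] (p : ℕ) [Fact p.Prime]
    (h : ∀ x : A, p • x = 0) : ∃ d, 0 < d ∧ Nonempty (A ≃+ (Fin d → ZMod p)) := by
  obtain ⟨i⟩ : Nonempty (Module (ZMod p) A) := ⟨AddCommGroup.zmodModule h⟩
  exact ⟨Module.finrank (ZMod p) A, Module.finrank_pos, ⟨(Module.finBasis (ZMod p) A).equivFun.toAddEquiv⟩⟩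

open MulAction Cfsg.Agent.H2.Binary in
theorem coords {G Ω : Type*} [Group G] [Finite G] [MulAction G Ω] [FaithfulSMul G Ω]
    (hprim : MulAction.IsPreprimitive G Ω)
    (haff : ∃ N : Subgroup G, N.Normal ∧ N ≠ ⊥ ∧ IsMulCommutative ↥N) :
    ∃ (p d : ℕ) (_ : Fact p.Prime) (β : Ω ≃ (Fin d → ZMod p)), 0 < d ∧
      (∀ b, ∃ g : G, ∀ ω, β (g • ω) = β ω + b) ∧
      ∀ g : G, ∃ (h : (Fin d → ZMod p) ≃ₗ[ZMod p] (Fin d → ZMod p)) (b : Fin d → ZMod p),
        ∀ ω, β (g • ω) = h (β ω) + b := by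
  classical
  obtain ⟨N₀, hN₀, hne, hab⟩ := haff
  have hcomm : ∀ x ∈ N₀, ∀ y ∈ N₀, x * y = y * x := fun x hx y hy =>
    congrArg Subtype.val (hab.is_comm.comm (⟨x, hx⟩ : N₀) ⟨y, hy⟩)
  obtain ⟨p, hp, hpd⟩ := Nat.exists_prime_and_dvd (fun h => hne (Subgroup.card_eq_one.mp h))
  haveI : Fact p.Prime := ⟨hp⟩
  obtain ⟨x₀, hx₀⟩ := exists_prime_orderOf_dvd_card' p hpd
  let N : Subgroup G :=
    { carrier := {x | x ∈ N₀ ∧ x ^ p = 1}
      mul_mem' := fun {a b} ha hb => ⟨mul_mem ha.1 hb.1, by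
        rw [Commute.mul_pow (hcomm a ha.1 b hb.1), ha.2, hb.2, one_mul]⟩
      one_mem' := ⟨one_mem _, one_pow _⟩
      inv_mem' := fun {a} ha => ⟨inv_mem ha.1, by rw [inv_pow, ha.2, inv_one]⟩ }
  haveI hN : N.Normal := ⟨fun n hn g => ⟨hN₀.conj_mem n hn.1 g, by rw [conj_pow, hn.2]; group⟩⟩
  have hx1 : (x₀ : G) ∈ N := ⟨x₀.2, by
    rw [← hx₀]; exact congrArg Subtype.val (pow_orderOf_eq_one x₀)⟩
  have hx2 : (x₀ : G) ≠ 1 := fun h => hp.ne_one (by
    rw [← hx₀, show x₀ = 1 from Subtype.ext h, orderOf_one])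
  have hfp : fixedPoints N Ω ≠ .univ := fun h => hx2 (FaithfulSMul.eq_of_smul_eq_smul (α := Ω)
    fun ω => by
      rw [one_smul]
      exact (h.ge (Set.mem_univ ω)) ⟨_, hx1⟩)
  have htr : IsPretransitive N Ω := IsQuasiPreprimitive.isPretransitive_of_normal hfp
  obtain ⟨ω₀, -⟩ := (Set.ne_univ_iff_exists_notMem _).mp hfp
  letI : CommGroup N := { (inferInstance : Group N) with
    mul_comm := fun a b => Subtype.ext (hcomm _ a.2.1 _ b.2.1) }
  have hbij : Function.Bijective fun n : N => (n : G) • ω₀ := by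
    refine ⟨fun a b hab => Subtype.ext (FaithfulSMul.eq_of_smul_eq_smul (α := Ω) fun ω => ?_),
      fun ω => htr.exists_smul_eq ω₀ ω⟩
    obtain ⟨m, rfl⟩ := htr.exists_smul_eq ω₀ ω
    change (a : G) • (m : G) • ω₀ = (b : G) • (m : G) • ω₀
    simp only at hab
    rw [← mul_smul, ← mul_smul, hcomm _ a.2.1 _ m.2.1, hcomm _ b.2.1 _ m.2.1, mul_smul, mul_smul, hab]
  haveI : Nontrivial (Additive N) := ⟨⟨Additive.ofMul ⟨_, hx1⟩, 0, fun h => hx2
    (congrArg (fun y : Additive N => (y.toMul : G)) h)⟩⟩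
  obtain ⟨d, hd, ⟨ε⟩⟩ := exists_coords (Additive N) p fun x =>
    congrArg Additive.ofMul (Subtype.ext x.toMul.2.2 : x.toMul ^ p = 1)
  let γ := Equiv.ofBijective _ hbij
  have hγ : ∀ n : N, γ n = (n : G) • ω₀ := fun _ => rfl
  refine ⟨p, d, inferInstance, γ.symm.trans (Additive.ofMul.trans ε.toEquiv), hd,
    fun b => ⟨(ε.symm b).toMul, fun ω => ?_⟩, fun g => ?_⟩
  · obtain ⟨n, rfl⟩ := γ.surjective ω
    rw [hγ n, ← mul_smul, ← Subgroup.coe_mul, ← hγ, ← hγ]
    simp [add_comm]
  · let c := ε.symm.trans ((MulAut.conjNormal g : N ≃* N).toAdditive.trans ε)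
    let c' : (Fin d → ZMod p) ≃ₗ[ZMod p] (Fin d → ZMod p) :=
      { c with map_smul' := ZMod.map_smul c.toAddMonoidHom }
    obtain ⟨m, hm⟩ := γ.surjective (g • ω₀)
    refine ⟨c', ε (Additive.ofMul m), fun ω => ?_⟩
    obtain ⟨n, rfl⟩ := γ.surjective ω
    have : g • γ n = γ (MulAut.conjNormal g n * m) := by
      rw [hγ, hγ, Subgroup.coe_mul, mul_smul, ← hγ m, hm, MulAut.conjNormal_apply, ← mul_smul,
        ← mul_smul, inv_mul_cancel_right]
    rw [this]
    simp only [Equiv.trans_apply, Equiv.symm_apply_apply, AddEquiv.toEquiv_eq_coe,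
      EquivLike.coe_coe, ofMul_mul, map_add]
    congr 1
    change _ = ε ((MulAut.conjNormal g : N ≃* N).toAdditive (ε.symm (ε _)))
    rw [AddEquiv.symm_apply_apply]; rfl


open MulAction Cfsg.Agent.H2.Binary Pointwise in
/-- The binary primitive permutation groups of affine type (the known proof uses the classification of the finite simple groups). Let a finite group G act faithfully and primitively on a finite set Ω, with a non-trivial abelian normal subgroup, and suppose the action is binary: for every n ≥ 2 and all n-tuples I, J of points, if for every pair of positions some element of G carries the corresponding pair of entries of I to those of J, then a single element carries I to J. Then either Ω has a prime number of points and every point stabilizer has order at most 2, or Ω can be identified with a field E that is a quadratic extension of a subfield F in such a way that the permutations induced by G are exactly the maps x ↦ a·φ(x) + b with a ∈ E of norm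 1 over F, φ an automorphism of E over F and b ∈ E (the affine group of the anisotropic plane orthogonal group). -/
theorem result {G Ω : Type*} [Group G] [Finite G] [MulAction G Ω] [FaithfulSMul G Ω] [Fintype Ω]
    (hprim : MulAction.IsPreprimitive G Ω)
    (haff : ∃ N : Subgroup G, N.Normal ∧ N ≠ ⊥ ∧ IsMulCommutative ↥N)
    (hbin : ∀ (n : ℕ) (I J : Fin n → Ω), 2 ≤ n →
      (∀ i j : Fin n, i ≠ j → ∃ g : G, g • I i = J i ∧ g • I j = J j) → ∃ g : G, ∀ i, g • I i = J i) :
    ((Fintype.card Ω).Prime ∧ ∀ ω : Ω, Nat.card ↥(MulAction.stabilizer G ω) ≤ 2) ∨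
    (∃ (F E : Type) (_ : Field F) (_ : Fintype F) (_ : Field E) (_ : Fintype E) (_ : Algebra F E) (e : Ω ≃ E),
        Module.finrank F E = 2 ∧
        ∀ σ : Equiv.Perm Ω, σ ∈ (MulAction.toPermHom G Ω).range ↔
          ∃ (a b : E) (φ : E ≃ₐ[F] E), Algebra.norm F a = 1 ∧ ∀ ω : Ω, e (σ ω) = a * φ (e ω) + b) := by
  classical
  obtain ⟨p, d, hp, β, hd, htr, hlin⟩ := coords hprim haff
  let H : Subgroup ((Fin d → ZMod p) ≃ₗ[ZMod p] (Fin d → ZMod p)) :=
    { carrier := {h | ∃ (g : G) (b : Fin d → ZMod p), ∀ ω, β (g • ω) = h (β ω) + b}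
      mul_mem' := by
        rintro h k ⟨g, b, hg⟩ ⟨g', b', hg'⟩
        exact ⟨g * g', h b' + b, fun ω => by rw [mul_smul, hg, hg', map_add, mul_app, add_assoc]⟩
      one_mem' := ⟨1, 0, fun ω => by simp⟩
      inv_mem' := by
        rintro h ⟨g, b, hg⟩
        refine ⟨g⁻¹, -h⁻¹ b, fun ω => ?_⟩
        have := hg (g⁻¹ • ω)
        rw [smul_inv_smul] at this
        rw [this, map_add, inv_app, add_neg_cancel_right] }
  have hA : ∀ g : G, ∃ h ∈ H, ∃ b, ∀ ω, β (g • ω) = h (β ω) + b := fun g => by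
    obtain ⟨h, b, hh⟩ := hlin g
    exact ⟨h, ⟨g, b, hh⟩, b, hh⟩
  have hB : ∀ h ∈ H, ∀ b, ∃ g : G, ∀ ω, β (g • ω) = h (β ω) + b := by
    rintro h ⟨g, b', hg⟩ b
    obtain ⟨g', hg'⟩ := htr (b - b')
    exact ⟨g' * g, fun ω => by rw [mul_smul, hg', hg]; abel⟩
  have hirr : Irr H := by
    intro X hX
    have hb : IsBlock G (β ⁻¹' X) := by
      refine isBlock_iff_smul_eq_of_mem.mpr fun g a ha hga => ?_
      refine Set.eq_of_subset_of_ncard_le ?_ (Set.ncard_smul_set _ _).ge
      rintro _ ⟨ω, hω, rfl⟩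
      obtain ⟨h, hh, b, hg⟩ := hA g
      change β (g • ω) ∈ X
      change β (g • a) ∈ X at hga
      rw [hg] at hga ⊢
      exact add_mem (hX h hh _ hω) ((add_mem_cancel_left (hX h hh _ ha)).mp hga)
    rcases hb.subsingleton_or_eq_univ with h | h
    · refine Or.inl (eq_bot_iff.mpr fun v hv => ?_)
      have := h (show β.symm v ∈ β ⁻¹' X by simpa using hv) (show β.symm 0 ∈ β ⁻¹' X by simp)
      simpa using this
    · refine Or.inr (eq_top_iff.mpr fun v _ => ?_)
      simpa using h.ge (Set.mem_univ (β.symm v))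
  have hB' : Bin H := by
    intro R h1 h2
    let T : Finset _ := (insert (0, 0) R).toFinite.toFinset
    let f : Fin (T.card + 1 + 1) → (Fin d → ZMod p) × (Fin d → ZMod p) :=
      Fin.cons (0, 0) (Fin.cons (0, 0) fun i => T.equivFin.symm i)
    have hf : ∀ i, f i = (0, 0) ∨ f i ∈ R := fun i => by
      refine Fin.cases (Or.inl rfl) (fun i => Fin.cases (Or.inl rfl) (fun i => ?_) i) i
      exact (Set.Finite.mem_toFinset (insert (0, 0) R).toFinite).mp (T.equivFin.symm i).2
    have key : ∀ P Q : (Fin d → ZMod p) × (Fin d → ZMod p), (P = (0, 0) ∨ P ∈ R) →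
        (Q = (0, 0) ∨ Q ∈ R) → ∃ g ∈ H, g (P.1 - Q.1) = P.2 - Q.2 := by
      rintro P Q (rfl | hP) (rfl | hQ)
      · exact ⟨1, one_mem _, rfl⟩
      · obtain ⟨g, hg, e⟩ := h1 Q hQ
        exact ⟨g, hg, by simp [e]⟩
      · simpa using h1 P hP
      · exact h2 P hP Q hQ
    obtain ⟨g, hg⟩ := hbin _ (fun i => β.symm (f i).1) (fun i => β.symm (f i).2) (by omega)
      fun i j _ => by
        obtain ⟨h, hh, e⟩ := key _ _ (hf i) (hf j)
        obtain ⟨g, hg⟩ := hB h hh ((f j).2 - h (f j).1)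
        rw [map_sub] at e
        refine ⟨g, β.injective ?_, β.injective ?_⟩
        · rw [hg]; simp only [Equiv.apply_symm_apply]; rw [add_sub_left_comm, e]; abel
        · rw [hg]; simp
    obtain ⟨h, hh, b, hgb⟩ := hA g
    have e : ∀ i, h (f i).1 + b = (f i).2 := fun i => by
      have := hgb (β.symm (f i).1)
      rw [hg] at this
      simpa using this.symm
    have hb : b = 0 := by simpa [f] using e 0
    refine ⟨h, hh, fun P hP => ?_⟩
    have := e (T.equivFin ⟨P, (Set.Finite.mem_toFinset _).mpr (Or.inr hP)⟩).succ.succ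
    simpa [f, hb] using this
  rcases dichotomy hB' hirr with hpm | ⟨m, g, c, hg, hn⟩
  · left
    have hd1 : d = 1 := by
      let v : Fin d → ZMod p := Pi.single ⟨0, hd⟩ 1
      have hv : v ≠ 0 := fun h => by simpa [v] using congrFun h ⟨0, hd⟩
      rcases hirr (Submodule.span _ {v}) (fun h hh w hw => by
        rcases hpm h hh with rfl | h1
        · exact hw
        · rw [h1]; exact neg_mem hw) with h | h
      · exact (hv (by simpa using h)).elim
      · have := finrank_span_singleton (K := ZMod p) hv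
        rw [h] at this
        simpa using this
    refine ⟨by rw [Fintype.card_congr β]; simpa [hd1] using hp.out, fun ω => ?_⟩
    let f : stabilizer G ω → Bool := fun g => decide (g = 1)
    refine (Nat.card_le_card_of_injective f fun a b hab => ?_).trans (by simp)
    have key : ∀ a : stabilizer G ω, a ≠ 1 → ∀ x, β ((a : G) • x) = -β x + 2 • β ω := by
      intro a ha x
      obtain ⟨h, hh, b, hg⟩ := hA a
      have h0 := hg ω
      rw [a.2] at h0
      rcases hpm h hh with rfl | h1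
      · refine (ha (Subtype.ext (FaithfulSMul.eq_of_smul_eq_smul (α := Ω) fun y => β.injective ?_))).elim
        rw [hg, left_eq_add.mp h0]; simp [one_app]
      · rw [h1] at h0
        rw [hg, h1, two_smul, ← neg_add_eq_iff_eq_add.mpr h0, neg_neg]
    by_cases ha : a = 1
    · simpa [f, ha, eq_comm] using hab
    · have hb : b ≠ 1 := by simpa [f, ha] using hab
      exact Subtype.ext (FaithfulSMul.eq_of_smul_eq_smul (α := Ω) fun y => β.injective
        (by rw [key a ha, key b hb]))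
  · right
    obtain ⟨K, E, _, _, _, _, _, e, h2, h3, h4⟩ := identify c hg hn hirr
    refine ⟨K, E, inferInstance, inferInstance, inferInstance, inferInstance, inferInstance,
      β.trans e.toEquiv, h2, fun σ => ⟨?_, ?_⟩⟩
    · rintro ⟨g, rfl⟩
      obtain ⟨h, hh, b, hg⟩ := hA g
      obtain ⟨a, φ, ha, hφ⟩ := h3 h hh
      exact ⟨a, e b, φ, ha, fun ω => by
        change e (β (g • ω)) = a * φ (e (β ω)) + e b
        rw [hg, map_add, hφ]⟩
    · rintro ⟨a, b, φ, ha, hσ⟩
      obtain ⟨h, hh, hφ⟩ := h4 a φ ha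
      obtain ⟨g, hg⟩ := hB h hh (e.symm b)
      refine ⟨g, Equiv.ext fun ω => (β.trans e.toEquiv).injective ?_⟩
      rw [hσ]
      change e (β (g • ω)) = a * φ (e (β ω)) + b
      rw [hg, map_add, hφ, AddEquiv.apply_symm_apply]

end Cfsg.Agent.S5753
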