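import Cfsg.Statements.S5754
-- import your own Cfsg.Agent.* helpers here

set_option autoImplicit false
open Cfsg

namespace Cfsg.Agent.S5754

open QuadraticMap in
/-- reflection in an anisotropic vector -/
theorem exists_refl {F V : Type*} [Field F] [AddCommGroup V] [Module F V]
    (Q : QuadraticForm F V) (w : V) (hw : Q w ≠ 0) :
    ∃ τ : Q.IsometryEquiv Q, ∀ x, τ x = x - (polar Q x w / Q w) • w := by
  let f : V →ₗ[F] V := LinearMap.id - ((Q w)⁻¹ • (Q.polarBilin.flip w)).smulRight w
  have hf : ∀ x, f x = x - (polar Q x w / Q w) • w := by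
    intro x
    simp [f, div_eq_inv_mul]
  have hinv : Function.Involutive f := by
    intro x
    rw [hf, hf, polar_sub_left, polar_smul_left, polar_self, smul_eq_mul]
    have : (polar Q x w - polar Q x w / Q w * (2 • Q w)) / Q w = - (polar Q x w / Q w) := by
      field_simp
      ring
    rw [this, neg_smul, sub_neg_eq_add, sub_add_cancel]
  refine ⟨⟨LinearEquiv.ofInvolutive f hinv, fun x => ?_⟩, hf⟩
  change Q (f x) = Q x
  rw [hf, sub_eq_add_neg, ← neg_smul, QuadraticMap.map_add Q, QuadraticMap.map_smul,
    polar_smul_right]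
  simp only [smul_eq_mul]
  field_simp
  ring

open QuadraticMap in
theorem witt_aniso {F V : Type*} [Field F] [AddCommGroup V] [Module F V]
    (Q : QuadraticForm F V) (hQ : Q.Anisotropic) {ι : Type*} (s : Finset ι) (v v' : ι → V)
    (h1 : ∀ i, Q (v i) = Q (v' i)) (h2 : ∀ i j, polar Q (v i) (v j) = polar Q (v' i) (v' j)) :
    ∃ φ : Q.IsometryEquiv Q, ∀ i ∈ s, φ (v i) = v' i := by
  classical
  induction s using Finset.induction_on with
  | empty => exact ⟨QuadraticMap.IsometryEquiv.refl Q, by simp⟩
  | insert k s hk ih =>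
    obtain ⟨φ, hφ⟩ := ih
    have hpol : ∀ x y, polar Q (φ x) (φ y) = polar Q x y := by
      intro x y
      simp only [polar, ← map_add φ, QuadraticMap.IsometryEquiv.map_app]
    by_cases hw : φ (v k) - v' k = 0
    · refine ⟨φ, fun i hi => ?_⟩
      rcases Finset.mem_insert.mp hi with rfl | hi
      · exact sub_eq_zero.mp hw
      · exact hφ i hi
    have hQw : Q (φ (v k) - v' k) ≠ 0 := fun h => hw (hQ _ h)
    obtain ⟨τ, hτ⟩ := exists_refl Q _ hQw
    refine ⟨φ.trans τ, fun i hi => ?_⟩
    change τ (φ (v i)) = v' i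
    rw [hτ]
    rcases Finset.mem_insert.mp hi with rfl | hi
    · have : polar Q (φ (v i)) (φ (v i) - v' i) = Q (φ (v i) - v' i) := by
        rw [polar_sub_right, polar_self, sub_eq_add_neg (φ (v i)), QuadraticMap.map_add Q,
          QuadraticMap.map_neg, polar_neg_right, QuadraticMap.IsometryEquiv.map_app, h1]
        simp only [nsmul_eq_mul, Nat.cast_ofNat]
        ring
      rw [this, div_self hQw, one_smul, sub_sub_cancel]
    · have : polar Q (φ (v i)) (φ (v k) - v' k) = 0 := by
        rw [polar_sub_right, hpol, hφ i hi, h2, sub_self]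
      rw [this, zero_div, zero_smul, sub_zero, hφ i hi]

/-- Let V be a finite-dimensional vector space over a finite field F carrying an anisotropic quadratic form Q (Q(v) = 0 only for v = 0). Then the group of all maps v ↦ φ(v) + c, with φ an isometry of Q and c ∈ V, acts on V as a binary permutation group: given n ≥ 2 and two n-tuples u, u' of vectors such that every pair of corresponding entries of u is carried to that of u' by such a map, one such map carries u to u'. -/
theorem result {F V : Type*} [Field F] [Finite F] [AddCommGroup V] [Module F V] [Module.Finite F V]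
    (Q : QuadraticForm F V) (hQ : Q.Anisotropic) (n : ℕ) (hn : 2 ≤ n) (u u' : Fin n → V)
    (h2 : ∀ i j : Fin n, i ≠ j → ∃ (φ : Q.IsometryEquiv Q) (c : V), φ (u i) + c = u' i ∧ φ (u j) + c = u' j) :
    ∃ (φ : Q.IsometryEquiv Q) (c : V), ∀ i, φ (u i) + c = u' i := by
  have hd : ∀ i j, Q (u i - u j) = Q (u' i - u' j) := by
    intro i j
    by_cases hij : i = j
    · simp [hij]
    obtain ⟨φ, c, h1, h2⟩ := h2 i j hij
    rw [← h1, ← h2, add_sub_add_right_eq_sub, ← map_sub φ, QuadraticMap.IsometryEquiv.map_app]
  let o : Fin n := ⟨0, by omega⟩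
  have hsub : ∀ x y : V, QuadraticMap.polar Q x y = Q x + Q y - Q (x - y) := by
    intro x y
    rw [sub_eq_add_neg x y, QuadraticMap.map_add Q, QuadraticMap.map_neg,
      QuadraticMap.polar_neg_right]
    ring
  obtain ⟨φ, hφ⟩ := witt_aniso Q hQ Finset.univ (fun i => u i - u o) (fun i => u' i - u' o)
    (fun i => hd i o) (fun i j => by
      rw [hsub, hsub, sub_sub_sub_cancel_right, sub_sub_sub_cancel_right, hd, hd, hd])
  refine ⟨φ, u' o - φ (u o), fun i => ?_⟩
  have := hφ i (Finset.mem_univ i)
  rw [map_sub φ] at this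
  rw [← sub_add_cancel (u' i) (u' o), ← this]
  abel

end Cfsg.Agent.S5754
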