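import Cfsg.Statements.S5763
import Cfsg.Agent.H3.PartStab

set_option autoImplicit false
open Cfsg

namespace Cfsg.Agent.S5763

open Equiv Equiv.Perm H3.PartStab

/-- The standard pairing of eight points. -/
def z0 : Perm (Fin 8) := swap 0 1 * swap 2 3 * swap 4 5 * swap 6 7

/-- The standard pairing as a function. -/
def z0f : Fin 8 → Fin 8 := ![1, 0, 3, 2, 5, 4, 7, 6]

theorem z0_apply : ∀ x, z0 x = z0f x := by decide

/-- The trichotomy for a second pairing. -/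
def Good (z : Fin 8 → Fin 8) : Prop :=
  (∃ x, z x = z0f x) ∨ (∀ x, z0f (z x) = z (z0f x)) ∨
    ∀ x, z0f (z (z0f (z (z0f (z (z0f (z x))))))) = x ∧ z0f (z (z0f (z x))) ≠ x ∧
      z0f (z (z0f (z x))) ≠ z0f x ∧ z0f (z (z0f (z x))) ≠ z x

instance decGood (z : Fin 8 → Fin 8) : Decidable (Good z) := by unfold Good; infer_instance

set_option synthInstance.maxSize 20000 in
theorem enum :
    ∀ a0 : Fin 8, (a0 ≠ 0) →
    ∀ a1 : Fin 8, (a1 ≠ 1 ∧ (a0 = 1 ↔ a1 = 0) ∧ a0 ≠ a1) →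
    ∀ a2 : Fin 8, (a2 ≠ 2 ∧ (a0 = 2 ↔ a2 = 0) ∧ a0 ≠ a2 ∧ (a1 = 2 ↔ a2 = 1) ∧ a1 ≠ a2) →
    ∀ a3 : Fin 8, (a3 ≠ 3 ∧ (a0 = 3 ↔ a3 = 0) ∧ a0 ≠ a3 ∧ (a1 = 3 ↔ a3 = 1) ∧ a1 ≠ a3 ∧ (a2 = 3 ↔ a3 = 2) ∧ a2 ≠ a3) →
    ∀ a4 : Fin 8, (a4 ≠ 4 ∧ (a0 = 4 ↔ a4 = 0) ∧ a0 ≠ a4 ∧ (a1 = 4 ↔ a4 = 1) ∧ a1 ≠ a4 ∧ (a2 = 4 ↔ a4 = 2) ∧ a2 ≠ a4 ∧ (a3 = 4 ↔ a4 = 3) ∧ a3 ≠ a4) →
    ∀ a5 : Fin 8, (a5 ≠ 5 ∧ (a0 = 5 ↔ a5 = 0) ∧ a0 ≠ a5 ∧ (a1 = 5 ↔ a5 = 1) ∧ a1 ≠ a5 ∧ (a2 = 5 ↔ a5 = 2) ∧ a2 ≠ a5 ∧ (a3 = 5 ↔ a5 = 3) ∧ a3 ≠ a5 ∧ (a4 = 5 ↔ a5 = 4) ∧ a4 ≠ a5) →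
    ∀ a6 : Fin 8, (a6 ≠ 6 ∧ (a0 = 6 ↔ a6 = 0) ∧ a0 ≠ a6 ∧ (a1 = 6 ↔ a6 = 1) ∧ a1 ≠ a6 ∧ (a2 = 6 ↔ a6 = 2) ∧ a2 ≠ a6 ∧ (a3 = 6 ↔ a6 = 3) ∧ a3 ≠ a6 ∧ (a4 = 6 ↔ a6 = 4) ∧ a4 ≠ a6 ∧ (a5 = 6 ↔ a6 = 5) ∧ a5 ≠ a6) →
    ∀ a7 : Fin 8, (a7 ≠ 7 ∧ (a0 = 7 ↔ a7 = 0) ∧ a0 ≠ a7 ∧ (a1 = 7 ↔ a7 = 1) ∧ a1 ≠ a7 ∧ (a2 = 7 ↔ a7 = 2) ∧ a2 ≠ a7 ∧ (a3 = 7 ↔ a7 = 3) ∧ a3 ≠ a7 ∧ (a4 = 7 ↔ a7 = 4) ∧ a4 ≠ a7 ∧ (a5 = 7 ↔ a7 = 5) ∧ a5 ≠ a7 ∧ (a6 = 7 ↔ a7 = 6) ∧ a6 ≠ a7) →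
    Good ![a0, a1, a2, a3, a4, a5, a6, a7] := by
  decide +kernel


theorem good (z : Perm (Fin 8)) (hz : ∀ x, z (z x) = x) (hf : ∀ x, z x ≠ x) : Good z := by
  have h1 : ∀ j k, z j = k ↔ z k = j := fun j k =>
    ⟨fun e => by rw [← e, hz], fun e => by rw [← e, hz]⟩
  have := enum
    (z 0) (hf 0)
    (z 1) ⟨hf 1, h1 0 1, z.injective.ne (by decide)⟩
    (z 2) ⟨hf 2, h1 0 2, z.injective.ne (by decide), h1 1 2, z.injective.ne (by decide)⟩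
    (z 3) ⟨hf 3, h1 0 3, z.injective.ne (by decide), h1 1 3, z.injective.ne (by decide), h1 2 3, z.injective.ne (by decide)⟩
    (z 4) ⟨hf 4, h1 0 4, z.injective.ne (by decide), h1 1 4, z.injective.ne (by decide), h1 2 4, z.injective.ne (by decide), h1 3 4, z.injective.ne (by decide)⟩
    (z 5) ⟨hf 5, h1 0 5, z.injective.ne (by decide), h1 1 5, z.injective.ne (by decide), h1 2 5, z.injective.ne (by decide), h1 3 5, z.injective.ne (by decide), h1 4 5, z.injective.ne (by decide)⟩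
    (z 6) ⟨hf 6, h1 0 6, z.injective.ne (by decide), h1 1 6, z.injective.ne (by decide), h1 2 6, z.injective.ne (by decide), h1 3 6, z.injective.ne (by decide), h1 4 6, z.injective.ne (by decide), h1 5 6, z.injective.ne (by decide)⟩
    (z 7) ⟨hf 7, h1 0 7, z.injective.ne (by decide), h1 1 7, z.injective.ne (by decide), h1 2 7, z.injective.ne (by decide), h1 3 7, z.injective.ne (by decide), h1 4 7, z.injective.ne (by decide), h1 5 7, z.injective.ne (by decide), h1 6 7, z.injective.ne (by decide)⟩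

  convert this
  ext x
  fin_cases x <;> rfl

/-- Elements inducing an element of the Klein four-group on the pairs. -/
def S (z g : Perm (Fin 8)) : Prop :=
  (∀ x, g (z x) = z (g x)) ∧ ((∀ x, g x = x ∨ g x = z x) ∨
    ∀ x, g x ≠ x ∧ g x ≠ z x ∧ (g (g x) = x ∨ g (g x) = z x))

theorem S_conj (w z g : Perm (Fin 8)) (h : S (w * z * w⁻¹) g) : S z (w⁻¹ * g * w) := by
  obtain ⟨h1, h2⟩ := h
  refine ⟨fun x => ?_, h2.imp (fun h x => ?_) fun h x => ?_⟩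
  · simpa [Perm.inv_eq_iff_eq, symm_apply_eq] using h1 (w x)
  · simpa [symm_apply_eq] using h (w x)
  · simpa [symm_apply_eq] using h (w x)

theorem exists_S (z : Perm (Fin 8)) (hz : ∀ x, z (z x) = x) (hf : ∀ x, z x ≠ x) :
    ∃ g : Perm (Fin 8), g ≠ 1 ∧ S z0 g ∧ S z g := by
  have hz0 : ∀ x, z0 (z0 x) = x := by decide
  have hf0 : ∀ x, z0 x ≠ x := by decide
  by_cases h : ∃ x, z x = z0 x
  · obtain ⟨x, hx⟩ := h
    have key : ∀ z : Perm (Fin 8), (∀ x, z (z x) = x) → S z (swap x (z x)) := by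
      intro z hz
      refine ⟨fun y => ?_, Or.inl fun y => ?_⟩
      · rw [z.injective.map_swap, hz, swap_comm]
      · rw [swap_apply_def]
        split_ifs with h1 h2
        · right; rw [h1]
        · right; rw [h2, hz]
        · left; rfl
    exact ⟨swap x (z x), fun e => hf x (swap_eq_one_iff.mp e).symm, hx ▸ key z0 hz0, key z hz⟩
  push Not at h
  rcases good z hz hf with ⟨x, hx⟩ | h1 | h1
  · exact absurd (hx.trans (z0_apply x).symm) (h x)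
  · simp only [← z0_apply] at h1
    exact ⟨z0, by decide, ⟨fun _ => rfl, Or.inl fun _ => Or.inr rfl⟩,
      h1, Or.inr fun x => ⟨hf0 x, (h x).symm, Or.inl (hz0 x)⟩⟩
  · simp only [← z0_apply] at h1
    refine ⟨z0 * z * z0 * z, fun e => (h1 0).2.1 (congrArg (fun f : Perm (Fin 8) => f 0) e),
      ⟨fun x => ?_, Or.inr fun x => ⟨(h1 x).2.1, (h1 x).2.2.1, Or.inl (h1 x).1⟩⟩,
      ⟨fun x => ?_, Or.inr fun x => ⟨(h1 x).2.1, (h1 x).2.2.2, Or.inl (h1 x).1⟩⟩⟩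
    · simp only [Perm.mul_apply, hz0]
      have := (h1 (z (z0 (z x)))).1
      rwa [hz, hz0, hz] at this
    · simp only [Perm.mul_apply, hz]
      have := congrArg z0 (h1 (z (z0 x))).1
      rw [hz, hz0, hz0] at this
      exact this.symm

/-- The automorphism group of the binary tree. -/
def P0 : Subgroup (Perm (Fin 8)) := W (fun x : Fin 8 => x.val / 2) ⊓ W (fun x : Fin 8 => x.val / 4)

theorem step {f f' : Fin 8 → ℕ}
    (h2 : ∀ x y z, f y = f x → f z = f x → f' x ≠ f' y → f' y ≠ f' z → f' z = f' x)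
    {g : Perm (Fin 8)} (hg : g ∈ W f') (hf : ∀ x, f (g x) = f x) (x : Fin 8) :
    f' ((g * g) x) = f' x := by
  by_cases h : f' x = f' (g x)
  · exact ((hg _ _).mp h).symm.trans h.symm
  · exact h2 x (g x) (g (g x)) (hf x) ((hf _).trans (hf x)) h fun e => h ((hg _ _).mpr e)

theorem isPGroup_P0 : IsPGroup 2 P0 := by
  rintro ⟨g, hg⟩
  refine ⟨3, Subtype.ext ?_⟩
  have h1 := step (f := fun _ => 0) (by decide) hg.2 (fun _ => rfl)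
  have h2 := step (f := fun x : Fin 8 => x.val / 4) (by decide) (P0.mul_mem hg hg).1 h1
  have h3 := step (f := fun x : Fin 8 => x.val / 2) (f' := fun x : Fin 8 => x.val)
    (by decide) (g := g * g * (g * g)) (fun x y => by simp [Fin.val_inj]) h2
  ext x
  have : g ^ 2 ^ 3 = g * g * (g * g) * (g * g * (g * g)) := by
    simp [pow_succ, mul_assoc]
  change ((g ^ 2 ^ 3) x).val = x.val
  rw [this]
  exact h3 x

theorem mem_P0 {g : Perm (Fin 8)} (h : S z0 g) : g ∈ P0 := by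
  have e1 : ∀ x y : Fin 8, x.val / 2 = y.val / 2 ↔ (y = x ∨ y = z0 x) := by decide
  have h1 : g ∈ W (fun x : Fin 8 => x.val / 2) := fun x y => by
    simp only [e1, ← h.1, g.apply_eq_iff_eq]
  refine ⟨h1, ?_⟩
  rcases h.2 with h2 | h2
  · have e2 : ∀ x y : Fin 8, (y = x ∨ y = z0 x) → y.val / 4 = x.val / 4 := by decide
    intro x y
    simp only [e2 _ _ (h2 x), e2 _ _ (h2 y)]
  · let l : Fin 8 → Fin 4 := fun x => ⟨x.val / 2, by omega⟩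
    let s : Fin 4 → Fin 8 := fun i => ⟨2 * i.val, by omega⟩
    have e3 : ∀ x y, l x = l y ↔ x.val / 2 = y.val / 2 := fun x y => Fin.ext_iff
    have e4 : ∀ i, l (s i) = i := by decide
    have e5 : ∀ x, l (g x) = l (g (s (l x))) := fun x =>
      (e3 _ _).mpr ((h1 _ _).mp ((e3 _ _).mp (e4 _).symm))
    have e6 : ∀ φ : Fin 4 → Fin 4, (∀ i, φ i ≠ i ∧ φ (φ i) = i) →
        ∀ i j : Fin 4, i.val / 2 = j.val / 2 ↔ (φ i).val / 2 = (φ j).val / 2 := by decide +kernel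
    have e7 := e6 (fun i => l (g (s i))) fun i => ⟨fun e => by
      rcases (e1 _ _).mp ((e3 _ _).mp ((e4 i).trans e.symm)) with h | h
      exacts [(h2 _).1 h, (h2 _).2.1 h], by
      rw [← e5]
      refine Eq.trans ((e3 _ _).mpr ((e1 _ _).mpr (h2 (s i)).2.2).symm) (e4 i)⟩
    have e8 : ∀ x : Fin 8, x.val / 4 = (l x).val / 2 := fun x => by simp only [l]; omega
    intro x y
    simp only [e8]
    rw [e5 x, e5 y]
    exact e7 _ _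


/-- In the symmetric group on 8 letters any two Sylow 2-subgroups have non-trivial intersection: for a Sylow 2-subgroup H and every element x, H ∩ xHx⁻¹ ≠ 1. -/
theorem result (H : Sylow 2 (Equiv.Perm (Fin 8))) (x : Equiv.Perm (Fin 8)) :
    (H : Subgroup (Equiv.Perm (Fin 8))) ⊓ (H : Subgroup (Equiv.Perm (Fin 8))).map (MulAut.conj x).toMonoidHom ≠ ⊥ := by
  obtain ⟨Q, hQ⟩ := isPGroup_P0.exists_le_sylow
  obtain ⟨y, rfl⟩ := MulAction.exists_smul_eq (Perm (Fin 8)) Q H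
  have hmem : ∀ g ∈ P0, y * g * y⁻¹ ∈ ((y • Q : Sylow 2 (Perm (Fin 8))) : Subgroup (Perm (Fin 8))) :=
    fun g hg => Subgroup.smul_mem_pointwise_smul _ (MulAut.conj y) _ (hQ hg)
  set w := y⁻¹ * x * y with hw
  have hz0 : ∀ x, z0 (z0 x) = x := by decide
  have hf0 : ∀ x, z0 x ≠ x := by decide
  obtain ⟨g, h1, h2, h3⟩ := exists_S (w * z0 * w⁻¹) (fun x => by simp [hz0])
    (fun x e => hf0 (w⁻¹ x) (by
      rw [Perm.eq_inv_iff_eq]; exact e))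
  intro hbot
  have : y * g * y⁻¹ ∈ (⊥ : Subgroup (Perm (Fin 8))) := by
    rw [← hbot]
    refine ⟨hmem g (mem_P0 h2), _, hmem _ (mem_P0 (S_conj _ _ _ h3)), ?_⟩
    simp [hw, mul_assoc]
  rw [Subgroup.mem_bot] at this
  exact h1 (by simpa using this)

end Cfsg.Agent.S5763
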