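import Cfsg.Statements.S5769
import Cfsg.Agent.H6.E7h

set_option autoImplicit false
open Cfsg

namespace Cfsg.Agent.S5769

/-- The Chevalley group of type E₇ over the field with two elements (generated by its root elements in the adjoint representation) has no subgroup isomorphic to any of PSL₂(64), PSp₄(8), PSL₄(8), PSU₄(8) or PSp₆(8). Here F₈ and F₆₄ denote fields with 8 and 64 elements. -/
theorem result {F₈ F₆₄ : Type*} [Field F₈] [Fintype F₈] (h8 : Fintype.card F₈ = 8) [Field F₆₄] [Fintype F₆₄] (h64 : Fintype.card F₆₄ = 64)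
    (H : Subgroup ↥(Cfsg.Lie.chevE7.group (ZMod 2))) :
    IsEmpty (↥H ≃* Matrix.ProjectiveSpecialLinearGroup (Fin 2) F₆₄) ∧ IsEmpty (↥H ≃* Cfsg.PSp 2 F₈) ∧
    IsEmpty (↥H ≃* Matrix.ProjectiveSpecialLinearGroup (Fin 4) F₈) ∧ IsEmpty (↥H ≃* Cfsg.PSU 4 F₆₄ 8) ∧ IsEmpty (↥H ≃* Cfsg.PSp 3 F₈) := by
  have : CharP F₈ 2 := charP_of_card_eq_prime_pow (f := 3) h8
  have : CharP F₆₄ 2 := charP_of_card_eq_prime_pow (f := 6) h64
  obtain ⟨l, hl, hrs⟩ := H6.E7.exists_8 h8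
  obtain ⟨l', hl', hrs'⟩ := H6.E7.exists_64 h64
  exact ⟨H6.E7.empty_SL H (H6.E7.Dat.ok H6.E7.chkL2 hl' hrs') (by rw [h64]),
    H6.E7.empty_Sp H (H6.E7.Dat.ok H6.E7.chkS4 hl hrs) hl hrs H6.E7.spS4,
    H6.E7.empty_SL H (H6.E7.Dat.ok H6.E7.chkS4 hl hrs) (by rw [h8]; norm_num), H6.E7.empty_SU H h64,
    H6.E7.empty_Sp H (H6.E7.Dat.ok H6.E7.chkS6 hl hrs) hl hrs H6.E7.spS6⟩

end Cfsg.Agent.S5769
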