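import Cfsg.Statements.S5770
import Cfsg.Agent.H7.Ord6

set_option autoImplicit false
open Cfsg

namespace Cfsg.Agent.S5770

/-- The Chevalley group of type E₇ over the field with two elements (generated by its root elements in the adjoint representation; the simple group E₇(2)) has no maximal subgroup H whose generalized Fitting subgroup F*(H) is isomorphic to any of PSL₃(4), PSU₃(4), the Suzuki group Sz(8), the Chevalley group G₂(4) or PSL₃(16). Here F₄, F₈, F₁₆ denote fields with 4, 8 and 16 elements. -/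
theorem result {F₄ F₈ F₁₆ : Type*} [Field F₄] [Fintype F₄] (h4 : Fintype.card F₄ = 4) [Field F₈] [Fintype F₈] (h8 : Fintype.card F₈ = 8)
    [Field F₁₆] [Fintype F₁₆] (h16 : Fintype.card F₁₆ = 16) (H : Subgroup ↥(Cfsg.Lie.chevE7.group (ZMod 2))) (hH : IsCoatom H) :
    IsEmpty (↥(Cfsg.generalizedFittingSubgroup ↥H) ≃* Matrix.ProjectiveSpecialLinearGroup (Fin 3) F₄) ∧ IsEmpty (↥(Cfsg.generalizedFittingSubgroup ↥H) ≃* Cfsg.PSU 3 F₁₆ 4) ∧
    IsEmpty (↥(Cfsg.generalizedFittingSubgroup ↥H) ≃* ↥(Cfsg.Lie.Sz F₈ 4)) ∧ IsEmpty (↥(Cfsg.generalizedFittingSubgroup ↥H) ≃* ↥(Cfsg.Lie.chevG2.group F₄)) ∧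
    IsEmpty (↥(Cfsg.generalizedFittingSubgroup ↥H) ≃* Matrix.ProjectiveSpecialLinearGroup (Fin 3) F₁₆) := by
  have : CharP F₄ 2 := charP_of_card_eq_prime_pow (f := 2) h4
  have : CharP F₈ 2 := charP_of_card_eq_prime_pow (f := 3) h8
  have : CharP F₁₆ 2 := charP_of_card_eq_prime_pow (f := 4) h16
  exact ⟨H7.Ord.empty_of (H7.Ord.no_L34 h4) H _, H7.Ord.empty_of (H7.Ord.no_U34 h16) H _,
    H7.Ord.empty_of (H7.Ord.no_Sz h8) H _, H7.Ord.empty_of (H7.Ord.no_G24 h4) H _,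
    H7.Ord.empty_of (H7.Ord.no_L316 h16) H _⟩

end Cfsg.Agent.S5770
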