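import Cfsg.Statements.S5883
import Cfsg.Agent.H4.F23N

set_option autoImplicit false
open Cfsg

namespace Cfsg.Agent.S5883

/-- The constant 10 in the statement that H⁽¹⁰⁾ is perfect for every maximal subgroup H of a finite almost simple group cannot be lowered to 9: there exist a finite almost simple group G (with a non-abelian simple normal subgroup of trivial centralizer) and a maximal subgroup H of G whose ninth derived subgroup H⁽⁹⁾ is not perfect, i.e. H⁽¹⁰⁾ ≠ H⁽⁹⁾. (A solvable maximal subgroup of derived length 10 in the Fischer group Fi₂₃ is such an example.) -/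
theorem result :
    ∃ (G : Type) (_ : Group G) (_ : Finite G) (S H : Subgroup G), S.Normal ∧ IsSimpleGroup S ∧ ¬ IsMulCommutative S ∧
      Subgroup.centralizer (S : Set G) = ⊥ ∧ IsCoatom H ∧ derivedSeries H 10 ≠ derivedSeries H 9 := by
  refine ⟨H4.F23.G, inferInstance, inferInstance, ⊤, H4.F23.H.subgroupOf H4.F23.G, inferInstance,
    Subgroup.topEquiv.isSimpleGroup, fun h => H4.F23.not_comm fun a b => ?_, ?_, H4.F23.coatom, H4.F23.derived⟩
  · exact congrArg Subtype.val (h.is_comm.comm (⟨a, trivial⟩ : (⊤ : Subgroup H4.F23.G)) ⟨b, trivial⟩)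
  · rw [Subgroup.coe_top, Subgroup.centralizer_univ]
    refine (Subgroup.Normal.eq_bot_or_eq_top inferInstance).resolve_right fun h => H4.F23.not_comm fun a b => ?_
    exact Subgroup.mem_center_iff.1 (h ▸ Subgroup.mem_top b) a

end Cfsg.Agent.S5883
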