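import Cfsg.Statements.S5885
import Cfsg.Agent.H1.Alt

set_option autoImplicit false
open Cfsg

namespace Cfsg.Agent.S5885

open MulAction Equiv Cfsg.Agent.H1.Alt
open scoped Pointwise

theorem coatom_iff {G : Type*} [Group G] {H M : Subgroup G} (hHM : H ≤ M) :
    IsCoatom (H.subgroupOf M) ↔ H ≠ M ∧ ∀ L, H < L → L ≤ M → L = M := by
  constructor
  · intro h
    refine ⟨fun h1 => h.1 (by rw [h1, Subgroup.subgroupOf_self]), fun L h1 h2 => ?_⟩
    have h3 : H.subgroupOf M < L.subgroupOf M := by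
      refine lt_of_le_of_ne (Subgroup.comap_mono h1.le) fun h4 => h1.ne ?_
      have := congrArg (Subgroup.map M.subtype) h4
      rwa [Subgroup.map_subgroupOf_eq_of_le hHM, Subgroup.map_subgroupOf_eq_of_le h2] at this
    exact le_antisymm h2 (Subgroup.subgroupOf_eq_top.1 (h.2 _ h3))
  · rintro ⟨h1, h2⟩
    refine ⟨fun h => h1 (le_antisymm hHM (Subgroup.subgroupOf_eq_top.1 h)), fun L hL => ?_⟩
    have h3 : H < L.map M.subtype := by
      rw [← Subgroup.map_subgroupOf_eq_of_le hHM]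
      exact (Subgroup.map_lt_map_iff_of_injective M.subtype_injective).2 hL
    have h4 := h2 _ h3 (Subgroup.map_subtype_le L)
    apply Subgroup.map_injective M.subtype_injective
    rw [h4, ← MonoidHom.range_eq_map, Subgroup.range_subtype]

theorem main {G Ω : Type*} [Group G] [MulAction G Ω] [Fintype Ω] [DecidableEq Ω]
    (hodd : Odd (Fintype.card Ω)) (hA : alternatingGroup Ω ≤ (toPermHom G Ω).range) (a : Ω)
    (K : Subgroup G) (hmax : ∀ L, K ⊓ stabilizer G a < L → L ≤ stabilizer G a → L = stabilizer G a)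
    (L : Subgroup G) (hL : K ⊓ stabilizer G a < L) (hLK : L ≤ K) : L = K := by
  classical
  by_contra hne
  let B : Finset Ω := Finset.univ.filter (· ∈ orbit L a)
  have hB : ∀ x, x ∈ B ↔ ∃ l ∈ L, l • a = x := by
    intro x
    simp only [B, Finset.mem_filter, Finset.mem_univ, true_and]
    exact ⟨fun ⟨l, hl⟩ => ⟨l, l.2, hl⟩, fun ⟨l, hl, h⟩ => ⟨⟨l, hl⟩, h⟩⟩
  have haB : a ∈ B := (hB a).2 ⟨1, L.one_mem, one_smul _ _⟩
  have hKL : ∀ k ∈ K, k • a ∈ B → k ∈ L := by
    intro k hk h
    obtain ⟨l, hl, h⟩ := (hB _).1 h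
    have : l⁻¹ * k ∈ L := hL.le ⟨K.mul_mem (K.inv_mem (hLK hl)) hk, by
      change (l⁻¹ * k) • a = a
      rw [mul_smul, ← h, inv_smul_smul]⟩
    simpa using L.mul_mem hl this
  have hLB : ∀ l ∈ L, ∀ x ∈ B, l • x ∈ B := by
    intro l hl x hx
    obtain ⟨l', hl', rfl⟩ := (hB _).1 hx
    exact (hB _).2 ⟨l * l', L.mul_mem hl hl', mul_smul _ _ _⟩
  have hblock : ∀ k ∈ K, ∀ x ∈ B, k • x ∈ B → k ∈ L := by
    intro k hk x hx h
    obtain ⟨l, hl, rfl⟩ := (hB _).1 hx
    have := hKL (k * l) (K.mul_mem hk (hLK hl)) (by rwa [mul_smul])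
    simpa using L.mul_mem this (L.inv_mem hl)
  obtain ⟨b, hbB, hba⟩ : ∃ b ∈ B, b ≠ a := by
    obtain ⟨l, hl, hl'⟩ := SetLike.exists_of_lt hL
    exact ⟨l • a, (hB _).2 ⟨l, hl, rfl⟩, fun h => hl' ⟨hLK hl, h⟩⟩
  obtain ⟨k, hk, hkL⟩ := SetLike.exists_of_lt (lt_of_le_of_ne hLK hne)
  have hdisj : ∀ x ∈ B, k • x ∉ B := fun x hx h => hkL (hblock k hk x hx h)
  obtain ⟨z, hz⟩ := exists_notMem (B ∪ k • B) (by
    have h1 := Finset.card_union_of_disjoint (s := B) (t := k • B) (by
      rw [Finset.disjoint_right]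
      intro x hx
      obtain ⟨y, hy, rfl⟩ := Finset.mem_smul_finset.1 hx
      exact hdisj y hy)
    have h2 := Finset.card_le_univ (B ∪ k • B)
    rw [Finset.card_smul_finset] at h1
    obtain ⟨m, hm⟩ := hodd
    omega)
  rw [Finset.mem_union, not_or] at hz
  have hzk : ∀ x ∈ B, k • x ≠ z := fun x hx h => hz.2 (h ▸ Finset.smul_mem_smul_finset hx)
  let S : Subgroup G := stabilizer G a ⊓ stabilizer G B
  have hS : ∀ g : G, g • a = a → (∀ x ∈ B, g • x ∈ B) → g ∈ S := by
    intro g h1 h2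
    refine ⟨h1, Finset.eq_of_subset_of_card_le ?_ (by rw [Finset.card_smul_finset])⟩
    intro x hx
    obtain ⟨y, hy, rfl⟩ := Finset.mem_smul_finset.1 hx
    exact h2 y hy
  have hHS : K ⊓ stabilizer G a ≤ S := fun g hg => hS g hg.2 (hLB g (hL.le hg))
  have hSH : S = K ⊓ stabilizer G a := by
    by_contra h
    have h1 := hmax S (lt_of_le_of_ne hHS (Ne.symm h)) inf_le_left
    obtain ⟨g, hg1, -, -, hg4⟩ := exists_three_cycle hA (x := b) (y := z) (z := k • a)
      (by rintro rfl; exact hz.1 hbB) (by rintro rfl; exact hdisj a haB hbB) (hzk a haB).symm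
    have h2 : g ∈ S := by
      rw [h1]
      exact hg4 a hba.symm (by rintro rfl; exact hz.1 haB) (fun h => hdisj a haB (h ▸ haB))
    have h3 : g • B = B := h2.2
    exact hz.1 (h3 ▸ hg1 ▸ Finset.smul_mem_smul_finset hbB)
  obtain ⟨g, hg1, hg2, -, hg4⟩ := exists_three_cycle hA (x := k • a) (y := k • b) (z := z)
    (fun h => hba (smul_left_cancel k h).symm) (hzk a haB) (hzk b hbB)
  have hfix : ∀ x ∈ B, g • x = x := fun x hx => hg4 x (fun h => hdisj a haB (h ▸ hx))
    (fun h => hdisj b hbB (h ▸ hx)) (by rintro rfl; exact hz.1 hx)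
  have h1 : g ∈ K := (hSH ▸ hS g (hfix a haB) (fun x hx => by rw [hfix x hx]; exact hx)).1
  have h2 := hKL (k⁻¹ * g * k) (K.mul_mem (K.mul_mem (K.inv_mem hk) h1) hk) (by
    rw [mul_smul, mul_smul, hg1, inv_smul_smul]; exact hbB)
  have h3 := hLB _ h2 b hbB
  rw [mul_smul, mul_smul, hg2] at h3
  exact hzk _ h3 (smul_inv_smul k z)


/-- Let n be an odd positive integer such that every primitive permutation group of degree n contains the alternating group (so the symmetric and alternating groups are the only primitive groups of degree n). Let G be a finite group, M a maximal subgroup of G of index n, and H a maximal subgroup of M. Then H is a second maximal subgroup of G: H is maximal in every maximal subgroup K of G containing H. -/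
theorem result {G : Type*} [Group G]
    [Finite G] (n : ℕ) (hodd : Odd n)
    (hA : ∀ P : Subgroup (Equiv.Perm (Fin n)), MulAction.IsPreprimitive P (Fin n) → alternatingGroup (Fin n) ≤ P)
    (M : Subgroup G) (hM : IsCoatom M) (hn : M.index = n) (H : Subgroup G) (hHM : H ≤ M)
    (hmax : IsCoatom (H.subgroupOf M)) (K : Subgroup G) (hK : IsCoatom K) (hHK : H ≤ K) :
    IsCoatom (H.subgroupOf K) := by
  classical
  by_cases hKM : K = M
  · rw [hKM]; exact hmax
  rw [coatom_iff hHM] at hmax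
  rw [coatom_iff hHK]
  have hH : H = K ⊓ M := by
    by_contra h
    have h1 := hmax.2 (K ⊓ M) (lt_of_le_of_ne (le_inf hHK hHM) h) inf_le_right
    exact hKM ((hM.le_iff.1 (inf_eq_right.1 h1)).resolve_left hK.1)
  refine ⟨?_, ?_⟩
  · rintro rfl
    exact hKM ((hK.le_iff.1 hHM).resolve_left hM.1).symm
  have := Fintype.ofFinite (G ⧸ M)
  have hcard : Fintype.card (G ⧸ M) = n := by rw [← Nat.card_eq_fintype_card]; exact hn
  have hst : stabilizer G ((1 : G) : G ⧸ M) = M := stabilizer_quotient M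
  have hnt : Nontrivial (G ⧸ M) := QuotientGroup.nontrivial_iff.2 hM.1
  have hprim : IsPreprimitive G (G ⧸ M) :=
    (isCoatom_stabilizer_iff_preprimitive G ((1 : G) : G ⧸ M)).1 (hst.symm ▸ hM)
  let e : G ⧸ M ≃ Fin n := Fintype.equivFinOfCardEq hcard
  let φ : G →* Perm (Fin n) := e.permCongrHom.toMonoidHom.comp (toPermHom G (G ⧸ M))
  have hP : IsPreprimitive φ.range (Fin n) :=
    IsPreprimitive.of_surjective (M := G) (α := G ⧸ M) (φ := φ.rangeRestrict)
      (f := ⟨e, fun g x => by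
        change e (g • x) = e (g • e.symm (e x))
        rw [e.symm_apply_apply]⟩) e.surjective
  have hA' : alternatingGroup (G ⧸ M) ≤ (toPermHom G (G ⧸ M)).range := by
    intro σ hσ
    obtain ⟨g, hg⟩ := hA _ hP (show e.permCongr σ ∈ alternatingGroup (Fin n) by
      simpa [Perm.mem_alternatingGroup] using hσ)
    exact ⟨g, e.permCongr.injective hg⟩
  intro L hL hLK
  refine main (hcard.symm ▸ hodd) hA' ((1 : G) : G ⧸ M) K ?_ L ?_ hLK
  · rw [hst, ← hH]; exact hmax.2
  · rw [hst, ← hH]; exact hL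

end Cfsg.Agent.S5885
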