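import Cfsg.Statements.S5890
import Cfsg.Agent.H4.Max3

set_option autoImplicit false
open Cfsg

namespace Cfsg.Agent.S5890

/-- Let F be a finite field with q ≥ 4 elements, let L ≤ PGL₂(F) be the image of SL₂(F) (a copy of PSL₂(F), of index gcd(2, q − 1)), and let M be a maximal subgroup of PGL₂(F) that does not contain L. Suppose q ∉ {7, 9, 11} and that q is not a prime congruent to ±11 or ±19 modulo 40. Then M ∩ L is a maximal subgroup of L. (For the excluded q there are maximal subgroups of PGL₂(q) — dihedral groups of order 12 and 16 at q = 7, of order 20 and 16 at q = 9, of order 20 at q = 11, and S₄ at the excluded primes — whose intersection with L is not maximal in L.) -/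
theorem result {F : Type*} [Field F]
    [Fintype F] (h4 : 4 ≤ Fintype.card F) (h7 : Fintype.card F ≠ 7) (h9 : Fintype.card F ≠ 9) (h11 : Fintype.card F ≠ 11)
    (h40 : (Fintype.card F).Prime → Fintype.card F % 40 ∉ ({11, 19, 21, 29} : Finset ℕ))
    (M : Subgroup (Matrix.ProjGenLinGroup (Fin 2) F)) (hM : IsCoatom M)
    (hML : ¬ (Matrix.ProjGenLinGroup.mk.comp Matrix.SpecialLinearGroup.toGL).range ≤ M) :
    IsCoatom ((M ⊓ (Matrix.ProjGenLinGroup.mk.comp Matrix.SpecialLinearGroup.toGL).range).subgroupOf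
      (Matrix.ProjGenLinGroup.mk.comp Matrix.SpecialLinearGroup.toGL).range) := by
  open Cfsg.Agent.H4 Cfsg.Agent.H4.Mob Cfsg.Agent.H4.MobCard Cfsg.Agent.H4.Bar Cfsg.Agent.H4.Pair Cfsg.Agent.H4.Dick Cfsg.Agent.H4.Quat Cfsg.Agent.H4.Subf Cfsg.Agent.H4.Max in
  rw [← Nat.card_eq_fintype_card] at h4 h7 h9 h11 h40
  rw [← range_toPGL_eq] at hML ⊢
  refine Mx.isCoatom (LS F).subtype_injective (LS F).range_subtype ?_
  rcases Nat.even_or_odd (Nat.card F) with he | ho
  · have := mx_of_coatom_top hM hML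
    change Mx (LS F) (M ⊓ LS F)
    rwa [LS_eq_top F he, inf_top_eq]
  have h2 := two_ne_of_odd ho
  rw [Nat.odd_iff] at ho
  rw [inf_comm]
  rcases classify_top h2 h4 hM hML with ⟨x, rfl⟩ | ⟨x, y, hxy, rfl, h⟩ |
    ⟨h, h', ⟨e⟩⟩ | ⟨g, E, r, hr, -, h', h3, e⟩
  · exact mx_stab x
  · exact mx_dih h2 (by omega) h7 h9 h11 hxy h
  · obtain ⟨a, b, hab, -⟩ := exists_ab (F := F)
    obtain ⟨g, hg⟩ := std_of_facts h2 hab e Small.S4_facts
    have h1 := Subgroup.eq_of_le_of_card_ge hg (by rw [card_N0, card_cj, card_of_S4 ⟨e⟩])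
    have h5 := h40 h
    have h6 := mt isSquare_two_iff.2 h'
    simp only [Finset.mem_insert, Finset.mem_singleton] at h5
    have := (mx_A4 h2 hab h h4 h' (by omega)).conj g⁻¹
    rwa [← h1, cj_inf, cj_normal, cj_inv_cj] at this
  · have := (mx_sub hr h' h3).conj g⁻¹
    rwa [← e, cj_inf, cj_normal, cj_inv_cj] at this

end Cfsg.Agent.S5890
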