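import Cfsg.Statements.S5892
import Cfsg.Agent.H4.Max2

set_option autoImplicit false
open Cfsg

namespace Cfsg.Agent.S5892

/-- Let F be a finite field of odd order q ≥ 5 and characteristic p, and let M be a maximal subgroup of PSL₂(F). Then one of the following holds: |M| = q(q − 1)/2 (the stabiliser of a point of the projective line); q ≥ 13 and M is dihedral of order q − 1; q ∉ {7, 9} and M is dihedral of order q + 1; q = q₀² and M ≅ PGL₂(F₀) with |F₀| = q₀; q = q₀^r for an odd prime r and M ≅ PSL₂(F₀) with |F₀| = q₀; q ≡ ±1 (mod 10) with q = p or q = p², p ≡ ±3 (mod 10), and M ≅ A₅; q = p ≡ ±3 (mod 8), q ≢ ±1 (mod 10), and M ≅ A₄; or q = p ≡ ±1 (mod 8) and M ≅ S₄. -/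
theorem result {F : Type*} [Field F] [Fintype F] (p : ℕ)
    [Fact p.Prime] [CharP F p] (hodd : Odd (Fintype.card F)) (h5 : 5 ≤ Fintype.card F)
    (M : Subgroup (Matrix.ProjectiveSpecialLinearGroup (Fin 2) F)) (hM : IsCoatom M) :
    2 * Nat.card M = Fintype.card F * (Fintype.card F - 1) ∨
    (13 ≤ Fintype.card F ∧ (∃ k : ℕ, 2 * k = Fintype.card F - 1 ∧ Nonempty (M ≃* DihedralGroup k))) ∨
    (Fintype.card F ≠ 7 ∧ Fintype.card F ≠ 9 ∧ (∃ k : ℕ, 2 * k = Fintype.card F + 1 ∧ Nonempty (M ≃* DihedralGroup k))) ∨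
    (∃ (F₀ : Type) (_ : Field F₀) (_ : Fintype F₀), Fintype.card F = Fintype.card F₀ ^ 2 ∧
        Nonempty (M ≃* Matrix.ProjGenLinGroup (Fin 2) F₀)) ∨
    (∃ (F₀ : Type) (_ : Field F₀) (_ : Fintype F₀) (r : ℕ), r.Prime ∧ Odd r ∧ Fintype.card F = Fintype.card F₀ ^ r ∧
        Nonempty (M ≃* Matrix.ProjectiveSpecialLinearGroup (Fin 2) F₀)) ∨
    ((Fintype.card F % 10 = 1 ∨ Fintype.card F % 10 = 9) ∧
        (Fintype.card F = p ∨ (Fintype.card F = p ^ 2 ∧ (p % 10 = 3 ∨ p % 10 = 7))) ∧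
        Nonempty (M ≃* alternatingGroup (Fin 5))) ∨
    (Fintype.card F = p ∧ (p % 8 = 3 ∨ p % 8 = 5) ∧ ¬ (p % 10 = 1 ∨ p % 10 = 9) ∧
        Nonempty (M ≃* alternatingGroup (Fin 4))) ∨
    (Fintype.card F = p ∧ (p % 8 = 1 ∨ p % 8 = 7) ∧ Nonempty (M ≃* Equiv.Perm (Fin 4))) := by
  open Cfsg.Agent.H4 Cfsg.Agent.H4.Mob Cfsg.Agent.H4.MobCard Cfsg.Agent.H4.Bar Cfsg.Agent.H4.Pair Cfsg.Agent.H4.Dick Cfsg.Agent.H4.Quat Cfsg.Agent.H4.Subf Cfsg.Agent.H4.Max in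
  rw [← Nat.card_eq_fintype_card] at hodd h5 ⊢
  have h2 := two_ne_of_odd hodd
  have ho := Nat.odd_iff.1 hodd
  have hp : p.Prime := Fact.out
  have hpo : p % 2 = 1 := hp.eq_two_or_odd.resolve_left fun e =>
    h2 (by exact_mod_cast (CharP.cast_eq_zero_iff F p 2).2 (e ▸ dvd_rfl))
  have e0 := Subgroup.equivMapOfInjective M _
    (Matrix.ProjectiveSpecialLinearGroup.toPGL_injective (n := Fin 2) (R := F))
  have hM' := mx_of_coatom hM
  rcases hM'.classify (by omega) p with ⟨x, e⟩ | ⟨x, y, hxy, e⟩ | ⟨-, h1, h3, h4, ⟨e⟩⟩ |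
    ⟨-, h1, h3, ⟨e⟩⟩ | ⟨-, h1, -, h3, ⟨e⟩⟩ | ⟨g, E, r, hr, h', h3, e⟩
  · left
    rw [Nat.card_congr e0.toEquiv, e, card_stab_LS h2]
  · obtain ⟨d⟩ := hxy.dihedral_LS
    have d' := (e0.trans (MulEquiv.subgroupCongr e)).trans d
    have hT := hxy.card_LS h2
    rcases (e ▸ hM').dih_LS h2 h5 hxy with ⟨h, h'⟩ | ⟨h, h', h''⟩
    · exact Or.inr (Or.inl ⟨h, _, hT.trans h', ⟨d'⟩⟩)
    · exact Or.inr (Or.inr (Or.inl ⟨h, h', _, hT.trans h'', ⟨d'⟩⟩))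
  · rw [isSquare_two_iff] at h3
    exact Or.inr (Or.inr (Or.inr (Or.inr (Or.inr (Or.inr (Or.inl
      ⟨h1, by omega, by omega, ⟨e0.trans e⟩⟩))))))
  · have := isSquare_two_iff.1 (h3.1 hM'.le)
    exact Or.inr (Or.inr (Or.inr (Or.inr (Or.inr (Or.inr (Or.inr ⟨h1, by omega, ⟨e0.trans e⟩⟩))))))
  · exact Or.inr (Or.inr (Or.inr (Or.inr (Or.inr (Or.inl
      ⟨by omega, h3.imp id fun h => ⟨h.1, by omega⟩, ⟨e0.trans e⟩⟩)))))
  · obtain ⟨K, _, _, hK, ⟨f⟩⟩ := exists_model E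
    rcases hr.eq_two_or_odd' with rfl | hr2
    · rw [inf_eq_right.2 (PGsub_le_LS h2 h')] at e
      exact Or.inr (Or.inr (Or.inr (Or.inl ⟨K, _, _, hK ▸ h',
        ⟨((e0.trans (cjEquiv g _)).trans (MulEquiv.subgroupCongr e)).trans
          ((pgSubEquiv E).symm.trans (pgCongr f))⟩⟩)))
    · rw [LS_inf_PGsub h2 hr2 h'] at e
      exact Or.inr (Or.inr (Or.inr (Or.inr (Or.inl ⟨K, _, _, r, hr, hr2, hK ▸ h',
        ⟨((e0.trans (cjEquiv g _)).trans (MulEquiv.subgroupCongr e)).trans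
          ((psSubEquiv E).symm.trans (psCongr f))⟩⟩))))

end Cfsg.Agent.S5892
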