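import Cfsg.Statements.S5893
import Cfsg.Agent.H4.Max2

set_option autoImplicit false
open Cfsg

namespace Cfsg.Agent.S5893

/-- Let F be a finite field of even order q ≥ 4 and let M be a maximal subgroup of PSL₂(F) (= SL₂(F) = PGL₂(F)). Then one of the following holds: |M| = q(q − 1) (the stabiliser of a point of the projective line, elementary abelian of order q extended by a cyclic group of order q − 1); M is dihedral of order 2(q − 1); M is dihedral of order 2(q + 1); or q = q₀^r for a prime r with q₀ ≠ 2 and M ≅ PSL₂(F₀) with |F₀| = q₀. -/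
theorem result {F : Type*} [Field F] [Fintype F]
    (heven : Even (Fintype.card F)) (h4 : 4 ≤ Fintype.card F) (M : Subgroup (Matrix.ProjectiveSpecialLinearGroup (Fin 2) F)) (hM : IsCoatom M) :
    Nat.card M = Fintype.card F * (Fintype.card F - 1) ∨
    Nonempty (M ≃* DihedralGroup (Fintype.card F - 1)) ∨
    Nonempty (M ≃* DihedralGroup (Fintype.card F + 1)) ∨
    (∃ (F₀ : Type) (_ : Field F₀) (_ : Fintype F₀) (r : ℕ), r.Prime ∧ Fintype.card F₀ ≠ 2 ∧
        Fintype.card F = Fintype.card F₀ ^ r ∧ Nonempty (M ≃* Matrix.ProjectiveSpecialLinearGroup (Fin 2) F₀)) := by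
  open Cfsg.Agent.H4 Cfsg.Agent.H4.Mob Cfsg.Agent.H4.MobCard Cfsg.Agent.H4.Bar Cfsg.Agent.H4.Pair Cfsg.Agent.H4.Dick Cfsg.Agent.H4.Quat Cfsg.Agent.H4.Subf Cfsg.Agent.H4.Max in
  rw [← Nat.card_eq_fintype_card] at heven h4 ⊢
  obtain ⟨p, _⟩ := CharP.exists F
  have h1 := LS_eq_top F heven
  have e0 := Subgroup.equivMapOfInjective M _
    (Matrix.ProjectiveSpecialLinearGroup.toPGL_injective (n := Fin 2) (R := F))
  have h2 : ¬ (2 : F) ≠ 0 := fun e => (Nat.not_odd_iff_even.2 heven) (odd_of_two_ne e)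
  rcases (mx_of_coatom hM).classify h4 p with ⟨x, e⟩ | ⟨x, y, hxy, e⟩ | ⟨h, -⟩ | ⟨h, -⟩ | ⟨h, -⟩ |
    ⟨g, E, r, hr, h', h3, e⟩
  · left
    rw [Nat.card_congr e0.toEquiv, e, h1, top_inf_eq, card_stab]
  · rw [h1, top_inf_eq] at e
    obtain ⟨d⟩ := hxy.dihedral_top
    have d' := (e0.trans (MulEquiv.subgroupCongr e)).trans d
    rcases hxy.card with h | h <;> rw [h] at d'
    · exact Or.inr (Or.inl ⟨d'⟩)
    · exact Or.inr (Or.inr (Or.inl ⟨d'⟩))
  · exact absurd h h2
  · exact absurd h h2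
  · exact absurd h h2
  · obtain ⟨K, _, _, hK, ⟨f⟩⟩ := exists_model E
    rw [h1, top_inf_eq] at e
    have h4 : Even (Nat.card K) := by
      rw [Nat.card_eq_fintype_card, hK]
      exact (Nat.even_pow.1 (h' ▸ heven)).1
    exact Or.inr (Or.inr (Or.inr ⟨K, _, _, r, hr, by omega, hK ▸ h',
      ⟨((e0.trans (cjEquiv g _)).trans (MulEquiv.subgroupCongr e)).trans
        (((pgSubEquiv E).symm.trans (pgCongr f)).trans ((psEquiv K).trans
          ((MulEquiv.subgroupCongr (LS_eq_top K h4)).trans Subgroup.topEquiv)).symm)⟩⟩))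

end Cfsg.Agent.S5893
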