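import Cfsg.Statements.S5894
import Cfsg.Agent.H3.HalfStab
import Cfsg.Agent.H3.PointStab

set_option autoImplicit false
open Cfsg

namespace Cfsg.Agent.S5894

open scoped Pointwise in
theorem aux {α : Type*} [Finite α] (m : ℕ) (hm : 2 ≤ m) (hα : Nat.card α = 2 * m) :
    ∃ M H K : Subgroup (Equiv.Perm α), IsCoatom M ∧ M.index = 2 * m ∧ H ≤ M ∧
      IsCoatom (H.subgroupOf M) ∧ IsCoatom K ∧ H ≤ K ∧ ¬ IsCoatom (H.subgroupOf K) := by
  classical
  obtain ⟨A, -, hA⟩ := Set.exists_subset_card_eq (s := (Set.univ : Set α)) (n := m)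
    (by rw [Set.ncard_univ]; omega)
  have hsum : A.ncard + Aᶜ.ncard = Nat.card α := Set.ncard_add_ncard_compl A
  have hAc : Aᶜ.ncard = m := by omega
  obtain ⟨a, b, ha, hb, hab⟩ := (Set.one_lt_ncard_iff (Set.toFinite Aᶜ)).mp (by omega)
  have hnt : Nontrivial α := ⟨a, b, hab⟩
  set M := MulAction.stabilizer (Equiv.Perm α) a with hM
  set S := MulAction.stabilizer (Equiv.Perm α) A with hS
  obtain ⟨K₀, hK₀, hK₀'⟩ := H3.HalfStab.exists_lt_ne_top (Ω := α) (by omega) A (hA.trans hAc.symm)
  obtain ⟨K, hK, hKle⟩ := (eq_top_or_exists_le_coatom K₀).resolve_left hK₀'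
  have hSK : S < K := lt_of_lt_of_le hK₀ hKle
  refine ⟨M, M ⊓ S, K, MulAction.IsPreprimitive.isCoatom_stabilizer_of_isPreprimitive _ a,
    by rw [MulAction.index_stabilizer_of_transitive, hα], inf_le_left, ?_, hK,
    inf_le_right.trans hSK.le, ?_⟩
  · let s : Set {x // x ≠ a} := Subtype.val ⁻¹' A
    have hs : s.ncard = m := by
      rw [← hA, ← Set.ncard_image_of_injective s Subtype.val_injective]
      congr 1
      ext x
      constructor
      · rintro ⟨y, hy, rfl⟩; exact hy
      · intro hx; exact ⟨⟨x, fun e => ha (e ▸ hx)⟩, hx, rfl⟩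
    have h1 : IsCoatom (MulAction.stabilizer (Equiv.Perm {x // x ≠ a}) s) := by
      apply Equiv.Perm.isCoatom_stabilizer
      · exact (Set.ncard_pos (Set.toFinite _)).mp (by omega)
      · exact ⟨⟨b, hab.symm⟩, hb⟩
      · rw [H3.PointStab.card_ne, hs]; omega
    have h2 := Subgroup.isCoatom_comap_of_surjective (H3.PointStab.res_bijective a).2 h1
    convert h2 using 1
    ext g
    rw [Subgroup.mem_subgroupOf, Subgroup.mem_comap, Subgroup.mem_inf,
      MulAction.mem_stabilizer_set, MulAction.mem_stabilizer_set]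
    constructor
    · intro h x
      exact h.2 x
    · intro h
      refine ⟨g.2, fun x => ?_⟩
      by_cases hx : x = a
      · have : (g : Equiv.Perm α) • a = a := g.2
        rw [hx, this]
      · exact h ⟨x, hx⟩
  · intro h
    have h1 : (M ⊓ S).subgroupOf K < S.subgroupOf K := by
      refine lt_of_le_of_ne (Subgroup.subgroupOf_mono K inf_le_right) fun e => ?_
      have h2 : Equiv.swap a b ∈ S := by
        rw [hS, ← stabilizer_compl]
        exact Equiv.Perm.swap_mem_stabilizer ha hb
      have h3 : (⟨Equiv.swap a b, hSK.le h2⟩ : K) ∈ S.subgroupOf K := h2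
      rw [← e] at h3
      have h4 : Equiv.swap a b a = a := h3.1
      rw [Equiv.swap_apply_left] at h4
      exact hab h4.symm
    have := h.2 _ h1
    rw [Subgroup.subgroupOf_eq_top] at this
    exact hSK.not_ge this


/-- For every m ≥ 2 the symmetric group on 2m letters has a maximal subgroup M of index 2m together with a maximal subgroup H of M that is not second maximal: some maximal subgroup K of the symmetric group contains H without H being maximal in K. (One may take M the stabiliser of a letter, H ≅ S_m × S_{m−1} inside it, and K ≅ S_m ≀ S₂ the stabiliser of a partition into two m-sets, with H < S_m × S_m < K.) So the prime-index hypothesis in the second-maximality criterion cannot be relaxed to any even index ≥ 4. -/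
theorem result (m : ℕ) (hm : 2 ≤ m) :
    ∃ M H K : Subgroup (Equiv.Perm (Fin (2 * m))), IsCoatom M ∧ M.index = 2 * m ∧ H ≤ M ∧ IsCoatom (H.subgroupOf M) ∧
      IsCoatom K ∧ H ≤ K ∧ ¬ IsCoatom (H.subgroupOf K) := by
  exact aux m hm (by simp)

end Cfsg.Agent.S5894
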