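import Cfsg.Statements.S5895


set_option autoImplicit false
open Cfsg

namespace Cfsg.Agent.S5895

open SemidirectProduct

/-- irreducibility of a group of automorphisms -/
def Irr {V : Type} [Group V] (A : Subgroup (MulAut V)) : Prop :=
  ∀ W : Subgroup V, (∀ a ∈ A, ∀ w ∈ W, a w ∈ W) → W = ⊥ ∨ W = ⊤

theorem exists_V (p d : ℕ) (hp : p.Prime) (hd : 2 ≤ d) :
    ∃ (V : Type) (_ : Group V) (_ : Finite V), Nat.card V = p ^ d ∧
      Irr (⊤ : Subgroup (MulAut V)) ∧ ¬ Irr (⊥ : Subgroup (MulAut V)) := by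
  have := Fact.mk hp
  have hc : Nat.card (Multiplicative (GaloisField p d)) = p ^ d :=
    GaloisField.card p d (by omega)
  refine ⟨Multiplicative (GaloisField p d), inferInstance, inferInstance, hc, ?_, ?_⟩
  · intro W hW
    rcases W.bot_or_exists_ne_one with h | ⟨v, hv, hv1⟩
    · exact Or.inl h
    right
    rw [eq_top_iff]
    intro w _
    by_cases hw : w = 1
    · exact hw ▸ W.one_mem
    have hv0 : v.toAdd ≠ 0 := hv1
    have hw0 : w.toAdd ≠ 0 := hw
    have := hW (AddEquiv.toMultiplicative (AddAut.mulLeft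
      (Units.mk0 (w.toAdd / v.toAdd) (div_ne_zero hw0 hv0)))) (Subgroup.mem_top _) v hv
    convert this using 1
    apply Multiplicative.toAdd.injective
    change w.toAdd = w.toAdd / v.toAdd * v.toAdd
    rw [div_mul_cancel₀ _ hv0]
  · intro h
    have hdvd : p ∣ Nat.card (Multiplicative (GaloisField p d)) := by
      rw [hc]; exact dvd_pow_self _ (by omega)
    obtain ⟨x, hx⟩ := exists_prime_orderOf_dvd_card' p hdvd
    have h1 : Nat.card (Subgroup.zpowers x) = p := by rw [Nat.card_zpowers, hx]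
    rcases h (Subgroup.zpowers x) (fun a ha w hw => by
      rw [Subgroup.mem_bot] at ha; subst ha; exact hw) with h2 | h2
    · rw [h2, Subgroup.card_bot] at h1
      exact hp.one_lt.ne h1
    · rw [h2, Subgroup.card_top, hc] at h1
      have : p ^ 1 < p ^ d := Nat.pow_lt_pow_right hp.one_lt (by omega)
      rw [pow_one] at this
      omega


/-- For every prime p and every d ≥ 2 there is a finite group G with a maximal subgroup M of index p^d and a maximal subgroup H of M that is not second maximal in G: some maximal subgroup K of G contains H without H being maximal in K. (One may take G the affine group V ⋊ GL(V) of V = 𝔽_p^d, M = GL(V), H the stabiliser in M of a line W of V, and K = V ⋊ H, with H < W ⋊ H < K.) So the prime-index hypothesis in the second-maximality criterion cannot be relaxed to prime-power index. -/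
theorem result (p d : ℕ) (hp : p.Prime)
    (hd : 2 ≤ d) :
    ∃ (G : Type) (_ : Group G) (_ : Finite G) (M H K : Subgroup G), IsCoatom M ∧ M.index = p ^ d ∧ H ≤ M ∧
      IsCoatom (H.subgroupOf M) ∧ IsCoatom K ∧ H ≤ K ∧ ¬ IsCoatom (H.subgroupOf K) := by
  obtain ⟨V, _, _, hc, htop, hbot⟩ := exists_V p d hp hd
  obtain ⟨A, hA, hmin⟩ := (wellFounded_lt (α := Subgroup (MulAut V))).has_min {A | Irr A} ⟨⊤, htop⟩
  have hA : Irr A := hA
  have hAne : A ≠ ⊥ := fun h => hbot (h ▸ hA)
  have : Nontrivial A := (Subgroup.nontrivial_iff_ne_bot A).mpr hAne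
  obtain ⟨H₀, hH₀, -⟩ := (eq_top_or_exists_le_coatom (⊥ : Subgroup A)).resolve_left bot_ne_top
  have hred : ¬ Irr (H₀.map A.subtype) := fun h => hmin _ h (by
    refine lt_of_le_of_ne (Subgroup.map_subtype_le _) (fun e => hH₀.1 ?_)
    rw [eq_top_iff]
    intro x _
    have : (x : MulAut V) ∈ H₀.map A.subtype := by rw [e]; exact x.2
    obtain ⟨y, hy, e'⟩ := this
    exact (Subtype.ext e' : y = x) ▸ hy)
  simp only [Irr, not_forall, not_or] at hred
  obtain ⟨W, hW, hW1, hW2⟩ := hred
  let G := V ⋊[A.subtype] A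
  have : Finite G := Finite.of_equiv _ (SemidirectProduct.equivProd (φ := A.subtype)).symm
  have hVn : Nontrivial V := by
    rw [← Finite.one_lt_card_iff_nontrivial, hc]
    exact Nat.one_lt_pow (by omega) hp.one_lt
  let M : Subgroup G := (inr : A →* G).range
  have hMmem : ∀ x : G, x ∈ M ↔ x.left = 1 := fun x =>
    ⟨by rintro ⟨a, rfl⟩; rfl, fun h => ⟨x.right, by ext <;> simp [h]⟩⟩
  let K : Subgroup G := H₀.comap rightHom
  let L : Subgroup G :=
    { carrier := {x | x.left ∈ W ∧ x.right ∈ H₀}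
      one_mem' := ⟨W.one_mem, H₀.one_mem⟩
      mul_mem' := fun {x y} hx hy => ⟨W.mul_mem hx.1 (hW _ ⟨_, hx.2, rfl⟩ _ hy.1),
        H₀.mul_mem hx.2 hy.2⟩
      inv_mem' := fun {x} hx => ⟨hW _ ⟨_, H₀.inv_mem hx.2, rfl⟩ _ (W.inv_mem hx.1),
        H₀.inv_mem hx.2⟩ }
  refine ⟨G, inferInstance, inferInstance, M, M ⊓ K, K, ⟨?_, ?_⟩, ?_, inf_le_left, ?_,
    Subgroup.isCoatom_comap_of_surjective rightHom_surjective hH₀, inf_le_right, ?_⟩
  · intro h
    obtain ⟨v, hv⟩ := exists_ne (1 : V)
    exact hv ((hMmem (inl v)).mp (h ▸ Subgroup.mem_top _))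
  · intro N hN
    have hNM : ∀ a : A, (inr a : G) ∈ N := fun a => hN.le ⟨a, rfl⟩
    have hleft : ∀ x ∈ N, (inl x.left : G) ∈ N := fun x hx => by
      have := N.mul_mem hx (N.inv_mem (hNM x.right))
      rwa [mul_inv_eq_iff_eq_mul.mpr (inl_left_mul_inr_right x).symm] at this
    rcases hA (N.comap inl) (fun a ha w hw => by
      have : (inl (A.subtype ⟨a, ha⟩ w) : G) ∈ N := by
        rw [inl_aut]
        exact N.mul_mem (N.mul_mem (hNM _) hw) (hNM _)
      exact this) with h | h
    · exfalso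
      refine hN.not_ge (fun x hx => (hMmem x).mpr ?_)
      have : x.left ∈ N.comap inl := hleft x hx
      rwa [h, Subgroup.mem_bot] at this
    · rw [eq_top_iff]
      intro x _
      rw [← inl_left_mul_inr_right x]
      refine N.mul_mem ?_ (hNM _)
      have : x.left ∈ N.comap inl := h ▸ Subgroup.mem_top _
      exact this
  · have h1 := M.index_mul_card
    have h2 : Nat.card M = Nat.card A :=
      (Nat.card_congr (MonoidHom.ofInjective inr_injective).toEquiv).symm
    have h3 : Nat.card G = Nat.card V * Nat.card A := SemidirectProduct.card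
    rw [h2, h3, hc] at h1
    exact Nat.eq_of_mul_eq_mul_right Nat.card_pos h1
  · have : (M ⊓ K).subgroupOf M = H₀.comap (rightHom.comp M.subtype) := by
      rw [Subgroup.inf_subgroupOf_left]; rfl
    rw [this]
    exact Subgroup.isCoatom_comap_of_surjective (fun a => ⟨⟨inr a, a, rfl⟩, rfl⟩) hH₀
  · intro h
    obtain ⟨w, hw, hw1⟩ := W.bot_or_exists_ne_one.resolve_left hW1
    have h1 : (M ⊓ K).subgroupOf K < L.subgroupOf K := by
      refine lt_of_le_of_ne (fun x hx => ⟨?_, x.2⟩) (fun e => hw1 ?_)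
      · rw [(hMmem _).mp hx.1]; exact W.one_mem
      · have h3 : (⟨inl w, H₀.one_mem⟩ : K) ∈ L.subgroupOf K := ⟨hw, H₀.one_mem⟩
        rw [← e] at h3
        exact (hMmem _).mp h3.1
    have h2 := h.2 _ h1
    apply hW2
    rw [eq_top_iff]
    intro v _
    have h3 : (⟨inl v, H₀.one_mem⟩ : K) ∈ L.subgroupOf K := h2 ▸ Subgroup.mem_top _
    exact h3.1

end Cfsg.Agent.S5895
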