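import Cfsg.Statements.S5896
import Cfsg.Agent.H3.Wreath

set_option autoImplicit false
open Cfsg

namespace Cfsg.Agent.S5896


/-- Finite perfect groups have solvable maximal subgroups of unbounded derived length: for every d there is a finite perfect group G (equal to its commutator subgroup) with a solvable maximal subgroup H whose derived length exceeds d, i.e. the d-th term of the derived series of H is non-trivial. (Take the derived subgroup of a wreath product S ≀ A₅ with S solvable of large derived length, and H the preimage of a maximal subgroup of A₅.) -/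
theorem result (d : ℕ) :
    ∃ (G : Type) (_ : Group G) (_ : Finite G) (H : Subgroup G), commutator G = ⊤ ∧ IsCoatom H ∧ Group.IsSolvable H ∧
      derivedSeries H d ≠ ⊥ := by
  classical
  obtain ⟨S, _, _, hS, hd⟩ := H3.Wreath.exists_solvable d
  let A := alternatingGroup (Fin 5)
  let W := S ≀ᵣ A
  let P : Subgroup W := (RegularWreathProduct.inl : A →* W).range
  have hA : commutator A = ⊤ := commutator_alternatingGroup_eq_top (by simp)
  have hP : ⁅P, P⁆ = P := by
    simp only [P, MonoidHom.range_eq_map]
    rw [← Subgroup.map_commutator]
    exact congrArg _ hA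
  let G : Subgroup W := Subgroup.normalClosure (P : Set W)
  let π : G →* A := RegularWreathProduct.rightHom.comp G.subtype
  have hπ : Function.Surjective π := fun q =>
    ⟨⟨RegularWreathProduct.inl q, Subgroup.subset_normalClosure ⟨q, rfl⟩⟩, rfl⟩
  let M : Subgroup A := MulAction.stabilizer A (0 : Fin 5)
  have hprim : MulAction.IsPreprimitive A (Fin 5) :=
    alternatingGroup.isPreprimitive_of_three_le_card (Fin 5) (by simp)
  have hM : IsCoatom M := (MulAction.isCoatom_stabilizer_iff_preprimitive A (0 : Fin 5)).mpr hprim
  have hMs : Group.IsSolvable M := by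
    have := H3.Wreath.isSolvable_perm_four (α := {x : Fin 5 // x ≠ 0})
      (by rw [H3.PointStab.card_ne]; simp)
    let f : M →* MulAction.stabilizer (Equiv.Perm (Fin 5)) (0 : Fin 5) :=
      (A.subtype.comp M.subtype).codRestrict _ (fun x => x.2)
    refine Group.isSolvable_of_isSolvable_injective (f := (H3.PointStab.res 0).comp f) ?_
    refine (H3.PointStab.res_bijective 0).1.comp ?_
    intro x y e
    have e' := congrArg Subtype.val e
    exact Subtype.ext (Subtype.ext e')
  let K : Subgroup W := G ⊓ M.comap RegularWreathProduct.rightHom
  let e : M.comap π →* K := (G.subtype.comp (M.comap π).subtype).codRestrict _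
    (fun x => ⟨x.1.2, x.2⟩)
  have he1 : Function.Injective e := fun x y h => by
    have h' := congrArg Subtype.val h
    exact Subtype.ext (Subtype.ext h')
  have he2 : Function.Surjective e := fun x => ⟨⟨⟨x.1, x.2.1⟩, x.2.2⟩, rfl⟩
  refine ⟨G, inferInstance, inferInstance, M.comap π, H3.Wreath.commutator_normalClosure P hP,
    Subgroup.isCoatom_comap_of_surjective hπ hM, ?_, ?_⟩
  · have := H3.Wreath.isSolvable_comap (D := S) M
    have : Group.IsSolvable K :=
      Group.isSolvable_of_isSolvable_injective (Subgroup.inclusion_injective inf_le_right)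
    exact Group.isSolvable_of_isSolvable_injective he1
  · refine H3.Wreath.derivedSeries_ne_bot_of_surjective e he2 ?_
    refine H3.Wreath.derivedSeries_ne_bot K (fun s => ?_) hd
    obtain ⟨q, hq⟩ := exists_ne (1 : A)
    obtain ⟨f, hf, hs⟩ := H3.Wreath.exists_commutator s q hq
    refine ⟨f, ⟨?_, ?_⟩, hs⟩
    · rw [hf]
      exact Subgroup.commutator_le_right ⊤ G (Subgroup.commutator_mem_commutator
        (Subgroup.mem_top _) (Subgroup.subset_normalClosure ⟨q, rfl⟩))
    · change (H3.Wreath.inb f : W).right ∈ M
      exact M.one_mem

end Cfsg.Agent.S5896
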