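import Cfsg.Statements.S5902
import Cfsg.Agent.H3.LatticeCompl

set_option autoImplicit false
open Cfsg

namespace Cfsg.Agent.S5902


/-- Let G be a finite group, X a subgroup whose own subgroup lattice is complemented, and suppose X lies in exactly one maximal subgroup M of G. Then every subgroup H of G not contained in the normal core of M has a complement in the subgroup lattice of G (some C with H ⊔ C = G and H ⊓ C = 1); in particular the subgroup lattice of G modulo the normal core of M is complemented. -/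
theorem result {G : Type*} [Group G] [Finite G] (X M : Subgroup G)
    (hK : ComplementedLattice (Subgroup X))
    (hM : IsCoatom M) (hXM : X ≤ M) (huniq : ∀ M' : Subgroup G, IsCoatom M' → X ≤ M' → M' = M) :
    (∀ H : Subgroup G, ¬ H ≤ M.normalCore → ∃ C : Subgroup G, H ⊔ C = ⊤ ∧ H ⊓ C = ⊥) ∧
    ComplementedLattice (Subgroup (G ⧸ M.normalCore)) := by
  have hint : ∀ Y : Subgroup G, ⊥ ≤ Y → Y ≤ X →
      ∃ C : Subgroup G, ⊥ ≤ C ∧ C ≤ X ∧ Y ⊔ C = X ∧ Y ⊓ C = ⊥ := by
    intro Y _ hY
    obtain ⟨C, hC⟩ := exists_isCompl (Y.subgroupOf X)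
    refine ⟨C.map X.subtype, bot_le, Subgroup.map_subtype_le C, ?_, ?_⟩
    · have := congrArg (Subgroup.map X.subtype) hC.sup_eq_top
      rwa [Subgroup.map_sup, Subgroup.map_subgroupOf_eq_of_le hY, ← MonoidHom.range_eq_map,
        Subgroup.range_subtype] at this
    · have := congrArg (Subgroup.map X.subtype) hC.inf_eq_bot
      rwa [Subgroup.map_inf _ _ _ X.subtype_injective, Subgroup.map_subgroupOf_eq_of_le hY,
        Subgroup.map_bot] at this
  have h1 : ∀ H : Subgroup G, ¬ H ≤ M.normalCore → ∃ C : Subgroup G, H ⊔ C = ⊤ ∧ H ⊓ C = ⊥ := by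
    intro H hH
    have : ∃ g : G, ¬ H.map (MulAut.conj g).toMonoidHom ≤ M := by
      by_contra hcon
      push Not at hcon
      apply hH
      intro h hh g
      exact hcon g ⟨h, hh, rfl⟩
    obtain ⟨g, hg⟩ := this
    exact H3.LatticeCompl.exists_compl_of_map (MulAut.conj g) H
      (H3.LatticeCompl.exists_compl ⊥ X M bot_le hint huniq _ hg (inf_bot_eq _))
  refine ⟨h1, ⟨fun Hb => ?_⟩⟩
  set N := M.normalCore with hN
  set π := QuotientGroup.mk' N with hπ
  have hsurj : Function.Surjective π := QuotientGroup.mk'_surjective N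
  by_cases hb : Hb = ⊥
  · exact ⟨⊤, hb ▸ isCompl_bot_top⟩
  have hH : ¬ Hb.comap π ≤ N := by
    intro hle
    apply hb
    rw [eq_bot_iff]
    intro x hx
    obtain ⟨y, rfl⟩ := hsurj x
    exact (QuotientGroup.eq_one_iff y).mpr (hle hx)
  obtain ⟨C, hC1, hC2⟩ := h1 _ hH
  refine ⟨C.map π, ?_, ?_⟩
  · rw [disjoint_iff, eq_bot_iff]
    rintro x ⟨hx, c, hc, rfl⟩
    have : c ∈ Hb.comap π ⊓ C := ⟨hx, hc⟩
    rw [hC2, Subgroup.mem_bot] at this
    rw [this]; simp
  · rw [codisjoint_iff]
    have := congrArg (Subgroup.map π) hC1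
    rwa [Subgroup.map_sup, Subgroup.map_comap_eq_self_of_surjective hsurj,
      Subgroup.map_top_of_surjective _ hsurj] at this

end Cfsg.Agent.S5902
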