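import Cfsg.Statements.S5903
import Cfsg.Agent.H3.LatticeCompl

set_option autoImplicit false
open Cfsg

namespace Cfsg.Agent.S5903


/-- Let G be a finite simple group, X a subgroup lying in exactly one maximal subgroup M of G, and N a subgroup of prime order with N ≤ X that is central in M. If the subgroup lattice of X/N is complemented, then the subgroup lattice of G is complemented. -/
theorem result {G : Type*} [Group G] [Finite G] [IsSimpleGroup G] (X M N : Subgroup G)
    (hM : IsCoatom M) (hXM : X ≤ M) (huniq : ∀ M' : Subgroup G, IsCoatom M' → X ≤ M' → M' = M)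
    (hNX : N ≤ X) (hN : (Nat.card N).Prime) (hcen : ∀ n ∈ N, ∀ m ∈ M, m * n = n * m)
    [(N.subgroupOf X).Normal] (hK : ComplementedLattice (Subgroup (X ⧸ N.subgroupOf X))) :
    ComplementedLattice (Subgroup G) := by
  have : Fact (Nat.card N).Prime := ⟨hN⟩
  have hint : ∀ Y : Subgroup G, N ≤ Y → Y ≤ X →
      ∃ C : Subgroup G, N ≤ C ∧ C ≤ X ∧ Y ⊔ C = X ∧ Y ⊓ C = N := by
    intro Y hNY hY
    set π := QuotientGroup.mk' (N.subgroupOf X) with hπ
    have hsurj : Function.Surjective π := QuotientGroup.mk'_surjective _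
    have hker : π.ker = N.subgroupOf X := QuotientGroup.ker_mk' _
    obtain ⟨C, hC⟩ := exists_isCompl ((Y.subgroupOf X).map π)
    have hY' : ((Y.subgroupOf X).map π).comap π = Y.subgroupOf X :=
      Subgroup.comap_map_eq_self (by rw [hker]; exact Subgroup.subgroupOf_mono X hNY)
    refine ⟨(C.comap π).map X.subtype, ?_, Subgroup.map_subtype_le _, ?_, ?_⟩
    · refine (Subgroup.map_subgroupOf_eq_of_le hNX).symm.le.trans (Subgroup.map_mono ?_)
      exact hker.symm.le.trans (Subgroup.ker_le_comap _ _)
    · have := congrArg (fun Z => Subgroup.map X.subtype (Subgroup.comap π Z)) hC.sup_eq_top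
      rwa [← Subgroup.comap_sup_eq _ _ _ hsurj, hY', Subgroup.comap_top, Subgroup.map_sup,
        Subgroup.map_subgroupOf_eq_of_le hY, ← MonoidHom.range_eq_map,
        Subgroup.range_subtype] at this
    · have := congrArg (fun Z => Subgroup.map X.subtype (Subgroup.comap π Z)) hC.inf_eq_bot
      rwa [Subgroup.comap_inf, hY', MonoidHom.comap_bot, hker,
        Subgroup.map_inf _ _ _ X.subtype_injective, Subgroup.map_subgroupOf_eq_of_le hY,
        Subgroup.map_subgroupOf_eq_of_le hNX] at this
  have hNne : N ≠ ⊥ := by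
    intro h
    rw [h] at hN
    simp at hN
    exact Nat.not_prime_one hN
  refine ⟨fun H => ?_⟩
  by_cases hb : H = ⊥
  · exact ⟨⊤, hb ▸ isCompl_bot_top⟩
  by_cases ht : H = ⊤
  · exact ⟨⊥, ht ▸ isCompl_top_bot⟩
  have : ∃ g : G, ¬ H.map (MulAut.conj g).toMonoidHom ≤ M ∧
      H.map (MulAut.conj g).toMonoidHom ⊓ N = ⊥ := by
    by_contra hcon
    push Not at hcon
    -- every conjugate of `N` normalises `H`
    have hnorm : ∀ g : G, ∀ n ∈ N, g⁻¹ * n * g ∈ Subgroup.normalizer (H : Set G) := by
      intro g n hn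
      by_cases hle : H.map (MulAut.conj g).toMonoidHom ≤ M
      · apply Subgroup.centralizer_le_normalizer
        rw [Subgroup.mem_centralizer_iff]
        intro h hh
        have h1 := hcen n hn _ (hle ⟨h, hh, rfl⟩)
        simp only [MulEquiv.toMonoidHom_eq_coe, MonoidHom.coe_coe, MulAut.conj_apply] at h1
        calc h * (g⁻¹ * n * g) = g⁻¹ * (g * h * g⁻¹ * n) * g := by group
          _ = g⁻¹ * (n * (g * h * g⁻¹)) * g := by rw [h1]
          _ = g⁻¹ * n * g * h := by group
      · have h2 := hcon g hle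
        have h3 : (H.map (MulAut.conj g).toMonoidHom).subgroupOf N = ⊤ := by
          refine (Subgroup.eq_bot_or_eq_top_of_prime_card _).resolve_left fun e => h2 ?_
          rwa [Subgroup.subgroupOf_eq_bot, disjoint_iff] at e
        rw [Subgroup.subgroupOf_eq_top] at h3
        obtain ⟨h, hh, e⟩ := h3 hn
        apply Subgroup.le_normalizer
        simp only [MulEquiv.toMonoidHom_eq_coe, MonoidHom.coe_coe, MulAut.conj_apply] at e
        rw [← e]
        simpa [mul_assoc] using hh
    have hcl : Subgroup.normalClosure (N : Set G) = ⊤ := by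
      refine (Subgroup.Normal.eq_bot_or_eq_top inferInstance).resolve_left fun e => hNne ?_
      rw [eq_bot_iff, ← e]
      exact Subgroup.le_normalClosure
    have htop : Subgroup.normalizer (H : Set G) = ⊤ := by
      rw [eq_top_iff, ← hcl, Subgroup.normalClosure, Subgroup.closure_le]
      intro x hx
      obtain ⟨n, hn, hc⟩ := Group.mem_conjugatesOfSet_iff.mp hx
      obtain ⟨c, rfl⟩ := isConj_iff.mp hc
      simpa using hnorm c⁻¹ n hn
    rcases (Subgroup.normalizer_eq_top_iff.mp htop).eq_bot_or_eq_top with h | h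
    · exact hb h
    · exact ht h
  obtain ⟨g, hg1, hg2⟩ := this
  obtain ⟨C, h1, h2⟩ := H3.LatticeCompl.exists_compl_of_map (MulAut.conj g) H
      (H3.LatticeCompl.exists_compl N X M hNX hint huniq _ hg1 hg2)
  exact ⟨C, disjoint_iff.mpr h2, codisjoint_iff.mpr h1⟩

end Cfsg.Agent.S5903
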