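import Cfsg.Statements.S5908
import Mathlib

set_option autoImplicit false
open Cfsg

namespace Cfsg.Agent.S5908

/-- A concrete field with four elements. -/
inductive F4 | o | i | w | v
  deriving DecidableEq

namespace F4

instance instFintypeF4 : Fintype F4 := ⟨{o, i, w, v}, fun x => by cases x <;> decide⟩

/-- Addition table. -/
def add : F4 → F4 → F4
  | o, x => x
  | x, o => x
  | i, i => o | i, w => v | i, v => w
  | w, i => v | w, w => o | w, v => i
  | v, i => w | v, w => i | v, v => o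

/-- Multiplication table. -/
def mul : F4 → F4 → F4
  | o, _ => o
  | _, o => o
  | i, x => x
  | x, i => x
  | w, w => v | w, v => i
  | v, w => i | v, v => w

/-- Inverses. -/
def inv : F4 → F4
  | o => o | i => i | w => v | v => w

instance instAddF4 : Add F4 := ⟨add⟩
instance instMulF4 : Mul F4 := ⟨mul⟩
instance instNegF4 : Neg F4 := ⟨id⟩
instance instInvF4 : Inv F4 := ⟨inv⟩
instance instZeroF4 : Zero F4 := ⟨o⟩
instance instOneF4 : One F4 := ⟨i⟩

instance instFieldF4 : Field F4 :=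
  Field.ofMinimalAxioms F4 (by decide) (by decide) (by decide) (by decide) (by decide) (by decide)
    (by decide) (by decide) (by decide) ⟨o, i, by decide⟩

end F4

/-- At most one coordinate is non-zero. -/
def P {K : Type*} [Zero K] (x y z : K) : Prop := (x = 0 ∧ y = 0) ∨ (x = 0 ∧ z = 0) ∨ (y = 0 ∧ z = 0)

instance decP (x y z : F4) : Decidable (P x y z) := by unfold P; infer_instance

/-- The finite check. -/
def Core (K : Type*) [Add K] [Mul K] [Zero K] [One K] : Prop :=
  ∀ a d g : K, a * (a * a) + d * (d * d) + g * (g * g) = 1 →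
  ∀ b e h : K, b * (b * b) + e * (e * e) + h * (h * h) = 1 →
    a * (b * b) + d * (e * e) + g * (h * h) = 0 →
  ∀ c f i : K, c * (c * c) + f * (f * f) + i * (i * i) = 1 →
    a * (c * c) + d * (f * f) + g * (i * i) = 0 →
    b * (c * c) + e * (f * f) + h * (i * i) = 0 →
    a * e * i + a * f * h + b * d * i + b * f * g + c * d * h + c * e * g = 1 →
    (a * a + b * d + c * g = 0 ∨ d * a + e * d + f * g = 0) ∧
    (d * a + e * d + f * g = 0 → g * a + h * d + i * g = 0 → g * b + h * e + i * h = 0 →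
      a = 0 ∨ d = 0) ∧
    ((a = 0 ∨ d = 0) → ∀ x y z : K, P x y z ↔
      P (a * x + b * y + c * z) (d * x + e * y + f * z) (g * x + h * y + i * z))

set_option synthInstance.maxSize 2000 in
theorem core4 : Core F4 := by
  unfold Core
  decide +kernel

theorem core {F : Type*} [Field F] (φ : F ≃+* F4) : Core F := by
  intro a d g h1 b e h h2 h3 c f i h4 h5 h6 h7
  have := core4 (φ a) (φ d) (φ g) (by simpa using congrArg φ h1) (φ b) (φ e) (φ h)
    (by simpa using congrArg φ h2) (by simpa using congrArg φ h3) (φ c) (φ f) (φ i)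
    (by simpa using congrArg φ h4) (by simpa using congrArg φ h5) (by simpa using congrArg φ h6)
    (by simpa using congrArg φ h7)
  simp only [← map_mul, ← map_add, map_eq_zero] at this
  refine ⟨this.1, this.2.1, fun k x y z => ?_⟩
  have := this.2.2 k (φ x) (φ y) (φ z)
  simpa only [P, ← map_mul, ← map_add, map_eq_zero] using this

open scoped Matrix

/-- The monomial subgroup. -/
def Mon (F : Type*) [Field F] : Subgroup (Cfsg.SU 3 F 2) where
  carrier := {g | ∀ x : Fin 3 → F, P (x 0) (x 1) (x 2) ↔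
    P ((g.1.1 *ᵥ x) 0) ((g.1.1 *ᵥ x) 1) ((g.1.1 *ᵥ x) 2)}
  mul_mem' := fun {a b} ha hb x => by
    rw [hb x, ha]
    simp [Matrix.mulVec_mulVec]
  one_mem' := fun x => by simp
  inv_mem' := fun {a} ha x => by
    rw [ha ((a⁻¹).1.1 *ᵥ x), Matrix.mulVec_mulVec]
    have : a.1.1 * (a⁻¹).1.1 = 1 := congrArg (fun z : Cfsg.SU 3 F 2 => z.1.1) (mul_inv_cancel a)
    rw [this, Matrix.one_mulVec]

theorem facts {F : Type*} [Field F] (φ : F ≃+* F4) (g : Cfsg.SU 3 F 2) :
    ((g * g).1.1 0 0 = 0 ∨ (g * g).1.1 1 0 = 0) ∧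
    ((g * g).1.1 1 0 = 0 → (g * g).1.1 2 0 = 0 → (g * g).1.1 2 1 = 0 →
      g.1.1 0 0 = 0 ∨ g.1.1 1 0 = 0) ∧
    ((g.1.1 0 0 = 0 ∨ g.1.1 1 0 = 0) → g ∈ Mon F) := by
  have h2 : ∀ x : F, -x = x := fun x => φ.injective (by rw [map_neg]; rfl)
  have hh : ∀ i j : Fin 3, ∑ k, g.1.1 k i * (g.1.1 k j * g.1.1 k j) = if i = j then 1 else 0 := by
    intro i j
    have := g.2 (Pi.single i 1) (Pi.single j 1)
    simp only [Cfsg.hermForm, Matrix.mulVec_single_one, sq] at this
    refine Eq.trans this ?_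
    fin_cases i <;> fin_cases j <;> simp [Fin.sum_univ_three]
  have hdet := g.1.2
  rw [Matrix.det_fin_three] at hdet
  simp only [sub_eq_add_neg, h2] at hdet
  have := core φ (g.1.1 0 0) (g.1.1 1 0) (g.1.1 2 0) (by simpa [Fin.sum_univ_three] using hh 0 0)
    (g.1.1 0 1) (g.1.1 1 1) (g.1.1 2 1) (by simpa [Fin.sum_univ_three] using hh 1 1)
    (by simpa [Fin.sum_univ_three] using hh 0 1)
    (g.1.1 0 2) (g.1.1 1 2) (g.1.1 2 2) (by simpa [Fin.sum_univ_three] using hh 2 2)
    (by simpa [Fin.sum_univ_three] using hh 0 2) (by simpa [Fin.sum_univ_three] using hh 1 2) hdet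
  refine ⟨?_, ?_, fun k x => ?_⟩
  · simpa [Matrix.mul_apply, Fin.sum_univ_three] using this.1
  · simpa [Matrix.mul_apply, Fin.sum_univ_three] using this.2.1
  · simpa [Matrix.mulVec, dotProduct, Fin.sum_univ_three] using this.2.2 k (x 0) (x 1) (x 2)

theorem mem_SU {F : Type*} [Field F] (φ : F ≃+* F4) (M : Matrix (Fin 3) (Fin 3) F4)
    (h1 : M.det = 1) (h2 : ∀ u v : Fin 3 → F4,
      ∑ i, (M *ᵥ u) i * ((M *ᵥ v) i * (M *ᵥ v) i) = ∑ i, u i * (v i * v i)) :
    ∃ g : Cfsg.SU 3 F 2, ∀ i j, g.1.1 i j = φ.symm (M i j) := by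
  refine ⟨⟨⟨φ.symm.mapMatrix M, ?_⟩, fun u v => ?_⟩, fun _ _ => rfl⟩
  · have := RingHom.map_det φ.symm.toRingHom M
    rw [h1, map_one] at this
    exact this.symm
  · apply φ.injective
    have := h2 (fun i => φ (u i)) (fun i => φ (v i))
    change φ (Cfsg.hermForm 3 F 2 (φ.symm.mapMatrix M *ᵥ u) (φ.symm.mapMatrix M *ᵥ v)) = _
    simpa [Cfsg.hermForm, sq, Matrix.mulVec, dotProduct, Fin.sum_univ_three] using this


/-- The subgroup lattice of PSU₃(2) (the solvable group of order 72, realised over the field with 4 elements) is not complemented: some subgroup H has no subgroup X with H ⊔ X = ⊤ and H ⊓ X = ⊥. -/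
theorem result {F : Type*} [Field F] [Fintype F] (hF : Fintype.card F = 4) :
    ¬ ComplementedLattice (Subgroup (Cfsg.PSU 3 F 2)) := by
  let φ : F ≃+* F4 := FiniteField.ringEquivOfCardEq (hF.trans rfl)
  intro h
  set π := QuotientGroup.mk' (Subgroup.center (Cfsg.SU 3 F 2)) with hπ
  obtain ⟨d, hd⟩ := mem_SU φ !![F4.w, 0, 0; 0, F4.v, 0; 0, 0, 1]
    (by rw [Matrix.det_fin_three]; decide)
    (by simp only [Matrix.mulVec, dotProduct, Fin.sum_univ_three]; decide +kernel)
  obtain ⟨g₀, hg₀⟩ := mem_SU φ !![1, 1, 1; 1, F4.w, F4.v; 1, F4.v, F4.w]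
    (by rw [Matrix.det_fin_three]; decide)
    (by simp only [Matrix.mulVec, dotProduct, Fin.sum_univ_three]; decide +kernel)
  have hcen : ∀ g : Cfsg.SU 3 F 2, g * g ∈ Subgroup.center (Cfsg.SU 3 F 2) → g ∈ Mon F := by
    intro g hg
    have h1 := congrArg (fun z : Cfsg.SU 3 F 2 => z.1.1) (Subgroup.mem_center_iff.mp hg d)
    generalize hA : (g * g).1.1 = A at h1
    have h2 : d.1.1 * A = A * d.1.1 := by rw [← hA]; exact h1
    refine (facts φ g).2.2 ((facts φ g).2.1 ?_ ?_ ?_)
    · have := congrArg φ (congrFun (congrFun h2 1) 0)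
      rw [hA, ← map_eq_zero φ]
      simp only [Matrix.mul_apply, Fin.sum_univ_three, hd, map_add, map_mul,
        RingEquiv.apply_symm_apply] at this
      revert this
      generalize φ (A 1 0) = x, φ (A 0 0) = y, φ (A 2 0) = z, φ (A 1 1) = s, φ (A 1 2) = t
      revert x y z s t
      decide
    · have := congrArg φ (congrFun (congrFun h2 2) 0)
      rw [hA, ← map_eq_zero φ]
      simp only [Matrix.mul_apply, Fin.sum_univ_three, hd, map_add, map_mul,
        RingEquiv.apply_symm_apply] at this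
      revert this
      generalize φ (A 1 0) = x, φ (A 0 0) = y, φ (A 2 0) = z, φ (A 2 1) = s, φ (A 2 2) = t
      revert x y z s t
      decide
    · have := congrArg φ (congrFun (congrFun h2 2) 1)
      rw [hA, ← map_eq_zero φ]
      simp only [Matrix.mul_apply, Fin.sum_univ_three, hd, map_add, map_mul,
        RingEquiv.apply_symm_apply] at this
      revert this
      generalize φ (A 0 1) = x, φ (A 1 1) = y, φ (A 2 0) = z, φ (A 2 1) = s, φ (A 2 2) = t
      revert x y z s t
      decide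
  obtain ⟨C, hC⟩ := exists_isCompl ((Mon F).map π)
  have hbot : ∀ g ∈ Mon F, π g ∈ C → π g = 1 := fun g hg hc => by
    have : π g ∈ (Mon F).map π ⊓ C := ⟨⟨g, hg, rfl⟩, hc⟩
    rwa [hC.inf_eq_bot, Subgroup.mem_bot] at this
  have hCb : C = ⊥ := by
    rw [eq_bot_iff]
    intro c hc
    obtain ⟨g, rfl⟩ := QuotientGroup.mk'_surjective _ c
    have h1 := hbot (g * g) ((facts φ (g * g)).2.2 (facts φ g).1) (by
      rw [map_mul]; exact C.mul_mem hc hc)
    exact hbot g (hcen g ((QuotientGroup.eq_one_iff _).mp h1)) hc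
  have h3 := hC.sup_eq_top
  rw [hCb, sup_bot_eq] at h3
  have h4 : π g₀ ∈ (Mon F).map π := by rw [h3]; trivial
  obtain ⟨m, hm, e⟩ := h4
  have h5 : m⁻¹ * g₀ ∈ Subgroup.center (Cfsg.SU 3 F 2) := QuotientGroup.eq.mp e
  have h6 : g₀ ∈ Mon F := by
    have := (Mon F).mul_mem hm (hcen _ (Subgroup.mul_mem _ h5 h5))
    simpa using this
  have := (h6 (Pi.single 0 1)).mp (by simp [P])
  simp [P, hg₀] at this

end Cfsg.Agent.S5908
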