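import Cfsg.Statements.S5910
import Cfsg.Agent.H3.PartStab

set_option autoImplicit false
open Cfsg

namespace Cfsg.Agent.S5910

open Equiv Equiv.Perm

/-- Four labels summing to zero in the Klein four-group. -/
def R (i j k l : Fin 4) : Prop :=
  (i = j ∧ k = l) ∨ (i = k ∧ j = l) ∨ (i = l ∧ j = k) ∨
    (i ≠ j ∧ i ≠ k ∧ i ≠ l ∧ j ≠ k ∧ j ≠ l ∧ k ≠ l)

instance decR (i j k l : Fin 4) : Decidable (R i j k l) := by unfold R; infer_instance

/-- Affine planes. -/
def Q (a b c d : Fin 4 × Fin 2) : Prop := R a.1 b.1 c.1 d.1 ∧ a.2 + b.2 + c.2 + d.2 = 0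

instance decQ (a b c d : Fin 4 × Fin 2) : Decidable (Q a b c d) := by unfold Q; infer_instance

/-- The affine group. -/
def K : Subgroup (Perm (Fin 4 × Fin 2)) where
  carrier := {g | ∀ a b c d, Q a b c d ↔ Q (g a) (g b) (g c) (g d)}
  mul_mem' := fun {a b} ha hb x y z w => (hb x y z w).trans (ha _ _ _ _)
  one_mem' := fun _ _ _ _ => Iff.rfl
  inv_mem' := fun {a} ha x y z w => by
    have := ha (a⁻¹ x) (a⁻¹ y) (a⁻¹ z) (a⁻¹ w)
    simpa using this.symm

theorem sign_fin_two : ∀ τ : Perm (Fin 2),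
    (∀ j, τ j = j + τ 0) ∧ sign τ = if τ 0 = 0 then 1 else -1 := by decide

theorem sum_eps : ∀ ε : Fin 4 → Fin 2, (∏ i, if ε i = 0 then (1 : ℤˣ) else -1) = 1 →
    ∀ i j k l, R i j k l → ε i + ε j + ε k + ε l = 0 := by decide +kernel

theorem mem_K {g : Perm (Fin 4 × Fin 2)} (hg : g ∈ H3.PartStab.W Prod.fst) (hs : sign g = 1) :
    g ∈ K := by
  have h1 : ∀ i j, (g (i, j)).1 = (g (i, 0)).1 := fun i j => (hg (i, j) (i, 0)).mp rfl
  let σ : Perm (Fin 4) := Equiv.ofBijective (fun i => (g (i, 0)).1)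
    (Finite.injective_iff_bijective.mp fun i j e => (hg (i, 0) (j, 0)).mpr e)
  let τ : Fin 4 → Perm (Fin 2) := fun i => Equiv.ofBijective (fun j => (g (i, j)).2)
    (Finite.injective_iff_bijective.mp fun j k e =>
      (Prod.ext_iff.mp (g.injective (Prod.ext ((h1 i j).trans (h1 i k).symm) e))).2)
  have h2 : ∀ a, g a = (σ a.1, τ a.1 a.2) := fun a => Prod.ext (h1 a.1 a.2) rfl
  have h3 : g = prodCongrLeft (fun _ : Fin 2 => σ) * prodCongrRight τ := by
    ext a : 1
    rw [h2]; rfl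
  have h4 : ∏ i, sign (τ i) = 1 := by
    rw [h3, map_mul, sign_prodCongrLeft, sign_prodCongrRight] at hs
    simpa using hs
  have h5 := sum_eps (fun i => τ i 0) 
    ((Finset.prod_congr rfl fun i _ => (sign_fin_two (τ i)).2.symm).trans h4)
  intro a b c d
  simp only [Q, h2]
  have h6 : R (σ a.1) (σ b.1) (σ c.1) (σ d.1) ↔ R a.1 b.1 c.1 d.1 := by
    simp only [R, ne_eq, σ.apply_eq_iff_eq]
  rw [h6, and_congr_right_iff]
  intro hR
  rw [(sign_fin_two (τ a.1)).1, (sign_fin_two (τ b.1)).1 b.2, (sign_fin_two (τ c.1)).1 c.2,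
    (sign_fin_two (τ d.1)).1 d.2]
  have h7 := h5 _ _ _ _ hR
  have : a.2 + τ a.1 0 + (b.2 + τ b.1 0) + (c.2 + τ c.1 0) + (d.2 + τ d.1 0) =
      a.2 + b.2 + c.2 + d.2 + (τ a.1 0 + τ b.1 0 + τ c.1 0 + τ d.1 0) := by abel
  rw [this, h7, add_zero]

theorem t_mem : swap ((0, 1) : Fin 4 × Fin 2) (1, 0) * swap (2, 1) (3, 0) ∈ K := by
  change ∀ a b c d, _
  decide +kernel

theorem c_not_mem : swap ((0, 0) : Fin 4 × Fin 2) (0, 1) * swap (0, 0) (1, 0) ∉ K := by
  intro h
  have := h (0, 0) (1, 1) (2, 0) (3, 1)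
  revert this
  decide


/-- Let Ω be a set with 8 elements and f : Ω → Fin 4 a labelling whose four fibres all have size 2 (a partition of the 8 points into 4 pairs). Then the group of even permutations preserving this partition, (S₂ ≀ S₄) ∩ A₈, is not a maximal subgroup of the alternating group A₈ (it lies in a subgroup isomorphic to the affine group AGL₃(2)). -/
theorem result {Ω : Type*} [Fintype Ω] [DecidableEq Ω] (h8 : Fintype.card Ω = 8)
    (f : Ω → Fin 4) (hf : ∀ i : Fin 4, Nat.card {x : Ω // f x = i} = 2) :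
    ¬ IsCoatom ((Subgroup.closure {g : Equiv.Perm Ω | ∀ x y : Ω, f x = f y ↔ f (g x) = f (g y)} ⊓ alternatingGroup Ω).subgroupOf (alternatingGroup Ω)) := by
  rw [H3.PartStab.closure_eq]
  obtain ⟨e, he⟩ := H3.PartStab.exists_equiv f hf
  have hW : ∀ g : Perm Ω, g ∈ H3.PartStab.W f ↔ e.permCongr g ∈ H3.PartStab.W Prod.fst := by
    intro g
    constructor
    · intro h x y
      have := h (e.symm x) (e.symm y)
      simpa [← he] using this
    · intro h x y
      have := h (e x) (e y)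
      simpa [he] using this
  intro h
  have hev : ∀ g : Perm (Fin 4 × Fin 2), sign g = 1 → e.permCongr.symm g ∈ alternatingGroup Ω := by
    intro g hg
    rw [mem_alternatingGroup, ← sign_permCongr e, apply_symm_apply, hg]
  have h1 := h.2 ((K.comap e.permCongrHom.toMonoidHom).subgroupOf _) (lt_of_le_of_ne
    (fun g hg => mem_K ((hW g).mp hg.1) ((sign_permCongr e _).trans g.2)) (fun h' => by
      have h2 : (⟨_, hev (swap ((0, 1) : Fin 4 × Fin 2) (1, 0) * swap (2, 1) (3, 0))
          (by decide)⟩ : alternatingGroup Ω) ∈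
          (K.comap e.permCongrHom.toMonoidHom).subgroupOf (alternatingGroup Ω) := by
        change e.permCongr (e.permCongr.symm _) ∈ K
        rw [apply_symm_apply]; exact t_mem
      rw [← h'] at h2
      have h3 := (hW _).mp h2.1
      change e.permCongr (e.permCongr.symm _) ∈ _ at h3
      rw [apply_symm_apply] at h3
      have := h3 (0, 0) (0, 1)
      revert this
      decide))
  have h2 : (⟨_, hev (swap ((0, 0) : Fin 4 × Fin 2) (0, 1) * swap (0, 0) (1, 0))
      (by decide)⟩ : alternatingGroup Ω) ∈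
      (K.comap e.permCongrHom.toMonoidHom).subgroupOf (alternatingGroup Ω) := by
    rw [h1]; trivial
  change e.permCongr (e.permCongr.symm _) ∈ K at h2
  rw [apply_symm_apply] at h2
  exact c_not_mem h2

end Cfsg.Agent.S5910
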