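import Cfsg.Statements.S5912
import Cfsg.Agent.H3.SymSix

set_option autoImplicit false
open Cfsg

namespace Cfsg.Agent.S5912


/-- The symmetric group on a 6-element set Ω has exactly two conjugacy classes of subgroups of index 6: there are two non-conjugate subgroups of index 6 (a point stabilizer and a transitive subgroup isomorphic to S₅), and every subgroup of index 6 is conjugate to one of them. -/
theorem result {Ω : Type*} [Fintype Ω] [DecidableEq Ω] (h6 : Fintype.card Ω = 6) :
    ∃ H₁ H₂ : Subgroup (Equiv.Perm Ω), H₁.index = 6 ∧ H₂.index = 6 ∧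
      (¬ ∃ g : Equiv.Perm Ω, Subgroup.map (MulAut.conj g).toMonoidHom H₁ = H₂) ∧
      ∀ H : Subgroup (Equiv.Perm Ω), H.index = 6 →
        ∃ g : Equiv.Perm Ω, Subgroup.map (MulAut.conj g).toMonoidHom H₁ = H ∨ Subgroup.map (MulAut.conj g).toMonoidHom H₂ = H := by
  rw [← Nat.card_eq_fintype_card] at h6
  obtain ⟨φ, h1, h2⟩ := H3.SymSix.exists_outer h6
  obtain ⟨a⟩ : Nonempty Ω := (Nat.card_pos_iff.mp (by omega)).1
  have hidx : (MulAction.stabilizer (Equiv.Perm Ω) a).index = 6 := by
    rw [MulAction.index_stabilizer_of_transitive, h6]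
  refine ⟨MulAction.stabilizer (Equiv.Perm Ω) a,
    (MulAction.stabilizer (Equiv.Perm Ω) a).comap φ.toMonoidHom, hidx, ?_, ?_, ?_⟩
  · rw [Subgroup.index_comap_of_surjective _ φ.surjective, hidx]
  · rintro ⟨g, hg⟩
    rw [← MulAction.stabilizer_smul_eq_stabilizer_map_conj] at hg
    exact H3.SymSix.stabilizer_not_transitive (by omega) _ (hg ▸ h1 a)
  · intro H hH
    by_cases ht : MulAction.IsPretransitive H Ω
    · obtain ⟨b, rfl⟩ := h2 H hH ht
      refine ⟨φ.symm (Equiv.swap a b), Or.inr ?_⟩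
      ext g
      rw [Subgroup.mem_map_equiv, Subgroup.mem_comap, Subgroup.mem_comap,
        MulAction.mem_stabilizer_iff, MulAction.mem_stabilizer_iff]
      simp [Equiv.swap_apply_eq_iff]
    · obtain ⟨b, rfl⟩ := H3.SymIndex.eq_stabilizer_of_not_transitive H (hH.trans h6.symm) ht
      refine ⟨Equiv.swap a b, Or.inl ?_⟩
      rw [← MulAction.stabilizer_smul_eq_stabilizer_map_conj]
      simp

end Cfsg.Agent.S5912
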