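import Cfsg.Statements.S5914
import Cfsg.Agent.H3.CharSimple

set_option autoImplicit false
open Cfsg

namespace Cfsg.Agent.S5914


/-- A non-trivial finite group G is characteristically simple (its only characteristic subgroups are 1 and G) if and only if G is isomorphic to a direct power S^n (n ≥ 1) of some simple group S (possibly cyclic of prime order). -/
theorem result {G : Type*} [Group G] [Finite G] [Nontrivial G] :
    (∀ H : Subgroup G, H.Characteristic → H = ⊥ ∨ H = ⊤) ↔
    ∃ (S : Type) (_ : Group S) (_ : IsSimpleGroup S) (n : ℕ), 1 ≤ n ∧ Nonempty (G ≃* (Fin n → S)) := by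
  refine ⟨H3.CharSimple.exists_power, ?_⟩
  rintro ⟨S, _, _, n, -, ⟨e⟩⟩ H hH
  have : (H.map e.toMonoidHom).Characteristic := by
    rw [Subgroup.characteristic_iff_le_comap] at hH ⊢
    rintro φ _ ⟨x, hx, rfl⟩
    exact ⟨_, hH (e.trans (φ.trans e.symm)) hx, by simp⟩
  rcases H3.CharSimple.charSimple_power _ this with h | h
  · exact Or.inl ((Subgroup.map_eq_bot_iff_of_injective _ e.injective).mp h)
  · right
    rw [eq_top_iff]
    intro x _
    have : e x ∈ H.map e.toMonoidHom := by rw [h]; trivial
    obtain ⟨w, hw, e'⟩ := this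
    have : w = x := e.injective e'
    rwa [← this]

end Cfsg.Agent.S5914
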