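import Cfsg.Statements.S5918
import Cfsg.Agent.H4.T8E
import Cfsg.Agent.H4.T8A
import Cfsg.Agent.H4.T8B
import Cfsg.Agent.H4.T8U
import Cfsg.Agent.H4.T8Sp

set_option autoImplicit false
open Cfsg

namespace Cfsg.Agent.S5918

/-- Let G be the Chevalley group of type E₈ over the field with three elements (generated by its root elements in the 248-dimensional adjoint representation; it is the simple group E₈(3)). Then G has no subgroup isomorphic to any of PSL₂(41), PSL₂(32), PSU₄(3) or PSp₆(3). Here F₄₁, F₃₂, F₉ denote fields with 41, 32 and 9 elements (PSU₄(3) is realised over F₉), and PSp₆(3) is the quotient of the symplectic group of 6 × 6 matrices over the field with three elements by its centre. -/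
theorem result
    {F₄₁ F₃₂ F₉ : Type*} [Field F₄₁] [Fintype F₄₁] (h41 : Fintype.card F₄₁ = 41) [Field F₃₂] [Fintype F₃₂] (h32 : Fintype.card F₃₂ = 32)
    [Field F₉] [Fintype F₉] (h9 : Fintype.card F₉ = 9) (H : Subgroup ↥(Cfsg.Lie.chevE8.group (ZMod 3))) :
    IsEmpty (↥H ≃* Matrix.ProjectiveSpecialLinearGroup (Fin 2) F₄₁) ∧ IsEmpty (↥H ≃* Matrix.ProjectiveSpecialLinearGroup (Fin 2) F₃₂) ∧
    IsEmpty (↥H ≃* Cfsg.PSU 4 F₉ 3) ∧ IsEmpty (↥H ≃* Cfsg.PSp 3 (ZMod 3)) := by
  have key : ∀ {G : Type _} [Group G] (e : H ≃* G), H4.T8.Fac (H4.T8.rho.comp (H.subtype.comp e.symm.toMonoidHom)) :=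
    fun e => H4.T8.fac.comp _ (Subtype.val_injective.comp e.symm.injective)
  exact ⟨⟨fun e => H4.T8.L41.not_fac h41 _ (H4.T8.fac.comp (H.subtype.comp e.symm.toMonoidHom)
      (Subtype.val_injective.comp e.symm.injective))⟩,
    ⟨fun e => H4.T8.L32.not_fac h32 _ (H4.T8.fac.comp (H.subtype.comp e.symm.toMonoidHom)
      (Subtype.val_injective.comp e.symm.injective))⟩,
    ⟨fun e => H4.T8.U4.not_fac h9 _ (H4.T8.fac.comp (H.subtype.comp e.symm.toMonoidHom)
      (Subtype.val_injective.comp e.symm.injective))⟩, ⟨fun e => H4.T8.Sp.not_fac _ (key e)⟩⟩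

end Cfsg.Agent.S5918
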