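import Cfsg.Statements.S5919
import Cfsg.Agent.H4.Asm2
import Cfsg.Agent.H4.E713
import Cfsg.Agent.H7.E5
import Cfsg.Agent.H8.SzF
import Cfsg.Agent.H8.SzE
import Cfsg.Agent.H5.HS13
import Cfsg.Agent.H2.LL

set_option autoImplicit false
open Cfsg

namespace Cfsg.Agent.S5919

/-- Let G be the Chevalley group of type E₈ over the field with three elements (generated by its root elements in the 248-dimensional adjoint representation; it is the simple group E₈(3)), and let H be a subgroup of G whose generalized Fitting subgroup F*(H) is isomorphic to one of: the Suzuki group Sz(8), the orthogonal group Ω⁺₈(2) (commutator subgroup of the isometry group of the hyperbolic quadratic form in dimension 8 over the field with two elements), PSL₂(13), or the symplectic group Sp₆(2). Then H is not a maximal subgroup of G. Here F₈ and F₁₃ denote fields with 8 and 13 elements. -/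
theorem result
    {F₈ F₁₃ : Type*} [Field F₈] [Fintype F₈] (h8 : Fintype.card F₈ = 8) [Field F₁₃] [Fintype F₁₃] (h13 : Fintype.card F₁₃ = 13)
    (H : Subgroup ↥(Cfsg.Lie.chevE8.group (ZMod 3)))
    (hH : Nonempty (↥(Cfsg.generalizedFittingSubgroup ↥H) ≃* ↥(Cfsg.Lie.Sz F₈ 4)) ∨ Nonempty (↥(Cfsg.generalizedFittingSubgroup ↥H) ≃* Cfsg.Omega (ZMod 2) (Cfsg.quadFormPlus 4 (ZMod 2))) ∨
      Nonempty (↥(Cfsg.generalizedFittingSubgroup ↥H) ≃* Matrix.ProjectiveSpecialLinearGroup (Fin 2) F₁₃) ∨ Nonempty (↥(Cfsg.generalizedFittingSubgroup ↥H) ≃* Matrix.symplecticGroup (Fin 3) (ZMod 2))) :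
    ¬ IsCoatom H := by
  intro hc
  have := H2.E8H.gfit_normal (H := H)
  rcases hH with hH | ⟨⟨e⟩⟩ | hH | ⟨⟨e⟩⟩
  · obtain ⟨hi, hA⟩ := H8.SzE.sz h8 hH
    obtain ⟨e⟩ := hH
    obtain ⟨A, h1, h2, h3⟩ := H4.Asm.fin hc _ hi e (H8.SzE.main h8 _ (H4.Asm.fac' e)
      (fun x hx => H7.E5.e5 _ (by rw [← map_pow, hx, map_one])) (fun x hx => H4.Fx.e7' _ (by rw [← map_pow, hx, map_one]))
      fun x hx => H4.Fx.e13 _ (by rw [← map_pow, hx, map_one]))
    exact (hA A h1 h2).not_ge h3
  · exact H4.Asm.om e hc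
  · obtain ⟨hi, hA⟩ := H5.HS.l13 h13 hH
    obtain ⟨e⟩ := hH
    have hJ := fun g : Lie.chevE8.group (ZMod 3) => H4.Fx.Jm_G H4.Fx.h30 (g := g.1) ((H6.Gs.S3_G H4.Fx.h30).ge g.2)
    have h0 := H4.Fx.Jm_inv H4.Fx.h30
    have hs := H4.Fx.Jm_symm H4.Fx.h30
    generalize H4.Fx.Jm (ZMod 3) = J at hJ h0 hs
    obtain ⟨A, h1, h2, h3⟩ := H4.Asm.fin hc _ hi e (H2.LL.main h13 _ (H4.Asm.fac' e)
      (fun x hx => H4.Fx.e7' _ (by rw [← map_pow, hx, map_one])) (fun x hx => H4.Fx.e13 _ (by rw [← map_pow, hx, map_one])) (Matrix.toBilin' J)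
      (fun v w => by rw [Matrix.toBilin'_apply', Matrix.toBilin'_apply', Matrix.dotProduct_mulVec, ← Matrix.mulVec_transpose, hs,
        dotProduct_comm])
      (fun v h => by
        rw [← Matrix.one_mulVec v, ← h0, ← Matrix.mulVec_mulVec, show J.mulVec v = 0 from dotProduct_eq_zero _ fun w => by
          rw [← h w, Matrix.toBilin'_apply', Matrix.dotProduct_mulVec, ← Matrix.mulVec_transpose, hs], Matrix.mulVec_zero])
      fun g v w => by
        change Matrix.toBilin' J ((e.symm g).1.1.1.1.mulVec v) ((e.symm g).1.1.1.1.mulVec w) = _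
        rw [Matrix.toBilin'_apply', Matrix.toBilin'_apply', Matrix.mulVec_mulVec, Matrix.dotProduct_mulVec,
          ← Matrix.vecMul_transpose, Matrix.vecMul_vecMul, ← mul_assoc, hJ, Matrix.dotProduct_mulVec])
    exact (hA A h1 h2).not_ge h3
  · exact H4.Asm.sp e hc

end Cfsg.Agent.S5919
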