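import Cfsg.Statements.S5920
import Cfsg.Agent.H4.FxG
import Cfsg.Agent.H4.FxH
import Cfsg.Agent.H2.E8H
import Cfsg.Agent.H2.E8L

set_option autoImplicit false
open Cfsg

namespace Cfsg.Agent.S5920

/-- Let G be the Chevalley group of type E₈ over the field with three elements (generated by its root elements in the 248-dimensional adjoint representation; it is the simple group E₈(3)), and let H be a subgroup of G whose generalized Fitting subgroup F*(H) is isomorphic to PSL₂(7). Then H is not a maximal subgroup of G. Here F denotes a field with 7 elements. -/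
theorem result
    {F : Type*} [Field F] [Fintype F] (hF : Fintype.card F = 7) (H : Subgroup ↥(Cfsg.Lie.chevE8.group (ZMod 3)))
    (hH : Nonempty (↥(Cfsg.generalizedFittingSubgroup ↥H) ≃* Matrix.ProjectiveSpecialLinearGroup (Fin 2) F)) :
    ¬ IsCoatom H := by
  intro hc
  obtain ⟨-, hi, hA⟩ := H2.E8H.main hF hH
  obtain ⟨e⟩ := hH
  generalize generalizedFittingSubgroup H = S at hi e
  have hJ := fun g : Lie.chevE8.group (ZMod 3) => H4.Fx.Jm_G H4.Fx.h30 (g := g.1) ((H6.Gs.S3_G H4.Fx.h30).ge g.2)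
  have h0 := H4.Fx.Jm_inv H4.Fx.h30
  have hs := H4.Fx.Jm_symm H4.Fx.h30
  generalize H4.Fx.Jm (ZMod 3) = J at hJ h0 hs
  obtain ⟨v, h1, h2⟩ := H2.E8L.main' hF (H4.T8.rho.comp (H.subtype.comp (S.subtype.comp e.symm.toMonoidHom)))
    (H4.T8.fac.comp _ (Subtype.val_injective.comp (Subtype.val_injective.comp e.symm.injective)))
    (fun x hx => H4.Fx.e7 _ (by rw [← map_pow, hx, map_one])) (Matrix.toBilin' J)
    (fun v w => by rw [Matrix.toBilin'_apply', Matrix.toBilin'_apply', Matrix.dotProduct_mulVec, ← Matrix.mulVec_transpose, hs,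
      dotProduct_comm])
    (fun v h => by
      rw [← Matrix.one_mulVec v, ← h0, ← Matrix.mulVec_mulVec, show J.mulVec v = 0 from dotProduct_eq_zero _ fun w => by
        rw [← h w, Matrix.toBilin'_apply', Matrix.dotProduct_mulVec, ← Matrix.mulVec_transpose, hs], Matrix.mulVec_zero])
    fun g v w => by
      change Matrix.toBilin' J ((e.symm g).1.1.1.1.mulVec v) ((e.symm g).1.1.1.1.mulVec w) = _
      rw [Matrix.toBilin'_apply', Matrix.toBilin'_apply', Matrix.mulVec_mulVec, Matrix.dotProduct_mulVec, ← Matrix.vecMul_transpose,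
        Matrix.vecMul_vecMul, ← mul_assoc, hJ, Matrix.dotProduct_mulVec]
  replace h2 : ∀ a ∈ S, H4.T8.rho a.1 v = v := fun a ha => by simpa using h2 (e ⟨a, ha⟩)
  obtain ⟨x, h4, h5⟩ : ∃ x ≠ 0, ∀ a : H, ∃ c : ZMod 3, c * c = 1 ∧ H4.T8.rho a.1 x = c • x := by
    by_cases h : ∀ a, a ∈ S
    · exact ⟨v, h1, fun a => ⟨1, rfl, by rw [h2 a (h a), one_smul]⟩⟩
    obtain ⟨b, hb⟩ := not_forall.1 h
    have h4 : S.index = 2 := by
      have := S.index_ne_zero_of_finite
      have := S.index_eq_one.not.2 fun e => hb (e ▸ Subgroup.mem_top b)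
      omega
    have h5 : ∀ a ∉ S, H4.T8.rho a.1 v = H4.T8.rho b.1 v := fun a ha => by
      rw [← mul_inv_cancel_left b a, Subgroup.coe_mul, map_mul, Module.End.mul_apply,
        h2 _ ((Subgroup.mul_mem_iff_of_index_two h4).2 (by simp [ha, hb]))]
    by_cases h6 : v + H4.T8.rho b.1 v = 0
    · refine ⟨v, h1, fun a => ?_⟩
      by_cases ha : a ∈ S
      · exact ⟨1, rfl, by rw [h2 a ha, one_smul]⟩
      · exact ⟨-1, rfl, by rw [h5 a ha, neg_one_smul, eq_neg_of_add_eq_zero_right h6]⟩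
    refine ⟨_, h6, fun a => ⟨1, rfl, ?_⟩⟩
    rw [one_smul, map_add, ← Module.End.mul_apply, ← map_mul, ← Subgroup.coe_mul]
    by_cases ha : a ∈ S
    · rw [h2 a ha, h5 _ ((Subgroup.mul_mem_iff_of_index_two h4).not.2 (by simp [ha, hb]))]
    · rw [h5 a ha, h2 _ ((Subgroup.mul_mem_iff_of_index_two h4).2 (by simp [ha, hb])), add_comm]
  obtain ⟨A, h6, h7⟩ := H4.Fx.core hc (x := algebraMap (ZMod 3) H4.T8.KK ∘ x)
    (fun e => h4 (funext fun i => (map_eq_zero _).1 (congrFun e i)))
    (funext fun i => RingHom.congr_fun (Subsingleton.elim ((frobenius _ 3).comp (algebraMap (ZMod 3) H4.T8.KK))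
      (algebraMap (ZMod 3) H4.T8.KK)) _) fun a ha => by
      obtain ⟨c, h6, h7⟩ := h5 ⟨a, ha⟩
      refine ⟨algebraMap _ _ c, by rw [← map_mul, h6, map_one], funext fun i => ?_⟩
      rw [H4.Fx.FF_val, ← RingHom.map_mulVec]
      exact (congrArg _ (congrFun h7 i)).trans (map_mul _ _ _)
  exact (hA A h6).not_ge h7

end Cfsg.Agent.S5920
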