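import Cfsg.Statements.S5935
import Cfsg.Agent.H6.Vr
import Cfsg.Agent.H6.Vj
import Cfsg.Agent.H6.Vk
import Cfsg.Agent.H6.Vm

set_option autoImplicit false
open Cfsg

namespace Cfsg.Agent.S5935

/-- The Chevalley group of type E₇ over the field with two elements (generated by its root elements in the adjoint representation; the simple group E₇(2)) has no maximal subgroup H whose generalized Fitting subgroup F*(H) is isomorphic to any of: PSL₂(19), PSL₂(27), PSL₄(3), PSU₄(3), Ω₇(3) (commutator subgroup of the isometry group of a non-degenerate quadratic form in dimension 7 over the field with three elements), the Chevalley group G₂(3), the alternating group of degree 13, the Hall–Janko sporadic group J₂, or the Chevalley group G₂(8). Here F₁₉, F₂₇, F₉, F₈ denote fields with 19, 27, 9 and 8 elements (PSU₄(3) is realised over F₉). -/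
theorem result
    {F₁₉ F₂₇ F₉ F₈ : Type*} [Field F₁₉] [Fintype F₁₉] (h19 : Fintype.card F₁₉ = 19) [Field F₂₇] [Fintype F₂₇] (h27 : Fintype.card F₂₇ = 27)
    [Field F₉] [Fintype F₉] (h9 : Fintype.card F₉ = 9) [Field F₈] [Fintype F₈] (h8 : Fintype.card F₈ = 8) (H : Subgroup ↥(Cfsg.Lie.chevE7.group (ZMod 2))) (hH : IsCoatom H) :
    IsEmpty (↥(Cfsg.generalizedFittingSubgroup ↥H) ≃* Matrix.ProjectiveSpecialLinearGroup (Fin 2) F₁₉) ∧ IsEmpty (↥(Cfsg.generalizedFittingSubgroup ↥H) ≃* Matrix.ProjectiveSpecialLinearGroup (Fin 2) F₂₇) ∧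
    IsEmpty (↥(Cfsg.generalizedFittingSubgroup ↥H) ≃* Matrix.ProjectiveSpecialLinearGroup (Fin 4) (ZMod 3)) ∧ IsEmpty (↥(Cfsg.generalizedFittingSubgroup ↥H) ≃* Cfsg.PSU 4 F₉ 3) ∧
    IsEmpty (↥(Cfsg.generalizedFittingSubgroup ↥H) ≃* ↥(Cfsg.Omega (ZMod 3) (Cfsg.quadFormOdd 3 (ZMod 3)))) ∧ IsEmpty (↥(Cfsg.generalizedFittingSubgroup ↥H) ≃* ↥(Cfsg.Lie.chevG2.group (ZMod 3))) ∧
    IsEmpty (↥(Cfsg.generalizedFittingSubgroup ↥H) ≃* ↥(alternatingGroup (Fin 13))) ∧ ¬ Cfsg.Spor.IsoJ2 ↥(Cfsg.generalizedFittingSubgroup ↥H) ∧ IsEmpty (↥(Cfsg.generalizedFittingSubgroup ↥H) ≃* ↥(Cfsg.Lie.chevG2.group F₈)) := by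
  have : CharP F₂₇ 3 := charP_of_card_eq_prime_pow (p := 3) (f := 3) h27
  exact ⟨H7.Ord.empty_of (H6.Va.no_L19 h19) H _, H6.Va.psl_empty (fun _ h => h) (H6.Va.no_L27 h27) hH,
    H6.Va.psl_empty (by decide) H6.Va.no_L43 hH, H7.Ord.empty_of (H6.Va.no_U43 h9) H _,
    H7.Ord.empty_of H6.Va.no_O7 H _, H7.Ord.empty_of H6.Va.no_G23 H _, H7.Ord.empty_of H6.Va.no_A13 H _,
    fun ⟨e⟩ => (H7.Ord.empty_of H6.Va.no_J2 H _).false e, H7.Ord.empty_of (H6.Va.no_G28 h8) H _⟩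

end Cfsg.Agent.S5935
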