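import Cfsg.Statements.S5947
import Cfsg.Agent.H2.Singer

set_option autoImplicit false
open Cfsg

namespace Cfsg.Agent.S5947

theorem exists_cyclic_vector {F V : Type*} [Field F] [AddCommGroup V] [Module F V]
    [Finite (Module.End F V)] (B : Subalgebra F (Module.End F V))
    (hcomm : ∀ x ∈ B, ∀ y ∈ B, x * y = y * x) {N : ℕ} (hN : 0 < N)
    (hpow : ∀ x ∈ B, x ^ (N + 1) = x) : ∃ v : V, ∀ b ∈ B, b v = 0 → b = 0 := by
  let f : V → ℕ := fun v => Set.ncard {b : Module.End F V | b ∈ B ∧ b v = 0}
  obtain ⟨v, hv⟩ : ∃ v, ∀ w, f v ≤ f w := ⟨Function.argmin f, fun w => Function.argmin_le f w⟩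
  refine ⟨v, fun b hb hbv => ?_⟩
  by_contra hb0
  have he : b ^ N ∈ B := pow_mem hb N
  have heb : b ^ N * b = b := by rw [← pow_succ, hpow b hb]
  have hee : b ^ N * b ^ N = b ^ N := by
    obtain ⟨M, rfl⟩ : ∃ M, N = M + 1 := ⟨N - 1, by omega⟩
    calc b ^ (M + 1) * b ^ (M + 1) = (b ^ (M + 1) * b) * b ^ M := by rw [mul_assoc, ← pow_succ' b M]
      _ = b ^ (M + 1) := by rw [heb, ← pow_succ']
  have hev : (b ^ N) v = 0 := by
    obtain ⟨M, rfl⟩ : ∃ M, N = M + 1 := ⟨N - 1, by omega⟩
    rw [pow_succ, Module.End.mul_apply, hbv, map_zero]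
  have he0 : b ^ N ≠ 0 := by
    intro h; rw [h, zero_mul] at heb; exact hb0 heb.symm
  obtain ⟨w, hw⟩ : ∃ w, (b ^ N) w ≠ 0 := by
    by_contra h
    push Not at h
    exact he0 (LinearMap.ext h)
  have h1 : (b ^ N) (v + (b ^ N) w) = (b ^ N) w := by
    rw [map_add, hev, zero_add, ← Module.End.mul_apply, hee]
  have hlt : f (v + (b ^ N) w) < f v := by
    apply Set.ncard_lt_ncard _ (Set.toFinite _)
    constructor
    · rintro c ⟨hc, hc0⟩
      refine ⟨hc, ?_⟩
      have h2 : c ((b ^ N) w) = 0 := by
        rw [← h1, ← Module.End.mul_apply, hcomm c hc _ he, Module.End.mul_apply, hc0, map_zero]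
      rwa [map_add, h2, add_zero] at hc0
    · intro h
      exact hw (h1.symm.trans (h ⟨he, hev⟩).2)
  exact absurd (hv _) (not_le.mpr hlt)

/-- Let F ⊆ K be finite fields with |F| = q and [K : F] = n ≥ 2, regard K as an n-dimensional F-vector space, and let M ≤ GL_F(K) be the Singer group of multiplications by non-zero elements of K (cyclic of order q^n − 1). Assume (n, q) ≠ (6, 2), and that it is not the case that n = 2 with q a prime such that q + 1 is a power of 2. Then every abelian subgroup of GL_F(K) of order q^n − 1 is conjugate to M. -/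
theorem result {F K : Type*} [Field F] [Fintype F] [Field K] [Fintype K] [Algebra F K] (n : ℕ) (hn : 2 ≤ n) (hdim : Module.finrank F K = n)
    (hex1 : ¬ (n = 6 ∧ Fintype.card F = 2))
    (hex2 : ¬ (n = 2 ∧ (Fintype.card F).Prime ∧ ∃ a : ℕ, Fintype.card F + 1 = 2 ^ a))
    (U : Subgroup (Module.End F K)ˣ) (hU : IsMulCommutative U) (hcard : Nat.card U = Fintype.card K - 1) :
    ∃ g : (Module.End F K)ˣ, U.map (MulAut.conj g).toMonoidHom = (Units.map ((Algebra.lmul F K : K →ₐ[F] Module.End F K) : K →* Module.End F K)).range := by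
  classical
  open Cfsg.Agent.H2.Singer in
  have : Finite (Module.End F K) := DFunLike.finite _
  let S : Set (Module.End F K) := Units.val '' (U : Set (Module.End F K)ˣ)
  have hS : ∀ x ∈ S, ∀ y ∈ S, x * y = y * x := by
    rintro _ ⟨x, hx, rfl⟩ _ ⟨y, hy, rfl⟩
    rw [← Units.val_mul, ← Units.val_mul]
    congr 1
    exact congrArg Subtype.val (hU.is_comm.comm ⟨x, hx⟩ ⟨y, hy⟩)
  let B := Algebra.adjoin F S
  letI CR : CommRing B := Algebra.adjoinCommRingOfComm F hS
  have hcomm : ∀ x ∈ B, ∀ y ∈ B, x * y = y * x := fun x hx y hy =>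
    congrArg Subtype.val (mul_comm (⟨x, hx⟩ : B) ⟨y, hy⟩)
  have hK1 : 1 < Fintype.card K := Fintype.one_lt_card
  have hKc : Fintype.card K = Fintype.card F ^ n := by
    rw [← hdim, Module.card_eq_pow_finrank (K := F)]
  obtain ⟨p, hchar⟩ := CharP.exists F
  obtain ⟨m, hp, hm⟩ := FiniteField.card F p
  have hpf := Fact.mk hp
  have hpow : ∀ x ∈ B, x ^ (Fintype.card K - 1 + 1) = x := by
    intro x hx
    induction hx using Algebra.adjoin_induction with
    | mem x hx =>
      obtain ⟨u, hu, rfl⟩ := hx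
      rw [← Units.val_pow_eq_pow_val, pow_succ, ← hcard]
      have := congrArg Subtype.val (pow_card_eq_one' (x := (⟨u, hu⟩ : U)))
      simp only [SubmonoidClass.coe_pow, OneMemClass.coe_one] at this
      rw [this, one_mul]
    | algebraMap c =>
      rw [Nat.sub_add_cancel hK1.le, ← map_pow, hKc, FiniteField.pow_card_pow]
    | add x y hx hy ihx ihy =>
      rw [Nat.sub_add_cancel hK1.le] at ihx ihy ⊢
      have : CharP (Module.End F K) p := charP_of_injective_algebraMap' F p
      have hq : Fintype.card K = p ^ (m * n) := by rw [hKc, hm, ← pow_mul]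
      rw [hq] at ihx ihy ⊢
      rw [add_pow_char_pow_of_commute _ _ (hcomm x hx y hy), ihx, ihy]
    | mul x y hx hy ihx ihy =>
      rw [(show Commute x y from hcomm x hx y hy).mul_pow, ihx, ihy]
  obtain ⟨v, hv⟩ := exists_cyclic_vector B hcomm (by omega) hpow
  let ev : B →ₗ[F] K :=
    { toFun := fun b => (b : Module.End F K) v
      map_add' := fun _ _ => rfl
      map_smul' := fun _ _ => rfl }
  have hev : Function.Injective ev := by
    rw [injective_iff_map_eq_zero]
    intro b hb
    exact Subtype.ext (hv b b.2 hb)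
  have hle : Nat.card B ≤ Fintype.card K := by
    rw [← Nat.card_eq_fintype_card]
    exact Nat.card_le_card_of_injective _ hev
  let j : Option U → B := fun o => o.elim 0 (fun u => ⟨(u : (Module.End F K)ˣ),
    Algebra.subset_adjoin ⟨u, u.2, rfl⟩⟩)
  have hj : Function.Injective j := by
    rintro (_ | a) (_ | b) hab
    · rfl
    · exact absurd (congrArg Subtype.val hab).symm (b : (Module.End F K)ˣ).ne_zero
    · exact absurd (congrArg Subtype.val hab) (a : (Module.End F K)ˣ).ne_zero
    · exact congrArg some (Subtype.ext (Units.ext (congrArg Subtype.val hab)))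
  have hcO : Nat.card (Option U) = Fintype.card K := by
    rw [Finite.card_option, hcard]; omega
  have hcB : Nat.card B = Fintype.card K :=
    le_antisymm hle (hcO ▸ Nat.card_le_card_of_injective _ hj)
  have hjb : Function.Bijective j := (Nat.bijective_iff_injective_and_card j).mpr ⟨hj, by
    rw [hcO, hcB]⟩
  have hevb : Function.Bijective ev := (Nat.bijective_iff_injective_and_card ev).mpr ⟨hev, by
    rw [hcB, Nat.card_eq_fintype_card]⟩
  have hfield : IsField B :=
    { exists_pair_ne := ⟨0, 1, fun h => zero_ne_one (congrArg Subtype.val h)⟩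
      mul_comm := mul_comm
      mul_inv_cancel := by
        intro a ha
        obtain ⟨_ | u, rfl⟩ := hjb.2 a
        · exact absurd rfl ha
        · refine ⟨j (some u⁻¹), Subtype.ext ?_⟩
          change ((u : (Module.End F K)ˣ) : Module.End F K) * ((u⁻¹ : U) : (Module.End F K)ˣ) = 1
          rw [← Units.val_mul, ← Subgroup.coe_mul, mul_inv_cancel]; rfl }
  letI : Field B := hfield.toField
  have hfr : Module.finrank F B = Module.finrank F K :=
    (LinearEquiv.ofBijective ev hevb).finrank_eq
  obtain ⟨φ⟩ := FiniteField.nonempty_algHom_of_finrank_dvd (F := F) (K := B) (L := K) (by rw [hfr])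
  have hφ : Function.Bijective φ := (Nat.bijective_iff_injective_and_card φ).mpr
    ⟨φ.toRingHom.injective, by rw [hcB, Nat.card_eq_fintype_card]⟩
  let e : K ≃ₗ[F] K := (LinearEquiv.ofBijective ev hevb).symm.trans
    (LinearEquiv.ofBijective φ.toLinearMap hφ)
  have he : ∀ b : B, e (ev b) = φ b := by
    intro b
    change φ ((LinearEquiv.ofBijective ev hevb).symm ((LinearEquiv.ofBijective ev hevb) b)) = _
    rw [LinearEquiv.symm_apply_apply]
  let g : (Module.End F K)ˣ := LinearMap.GeneralLinearGroup.ofLinearEquiv e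
  refine ⟨g, ?_⟩
  apply Subgroup.eq_of_le_of_card_ge
  · rintro _ ⟨u, hu, rfl⟩
    rw [mem_singer_iff]
    refine ⟨φ (j (some ⟨u, hu⟩)), fun x => ?_⟩
    obtain ⟨b, rfl⟩ := hφ.2 x
    have h1 : ((g⁻¹ : (Module.End F K)ˣ) : Module.End F K) (φ b) = ev b := by
      rw [← he]; exact inv_apply_apply g (ev b)
    simp only [MulEquiv.toMonoidHom_eq_coe, MonoidHom.coe_coe, MulAut.conj_apply, Units.val_mul,
      Module.End.mul_apply]
    rw [h1, ← map_mul, ← he]
    rfl
  · rw [Subgroup.card_map_of_injective (MulAut.conj g).injective, card_singer, hcard,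
      Nat.card_eq_fintype_card]

end Cfsg.Agent.S5947
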